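import Mathlib
import Cfsg.Prelude.Def_BaumannBlocks
import Cfsg.Agent.Lib.Helper17.CD
import Cfsg.Agent.Lib.Helper17.CL
import Cfsg.Agent.Lib.Helper17.CL2

set_option autoImplicit false
open scoped Pointwise commutatorElement

namespace Cfsg.Agent.Lib.Helper17.CL3

open Cfsg.Agent.Lib.Helper17.CD Cfsg.Agent.Lib.Helper17.CL Cfsg.Agent.Lib.Helper17.CL2

variable {G : Type*} [Group G]

theorem cl_centralizer_le [Finite G] {Q : Subgroup G} (hQ : Cfsg.IsCentrallyLarge Q) :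
    Subgroup.centralizer (Q : Set G) ≤ Q := by
  have h := (cl_large hQ).2
  rw [h]; exact inf_le_left

theorem cl_inf_sup_centralizer [Finite G] {Q R : Subgroup G} (hQ : Cfsg.IsCentrallyLarge Q)
    (hR : Cfsg.IsCentrallyLarge R) :
    Cfsg.IsCentrallyLarge ((Q ⊓ R) ⊔ Subgroup.centralizer (Q : Set G)) := by
  have hQl := (cl_large hQ).1
  have hRl := (cl_large hR).1
  have hZQ := cl_centralizer_le hQ
  have hZR := cl_centralizer_le hR
  obtain ⟨-, -, hI, hCQ, hCCQ, hset, hCI⟩ := large_main hQl hRl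
  have hl : Cfsg.IsCentralizerLarge ((Q ⊓ R) ⊔ Subgroup.centralizer (Q : Set G)) :=
    (large_sup_inf hI hCQ).1
  rw [cl_iff hl, centralizer_sup, hCI, ← hCCQ]
  rintro x ⟨hx1, hx2⟩
  have hx1' : x ∈ ((Subgroup.centralizer (Q : Set G) ⊔ Subgroup.centralizer (R : Set G) : Subgroup G) : Set G) :=
    hx1
  rw [hset] at hx1'
  obtain ⟨a, ha, b, hb, rfl⟩ := Set.mem_mul.1 hx1'
  have hbQ : b ∈ Q := by
    have := Q.mul_mem (Q.inv_mem (hZQ ha)) hx2
    simpa using this
  exact Subgroup.mul_mem _ (Subgroup.mem_sup_right ha) (Subgroup.mem_sup_left ⟨hbQ, hZR hb⟩)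

theorem cl_inf_sup_center [Finite G] {Q R : Subgroup G} (hQ : Cfsg.IsCentrallyLarge Q)
    (hR : Cfsg.IsCentrallyLarge R) :
    Cfsg.IsCentrallyLarge ((Q ⊓ R) ⊔ (Q ⊓ Subgroup.centralizer (Q : Set G))) := by
  rw [inf_eq_right.2 (cl_centralizer_le hQ)]
  exact cl_inf_sup_centralizer hQ hR

theorem mcl_eq [Finite G] {Q R : Subgroup G} (hQ : Cfsg.IsMinimalCentrallyLarge Q)
    (hR : Cfsg.IsCentrallyLarge R) :
    (Q ⊓ R) ⊔ (Q ⊓ Subgroup.centralizer (Q : Set G)) = Q :=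
  hQ.2 _ (sup_le inf_le_left inf_le_left) (cl_inf_sup_center hQ.1 hR)

theorem comm_mul_left_central {a z g : G} (h : z * g = g * z) : ⁅a * z, g⁆ = ⁅a, g⁆ := by
  rw [commutatorElement_def, commutatorElement_def]
  have : a * z * g * (a * z)⁻¹ * g⁻¹ = a * (z * g * z⁻¹) * a⁻¹ * g⁻¹ := by group
  rw [this, h, mul_inv_cancel_right]

theorem comm_mul_right_central {a b z : G} (h : z * a = a * z) : ⁅a, b * z⁆ = ⁅a, b⁆ := by
  rw [commutatorElement_def, commutatorElement_def]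
  have : a * (b * z) * a⁻¹ * (b * z)⁻¹ = a * b * (z * a⁻¹ * z⁻¹) * b⁻¹ := by group
  have h' : z * a⁻¹ = a⁻¹ * z := (Commute.inv_right (show Commute z a from h)).eq
  rw [this, h', mul_inv_cancel_right]

theorem commutator_eq_of_sup_central {H A Z : Subgroup G} (h : A ⊔ Z = H)
    (hZ : Z ≤ Subgroup.centralizer (H : Set G)) : ⁅H, H⁆ = ⁅A, A⁆ := by
  have hAH : A ≤ H := h ▸ le_sup_left
  have hZH : Z ≤ H := h ▸ le_sup_right
  have hHZ : H ≤ Subgroup.centralizer (Z : Set G) := Subgroup.le_centralizer_iff.1 hZ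
  have hset : ((A ⊔ Z : Subgroup G) : Set G) = (A : Set G) * (Z : Set G) :=
    Subgroup.coe_mul_of_left_le_normalizer_right A Z
      ((hAH.trans hHZ).trans (Subgroup.centralizer_le_normalizer _))
  apply le_antisymm
  · rw [Subgroup.commutator_le]
    intro g₁ hg₁ g₂ hg₂
    have hg₁' : g₁ ∈ ((A ⊔ Z : Subgroup G) : Set G) := by rw [h]; exact hg₁
    have hg₂' : g₂ ∈ ((A ⊔ Z : Subgroup G) : Set G) := by rw [h]; exact hg₂
    rw [hset] at hg₁' hg₂'
    obtain ⟨a₁, ha₁, z₁, hz₁, rfl⟩ := Set.mem_mul.1 hg₁'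
    obtain ⟨a₂, ha₂, z₂, hz₂, rfl⟩ := Set.mem_mul.1 hg₂'
    have e1 : z₁ * (a₂ * z₂) = (a₂ * z₂) * z₁ :=
      ((Subgroup.mem_centralizer_iff.1 (hZ hz₁)) _ hg₂).symm
    have e2 : z₂ * a₁ = a₁ * z₂ :=
      ((Subgroup.mem_centralizer_iff.1 (hZ hz₂)) _ (hAH ha₁)).symm
    rw [comm_mul_left_central e1, comm_mul_right_central e2]
    exact Subgroup.commutator_mem_commutator ha₁ ha₂
  · exact Subgroup.commutator_mono hAH hAH

theorem nat_mcl {q r d i zq zr : ℕ} (h1 : q * d = i * zq) (h2 : r * d = i * zr)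
    (h3 : q * zq = r * zr) (hd : 0 < d) (hq : 0 < q) (hzq : 0 < zq) (hzr : 0 < zr) :
    q = r ∧ zq = zr := by
  have e1 : q * zr * d = r * zq * d := by
    calc q * zr * d = (q * d) * zr := by ring
      _ = (i * zq) * zr := by rw [h1]
      _ = (i * zr) * zq := by ring
      _ = (r * d) * zq := by rw [h2]
      _ = r * zq * d := by ring
  have e2 : q * zr = r * zq := Nat.eq_of_mul_eq_mul_right hd e1
  have e3 : q * q * (zq * zr) = r * r * (zq * zr) := by
    calc q * q * (zq * zr) = (q * zr) * (q * zq) := by ring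
      _ = (r * zq) * (r * zr) := by rw [e2, h3]
      _ = r * r * (zq * zr) := by ring
  have e4 : q * q = r * r := Nat.eq_of_mul_eq_mul_right (Nat.mul_pos hzq hzr) e3
  have e5 : q = r := Nat.mul_self_inj.1 e4
  subst e5
  exact ⟨rfl, Nat.eq_of_mul_eq_mul_left hq h3⟩

theorem mcl_center_inf_le [Finite G] {Q R : Subgroup G} (hQ : Cfsg.IsMinimalCentrallyLarge Q)
    (hR : Cfsg.IsMinimalCentrallyLarge R) :
    (Q ⊓ Subgroup.centralizer (Q : Set G)) ⊓ R ≤ R ⊓ Subgroup.centralizer (R : Set G) := by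
  have hRe := mcl_eq hR hQ.1
  have hC : Subgroup.centralizer (R : Set G) =
      Subgroup.centralizer ((R ⊓ Q : Subgroup G) : Set G) ⊓
        Subgroup.centralizer ((R ⊓ Subgroup.centralizer (R : Set G) : Subgroup G) : Set G) := by
    rw [← centralizer_sup, hRe]
  rintro x ⟨⟨-, hx2⟩, hx3⟩
  refine ⟨hx3, ?_⟩
  rw [hC]
  refine ⟨Subgroup.centralizer_le (SetLike.coe_subset_coe.2 inf_le_right) hx2, ?_⟩
  have : R ≤ Subgroup.centralizer ((R ⊓ Subgroup.centralizer (R : Set G) : Subgroup G) : Set G) := by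
    rw [Subgroup.le_centralizer_iff]; exact inf_le_right
  exact this hx3

theorem mcl_card_eq_aux [Finite G] {Q R : Subgroup G} (hQ : Cfsg.IsMinimalCentrallyLarge Q)
    (hR : Cfsg.IsMinimalCentrallyLarge R) :
    Nat.card ↥Q * Nat.card ↥((Q ⊓ Subgroup.centralizer (Q : Set G)) ⊓
        (R ⊓ Subgroup.centralizer (R : Set G)) : Subgroup G) =
      Nat.card ↥(Q ⊓ R : Subgroup G) * Nat.card ↥(Q ⊓ Subgroup.centralizer (Q : Set G) : Subgroup G) := by
  have hQe := mcl_eq hQ hR.1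
  have hle := mcl_center_inf_le hQ hR
  have hnorm : Q ⊓ R ≤ Subgroup.normalizer ((Q ⊓ Subgroup.centralizer (Q : Set G) : Subgroup G) : Set G) := by
    have : Q ≤ Subgroup.centralizer ((Q ⊓ Subgroup.centralizer (Q : Set G) : Subgroup G) : Set G) := by
      rw [Subgroup.le_centralizer_iff]; exact inf_le_right
    exact (inf_le_left.trans this).trans (Subgroup.centralizer_le_normalizer _)
  have hset := Subgroup.coe_mul_of_left_le_normalizer_right (Q ⊓ R)
    (Q ⊓ Subgroup.centralizer (Q : Set G)) hnorm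
  have h := card_mulSet_mul_card_inf (Q ⊓ R) (Q ⊓ Subgroup.centralizer (Q : Set G))
  rw [← hset] at h
  have e : (Q ⊓ R) ⊓ (Q ⊓ Subgroup.centralizer (Q : Set G)) =
      (Q ⊓ Subgroup.centralizer (Q : Set G)) ⊓ (R ⊓ Subgroup.centralizer (R : Set G)) := by
    apply le_antisymm
    · refine le_inf inf_le_right ?_
      refine le_trans ?_ hle
      exact le_inf inf_le_right (inf_le_left.trans inf_le_right)
    · exact le_inf (le_inf (inf_le_left.trans inf_le_left) (inf_le_right.trans inf_le_left)) inf_le_left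
  rw [e] at h
  have hc : Nat.card ↥(((Q ⊓ R) ⊔ (Q ⊓ Subgroup.centralizer (Q : Set G)) : Subgroup G) : Set G) =
      Nat.card ↥Q := by
    rw [hQe]; rfl
  rw [hc] at h
  exact h

theorem mcl_pair [Finite G] {Q R : Subgroup G} (hQ : Cfsg.IsMinimalCentrallyLarge Q)
    (hR : Cfsg.IsMinimalCentrallyLarge R) :
    ⁅Q, Q⁆ = ⁅R, R⁆ ∧ Nat.card ↥Q = Nat.card ↥R ∧
    Nat.card ↥(Q ⊓ Subgroup.centralizer (Q : Set G)) =
      Nat.card ↥(R ⊓ Subgroup.centralizer (R : Set G)) := by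
  have hQe := mcl_eq hQ hR.1
  have hRe := mcl_eq hR hQ.1
  refine ⟨?_, ?_⟩
  · rw [commutator_eq_of_sup_central hQe inf_le_right, commutator_eq_of_sup_central hRe inf_le_right,
      inf_comm]
  · have h1 := mcl_card_eq_aux hQ hR
    have h2 := mcl_card_eq_aux hR hQ
    rw [inf_comm (R ⊓ Subgroup.centralizer (R : Set G)), inf_comm R Q] at h2
    have hq : cmeas Q = Cfsg.maxCentralProduct G := (isCentrallyLarge_iff Q).1 hQ.1
    have hr : cmeas R = Cfsg.maxCentralProduct G := (isCentrallyLarge_iff R).1 hR.1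
    have h3 : Nat.card ↥Q * Nat.card ↥(Q ⊓ Subgroup.centralizer (Q : Set G)) =
        Nat.card ↥R * Nat.card ↥(R ⊓ Subgroup.centralizer (R : Set G)) := by
      have := hq.trans hr.symm
      unfold cmeas at this
      exact this
    exact nat_mcl h1 h2 h3 Nat.card_pos Nat.card_pos Nat.card_pos Nat.card_pos

theorem cmeas_of_comm {B : Subgroup G} (hB : IsMulCommutative ↥B) :
    cmeas B = Nat.card ↥B * Nat.card ↥B := by
  unfold cmeas
  rw [inf_eq_left.2 ((isMulComm_iff B).1 hB)]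

theorem maxAb_of_cl_comm [Finite G] {Q : Subgroup G} (hQ : Cfsg.IsCentrallyLarge Q)
    (hab : IsMulCommutative ↥Q) : Q ∈ Cfsg.maxAbelianSubgroups G := by
  refine ⟨hab, fun B hB => ?_⟩
  have h1 := cmeas_le_max B
  rw [← (isCentrallyLarge_iff Q).1 hQ, cmeas_of_comm hB, cmeas_of_comm hab] at h1
  exact Nat.mul_self_le_mul_self_iff.1 h1

theorem mcl_iff_maxAb [Finite G] {Q : Subgroup G} (hQ : Cfsg.IsMinimalCentrallyLarge Q)
    (hab : IsMulCommutative ↥Q) (X : Subgroup G) :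
    Cfsg.IsMinimalCentrallyLarge X ↔ X ∈ Cfsg.maxAbelianSubgroups G := by
  have hQm := maxAb_of_cl_comm hQ.1 hab
  have hQmax : cmeas Q = Cfsg.maxCentralProduct G := (isCentrallyLarge_iff Q).1 hQ.1
  constructor
  · intro hX
    obtain ⟨hc, hcard, -⟩ := mcl_pair hX hQ
    have hQc : ⁅Q, Q⁆ = ⊥ := by
      rw [Subgroup.commutator_eq_bot_iff_le_centralizer]
      exact (isMulComm_iff Q).1 hab
    rw [hQc, Subgroup.commutator_eq_bot_iff_le_centralizer] at hc
    exact maxAb_of_card hQm ((isMulComm_iff X).2 hc) hcard.ge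
  · intro hX
    have hcard : Nat.card ↥X = Nat.card ↥Q := le_antisymm (hQm.2 X hX.1) (hX.2 Q hab)
    have hXcl : Cfsg.IsCentrallyLarge X := by
      rw [isCentrallyLarge_iff, cmeas_of_comm hX.1, hcard, ← cmeas_of_comm hab, hQmax]
    refine ⟨hXcl, fun X' hle hX' => ?_⟩
    have hX'ab := isMulComm_of_le hX.1 hle
    have h1 : cmeas X' = cmeas X :=
      ((isCentrallyLarge_iff X').1 hX').trans ((isCentrallyLarge_iff X).1 hXcl).symm
    rw [cmeas_of_comm hX'ab, cmeas_of_comm hX.1] at h1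
    have h2 : Nat.card ↥X' = Nat.card ↥X := Nat.mul_self_inj.1 h1
    exact Subgroup.eq_of_le_of_card_ge hle h2.ge

end Cfsg.Agent.Lib.Helper17.CL3
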