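import Mathlib

set_option autoImplicit false

/-!
A Möbius function on the subgroup lattice of a finite group, based at a subgroup `H`,
with its defining property on intervals `[H, L]` and Weisner's theorem.
-/

namespace Cfsg.Agent.Lib.Helper17.Mobius

open scoped Classical

universe u
variable {G : Type u} [Group G] [Fintype (Subgroup G)]

noncomputable def muAux (H K : Subgroup G) (rec : ∀ K' : Subgroup G, K' < K → ℤ) : ℤ :=
  if K = H then 1 else
    - ∑ K' ∈ (Finset.univ.filter (fun K' : Subgroup G => K' < K)).attach,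
        (if H ≤ K'.1 then rec K'.1 (Finset.mem_filter.1 K'.2).2 else 0)

noncomputable def mu (H : Subgroup G) : Subgroup G → ℤ :=
  WellFounded.fix (wellFounded_lt (α := Subgroup G)) (muAux H)

theorem mu_eq (H K : Subgroup G) : mu H K = if K = H then 1 else
    - ∑ K' ∈ Finset.univ.filter (fun K' : Subgroup G => K' < K),
        (if H ≤ K' then mu H K' else 0) := by
  have h := WellFounded.fix_eq (wellFounded_lt (α := Subgroup G)) (muAux H) K
  unfold mu
  rw [h]
  unfold muAux
  split_ifs with hK
  · rfl
  · congr 1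
    exact Finset.sum_attach _
      (fun K' => if H ≤ K' then WellFounded.fix (wellFounded_lt (α := Subgroup G)) (muAux H) K' else 0)

theorem mu_self (H : Subgroup G) : mu H H = 1 := by rw [mu_eq]; simp

/-- The defining property: `μ` sums to zero over every nontrivial interval `[H, L]`. -/
theorem sum_mu (H L : Subgroup G) (hHL : H < L) :
    ∑ K : Subgroup G, (if H ≤ K ∧ K ≤ L then mu H K else 0) = 0 := by
  have hL : mu H L = - ∑ K' ∈ Finset.univ.filter (fun K' : Subgroup G => K' < L),
      (if H ≤ K' then mu H K' else 0) := by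
    rw [mu_eq, if_neg hHL.ne']
  have h1 : ∀ K : Subgroup G, (if H ≤ K ∧ K ≤ L then mu H K else 0) =
      (if K < L then (if H ≤ K then mu H K else 0) else 0) + (if K = L then mu H L else 0) := by
    intro K
    by_cases hKL : K = L
    · subst hKL; simp [hHL.le]
    · by_cases hlt : K < L
      · simp [hlt, hlt.le, hKL]
      · have : ¬ K ≤ L := fun h => hlt (lt_of_le_of_ne h hKL)
        simp [hlt, this, hKL]
  have h2 : ∑ x : Subgroup G, (if x = L then mu H L else 0) = mu H L := by simp
  rw [Finset.sum_congr rfl (fun K _ => h1 K), Finset.sum_add_distrib, ← Finset.sum_filter, h2, hL]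
  exact add_neg_cancel _

/-- Weisner's theorem for the interval `[H, L]` and an element `A > H`. -/
theorem weisner (H A : Subgroup G) (hA : H < A) (L : Subgroup G) :
    ∑ K : Subgroup G, (if H ≤ K ∧ K ≤ L ∧ K ⊔ A = L then mu H K else 0) = 0 := by
  refine WellFoundedLT.induction (motive := fun L : Subgroup G =>
    ∑ K : Subgroup G, (if H ≤ K ∧ K ≤ L ∧ K ⊔ A = L then mu H K else 0) = 0) L ?_
  intro L ih
  by_cases hAL : A ≤ L
  · have hHL : H < L := lt_of_lt_of_le hA hAL
    have h0 := sum_mu H L hHL
    have h1 : ∀ K : Subgroup G, (if H ≤ K ∧ K ≤ L then mu H K else 0) =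
        ∑ M : Subgroup G, (if H ≤ K ∧ K ≤ L ∧ K ⊔ A = M then mu H K else 0) := by
      intro K
      by_cases hK : H ≤ K ∧ K ≤ L
      · simp [hK]
      · have : ∀ M, ¬ (H ≤ K ∧ K ≤ L ∧ K ⊔ A = M) := fun M h => hK ⟨h.1, h.2.1⟩
        simp [hK, this]
    rw [Finset.sum_congr rfl (fun K _ => h1 K), Finset.sum_comm] at h0
    rw [Finset.sum_eq_single L] at h0
    · exact h0
    · intro M _ hML
      by_cases hM : M ≤ L
      · have hlt : M < L := lt_of_le_of_ne hM hML
        refine Eq.trans ?_ (ih M hlt)
        apply Finset.sum_congr rfl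
        intro K _
        apply if_congr _ rfl rfl
        constructor
        · rintro ⟨h1, h2, h3⟩; exact ⟨h1, h3 ▸ le_sup_left, h3⟩
        · rintro ⟨h1, h2, h3⟩; exact ⟨h1, h2.trans hM, h3⟩
      · apply Finset.sum_eq_zero
        intro K _
        rw [if_neg]
        rintro ⟨h1, h2, h3⟩
        exact hM (h3 ▸ sup_le h2 hAL)
    · intro h; exact absurd (Finset.mem_univ L) h
  · apply Finset.sum_eq_zero
    intro K _
    rw [if_neg]
    rintro ⟨h1, h2, h3⟩
    exact hAL (h3 ▸ le_sup_right)

end Cfsg.Agent.Lib.Helper17.Mobius
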