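import Mathlib
import Cfsg.Prelude.Def_Solvable
import Cfsg.Agent.Lib.Helper16.Basic
import Cfsg.Agent.Lib.Helper9.Cores
import Cfsg.Agent.Lib.Helper12.SylowBasic

set_option autoImplicit false

namespace Cfsg.Agent.Lib.Helper17.Subnorm

open Cfsg

universe u
variable {G : Type u} [Group G]

/-- Every subgroup of a finite nilpotent group is subnormal. -/
theorem isSubnormal_of_isNilpotent [Finite G] [Group.IsNilpotent G] (H : Subgroup G) :
    H.IsSubnormal := by
  refine WellFoundedGT.induction (motive := fun H : Subgroup G => H.IsSubnormal) H ?_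
  intro H ih
  by_cases hH : H = ⊤
  · subst hH; exact Subgroup.IsSubnormal.top
  · have hnc : NormalizerCondition G := Group.normalizerCondition_of_isNilpotent
    have hlt : H < Subgroup.normalizer (H : Set G) := hnc H (lt_top_iff_ne_top.2 hH)
    exact Subgroup.IsSubnormal.step H _ hlt.le (ih _ hlt) Subgroup.normal_in_normalizer

/-- A `p`-subgroup `H ≤ K` is subnormal in `K` iff it lies in `O_p(K)`. -/
theorem isSubnormal_iff_le_pCoreOf [Finite G] {p : ℕ} [Fact p.Prime] {H K : Subgroup G}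
    (hH : IsPGroup p H) (hHK : H ≤ K) :
    (H.subgroupOf K).IsSubnormal ↔ H ≤ (pCore p K).map K.subtype := by
  constructor
  · intro h
    have h1 : H.subgroupOf K ≤ pCore p K :=
      Cfsg.Agent.Lib.Helper9.le_pCore_of_isSubnormal h hH.comap_subtype
    intro x hx
    exact ⟨⟨x, hHK hx⟩, h1 (by rw [Subgroup.mem_subgroupOf]; exact hx), rfl⟩
  · intro h
    have h1 : H.subgroupOf K ≤ pCore p K := by
      intro x hx
      rw [Subgroup.mem_subgroupOf] at hx
      obtain ⟨y, hy, hyx⟩ := h hx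
      have : y = x := Subtype.ext hyx
      rw [← this]; exact hy
    have hO : IsPGroup p (pCore p K) := Cfsg.Agent.Lib.Helper16.Basic.pCore_isPGroup
    haveI : Group.IsNilpotent (pCore p K) := hO.isNilpotent
    have h2 : ((H.subgroupOf K).subgroupOf (pCore p K)).IsSubnormal :=
      isSubnormal_of_isNilpotent _
    have h3 : (pCore p K).IsSubnormal :=
      (Cfsg.Agent.Lib.Helper16.Basic.pCore_normal' (p := p) K).isSubnormal
    exact Subgroup.IsSubnormal.trans h1 h2 h3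

/-- If `H ≤ K ≤ K'` and `H ≤ O_p(K')` then `H ≤ O_p(K)`. -/
theorem le_pCoreOf_of_le [Finite G] {p : ℕ} [Fact p.Prime] {H K K' : Subgroup G} (hKK' : K ≤ K')
    (hHK : H ≤ K) (h : H ≤ (pCore p K').map K'.subtype) : H ≤ (pCore p K).map K.subtype := by
  obtain ⟨N, hN⟩ : ∃ N, N = (pCore p K').map K'.subtype ⊓ K := ⟨_, rfl⟩
  have hNK : N ≤ K := hN ▸ inf_le_right
  have hNp : IsPGroup p N := by
    rw [hN]
    exact (Cfsg.Agent.Lib.Helper16.Basic.pCoreOf_isPGroup (K := K')).to_le inf_le_left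
  have hnorm : K ≤ Subgroup.normalizer (N : Set G) := by
    intro k hk
    have hk1 := Cfsg.Agent.Lib.Helper16.Basic.le_normalizer_pCoreOf (p := p) K' (hKK' hk)
    rw [Subgroup.mem_normalizer_iff] at hk1 ⊢
    intro x
    rw [hN, Subgroup.mem_inf, Subgroup.mem_inf, ← hk1 x]
    constructor
    · rintro ⟨h1, h2⟩
      exact ⟨h1, K.mul_mem (K.mul_mem hk h2) (K.inv_mem hk)⟩
    · rintro ⟨h1, h2⟩
      refine ⟨h1, ?_⟩
      have := K.mul_mem (K.mul_mem (K.inv_mem hk) h2) hk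
      simpa [mul_assoc] using this
  have := Cfsg.Agent.Lib.Helper16.Basic.le_pCoreOf hNK hnorm hNp
  exact fun x hx => this (by rw [hN]; exact ⟨h hx, hHK hx⟩)

/-- If the `p`-subgroup `H` is subnormal in `K`, there is a radical `p`-subgroup `R ≥ H`
(i.e. `R = O_p(N_G(R))`) with `K ≤ N_G(R)`. -/
theorem exists_radical [Finite G] {p : ℕ} [Fact p.Prime] {H : Subgroup G} (hH : IsPGroup p H)
    {K : Subgroup G} (hHK : H ≤ K) (hsn : (H.subgroupOf K).IsSubnormal) :
    ∃ R : Subgroup G, H ≤ R ∧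
      (pCore p (Subgroup.normalizer (R : Set G))).map (Subgroup.normalizer (R : Set G)).subtype = R ∧
      K ≤ Subgroup.normalizer (R : Set G) := by
  obtain ⟨R₀, hR₀⟩ : ∃ R₀, R₀ = (pCore p K).map K.subtype := ⟨_, rfl⟩
  have h0 : R₀ ∈ {R : Subgroup G | H ≤ R ∧ IsPGroup p R ∧
      K ≤ Subgroup.normalizer (R : Set G)} := by
    refine ⟨?_, ?_, ?_⟩
    · rw [hR₀]; exact (isSubnormal_iff_le_pCoreOf hH hHK).1 hsn
    · rw [hR₀]; exact Cfsg.Agent.Lib.Helper16.Basic.pCoreOf_isPGroup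
    · rw [hR₀]; exact Cfsg.Agent.Lib.Helper16.Basic.le_normalizer_pCoreOf K
  obtain ⟨R, hR₀R, hmax⟩ := (Set.toFinite _).exists_le_maximal h0
  obtain ⟨hHR, hRp, hKR⟩ := hmax.prop
  obtain ⟨R', hR'⟩ : ∃ R', R' = (pCore p (Subgroup.normalizer (R : Set G))).map
      (Subgroup.normalizer (R : Set G)).subtype := ⟨_, rfl⟩
  have hRR' : R ≤ R' := by
    rw [hR']
    exact Cfsg.Agent.Lib.Helper16.Basic.le_pCoreOf Subgroup.le_normalizer le_rfl hRp
  have hR'mem : R' ∈ {R : Subgroup G | H ≤ R ∧ IsPGroup p R ∧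
      K ≤ Subgroup.normalizer (R : Set G)} := by
    refine ⟨hHR.trans hRR', ?_, ?_⟩
    · rw [hR']; exact Cfsg.Agent.Lib.Helper16.Basic.pCoreOf_isPGroup
    · rw [hR']; exact hKR.trans (Cfsg.Agent.Lib.Helper16.Basic.le_normalizer_pCoreOf _)
  have hle : R' ≤ R := hmax.le_of_ge hR'mem hRR'
  exact ⟨R, hHR, by rw [← hR']; exact le_antisymm hle hRR', hKR⟩

/-- Conversely, a `p`-subgroup `H ≤ R` with `R` radical is subnormal in every subgroup `K`
with `H ≤ K ≤ N_G(R)`. -/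
theorem isSubnormal_of_radical [Finite G] {p : ℕ} [Fact p.Prime] {H R K : Subgroup G}
    (hH : IsPGroup p H) (hHR : H ≤ R)
    (hR : (pCore p (Subgroup.normalizer (R : Set G))).map
      (Subgroup.normalizer (R : Set G)).subtype = R)
    (hHK : H ≤ K) (hKR : K ≤ Subgroup.normalizer (R : Set G)) :
    (H.subgroupOf K).IsSubnormal := by
  rw [isSubnormal_iff_le_pCoreOf hH hHK]
  refine le_pCoreOf_of_le hKR hHK ?_
  rw [hR]; exact hHR

/-- A radical `p`-subgroup is the intersection of the Sylow `p`-subgroups containing it. -/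
theorem sInf_sylow_le_radical [Finite G] {p : ℕ} [Fact p.Prime] {R : Subgroup G}
    (hR : (pCore p (Subgroup.normalizer (R : Set G))).map
      (Subgroup.normalizer (R : Set G)).subtype = R) :
    sInf {K : Subgroup G | ∃ Q : Sylow p G, R ≤ (Q : Subgroup G) ∧ K = (Q : Subgroup G)} ≤ R := by
  obtain ⟨T, hT⟩ : ∃ T, T = sInf {K : Subgroup G | ∃ Q : Sylow p G, R ≤ (Q : Subgroup G) ∧
      K = (Q : Subgroup G)} := ⟨_, rfl⟩
  rw [← hT]
  have hRp : IsPGroup p R := by
    have := Cfsg.Agent.Lib.Helper16.Basic.pCoreOf_isPGroup (p := p)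
      (K := Subgroup.normalizer (R : Set G))
    rwa [hR] at this
  have hmemT : ∀ x, x ∈ T ↔ ∀ Q : Sylow p G, R ≤ (Q : Subgroup G) → x ∈ (Q : Subgroup G) := by
    intro x
    rw [hT, Subgroup.mem_sInf]
    constructor
    · intro h Q hQ; exact h _ ⟨Q, hQ, rfl⟩
    · rintro h K ⟨Q, hQ, rfl⟩; exact h Q hQ
  have hRT : R ≤ T := fun x hx => (hmemT x).2 (fun Q hQ => hQ hx)
  obtain ⟨Q₁, hQ₁⟩ := hRp.exists_le_sylow
  have hTp : IsPGroup p T := Q₁.isPGroup'.to_le (fun x hx => (hmemT x).1 hx Q₁ hQ₁)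
  by_contra hcon
  have hlt : R < T := lt_of_le_not_ge hRT hcon
  obtain ⟨x, hxT, hxN, hxR⟩ := Cfsg.Agent.Lib.Helper16.Basic.exists_mem_normalizer_not_mem hTp hlt
  apply hxR
  obtain ⟨M, hM⟩ : ∃ M, M = T ⊓ Subgroup.normalizer (R : Set G) := ⟨_, rfl⟩
  have hMN : M ≤ Subgroup.normalizer (R : Set G) := hM ▸ inf_le_right
  have hMp : IsPGroup p M := by rw [hM]; exact hTp.to_le inf_le_left
  have hnT : ∀ n ∈ Subgroup.normalizer (R : Set G), ∀ y ∈ T, n * y * n⁻¹ ∈ T := by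
    intro n hn y hy
    rw [hmemT] at hy ⊢
    intro Q hQ
    have h1 : R ≤ ((n⁻¹ • Q : Sylow p G) : Subgroup G) := by
      intro r hr
      rw [Cfsg.Agent.Lib.Helper12.SylowBasic.mem_smul_sylow_iff]
      have hr' : n * r * n⁻¹ ∈ R := (Subgroup.mem_normalizer_iff.1 hn r).1 hr
      simpa using hQ hr'
    have h2 := hy (n⁻¹ • Q) h1
    rw [Cfsg.Agent.Lib.Helper12.SylowBasic.mem_smul_sylow_iff] at h2
    simpa using h2
  have hnorm : Subgroup.normalizer (R : Set G) ≤ Subgroup.normalizer (M : Set G) := by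
    intro n hn
    rw [Subgroup.mem_normalizer_iff]
    intro y
    rw [hM, Subgroup.mem_inf, Subgroup.mem_inf]
    constructor
    · rintro ⟨h1, h2⟩
      exact ⟨hnT n hn y h1,
        Subgroup.mul_mem _ (Subgroup.mul_mem _ hn h2) (Subgroup.inv_mem _ hn)⟩
    · rintro ⟨h1, h2⟩
      have e : y = n⁻¹ * (n * y * n⁻¹) * n⁻¹⁻¹ := by group
      rw [e]
      exact ⟨hnT n⁻¹ (Subgroup.inv_mem _ hn) _ h1,
        Subgroup.mul_mem _ (Subgroup.mul_mem _ (Subgroup.inv_mem _ hn) h2)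
          (Subgroup.inv_mem _ (Subgroup.inv_mem _ hn))⟩
  have := Cfsg.Agent.Lib.Helper16.Basic.le_pCoreOf hMN hnorm hMp
  rw [hR] at this
  exact this (by rw [hM]; exact ⟨hxT, hxN⟩)

end Cfsg.Agent.Lib.Helper17.Subnorm
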