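import Mathlib
import Cfsg.Prelude.Def_Solvable
import Cfsg.Agent.Lib.Helper16.Basic
import Cfsg.Agent.Lib.Helper12.SylowBasic
import Cfsg.Agent.Lib.Helper9.Coprime
import Cfsg.Agent.Lib.Helper17.Subnorm
import Cfsg.Agent.Lib.Helper17.Mobius

set_option autoImplicit false

/-!
Casolo's count of the subnormalizer of a `p`-subgroup:
`|S_G(H)| · n_p(G) = λ_G(H) · |G|`, where `λ_G(H)` is the number of Sylow `p`-subgroups
containing `H`.
-/

namespace Cfsg.Agent.Lib.Helper17.Casolo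

open Cfsg
open scoped Classical
open Cfsg.Agent.Lib.Helper17.Mobius

universe u

section sn

variable {G : Type u} [Group G]

/-- `K` lies in a `p`-subgroup normalized by `g`. -/
def SN (p : ℕ) (K : Subgroup G) (g : G) : Prop :=
  ∃ R : Subgroup G, IsPGroup p R ∧ K ≤ R ∧ g ∈ Subgroup.normalizer (R : Set G)

theorem SN.mono {p : ℕ} {K K' : Subgroup G} {g : G} (h : SN p K g) (hle : K' ≤ K) :
    SN p K' g := by
  obtain ⟨R, h1, h2, h3⟩ := h
  exact ⟨R, h1, hle.trans h2, h3⟩

theorem sn_iff [Finite G] {p : ℕ} [Fact p.Prime] {K : Subgroup G} (hK : IsPGroup p K) (g : G) :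
    (K.subgroupOf (K ⊔ Subgroup.zpowers g)).IsSubnormal ↔ SN p K g := by
  constructor
  · intro h
    refine ⟨(pCore p ↥(K ⊔ Subgroup.zpowers g)).map (K ⊔ Subgroup.zpowers g).subtype,
      Cfsg.Agent.Lib.Helper16.Basic.pCoreOf_isPGroup,
      (Cfsg.Agent.Lib.Helper17.Subnorm.isSubnormal_iff_le_pCoreOf hK le_sup_left).1 h, ?_⟩
    exact Cfsg.Agent.Lib.Helper16.Basic.le_normalizer_pCoreOf _
      (Subgroup.mem_sup_right (Subgroup.mem_zpowers g))
  · rintro ⟨R, hR, hKR, hg⟩
    rw [Cfsg.Agent.Lib.Helper17.Subnorm.isSubnormal_iff_le_pCoreOf hK le_sup_left]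
    obtain ⟨X, hX⟩ : ∃ X, X = K ⊔ Subgroup.zpowers g := ⟨_, rfl⟩
    rw [← hX]
    have hKX : K ≤ X := hX ▸ le_sup_left
    have hXN : X ≤ Subgroup.normalizer (R : Set G) := by
      rw [hX]
      exact sup_le (hKR.trans Subgroup.le_normalizer) (by rw [Subgroup.zpowers_le]; exact hg)
    have hnorm : X ≤ Subgroup.normalizer ((R ⊓ X : Subgroup G) : Set G) := by
      intro k hk
      have hk1 := hXN hk
      rw [Subgroup.mem_normalizer_iff] at hk1 ⊢
      intro x
      rw [Subgroup.mem_inf, Subgroup.mem_inf, ← hk1 x]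
      constructor
      · rintro ⟨h1, h2⟩
        exact ⟨h1, X.mul_mem (X.mul_mem hk h2) (X.inv_mem hk)⟩
      · rintro ⟨h1, h2⟩
        refine ⟨h1, ?_⟩
        have := X.mul_mem (X.mul_mem (X.inv_mem hk) h2) hk
        simpa [mul_assoc] using this
    have := Cfsg.Agent.Lib.Helper16.Basic.le_pCoreOf (inf_le_right : R ⊓ X ≤ X) hnorm
      (hR.to_le inf_le_left)
    exact fun x hx => this ⟨hKR hx, hKX hx⟩

theorem sn_subgroupOf_iff {p : ℕ} {N K : Subgroup G} (hKN : K ≤ N) (g : N) :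
    SN p (K.subgroupOf N) g ↔ SN p K (g : G) := by
  constructor
  · rintro ⟨R, hR, hKR, hg⟩
    refine ⟨R.map N.subtype, hR.map _, ?_, ?_⟩
    · intro x hx
      exact ⟨⟨x, hKN hx⟩, hKR (by rw [Subgroup.mem_subgroupOf]; exact hx), rfl⟩
    · exact Subgroup.le_normalizer_map N.subtype ⟨g, hg, rfl⟩
  · rintro ⟨R, hR, hKR, hg⟩
    refine ⟨R.subgroupOf N, hR.comap_subtype, ?_, ?_⟩
    · intro x hx
      rw [Subgroup.mem_subgroupOf] at hx ⊢
      exact hKR hx
    · rw [Subgroup.mem_normalizer_iff] at hg ⊢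
      intro h
      rw [Subgroup.mem_subgroupOf, Subgroup.mem_subgroupOf]
      have := hg (h : G)
      simpa using this

theorem card_subtype_eq_sum {α : Type*} [Fintype α] (P : α → Prop) :
    (Nat.card {x // P x} : ℤ) = ∑ x : α, if P x then (1 : ℤ) else 0 := by
  rw [Nat.card_eq_fintype_card, Fintype.card_subtype, Finset.sum_boole]

/-- The normalized form of Casolo's formula. -/
def T (p : ℕ) (G : Type u) [Group G] (H : Subgroup G) : Prop :=
  Nat.card {g : G // SN p H g} * Nat.card (Sylow p G) =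
    Nat.card {Q : Sylow p G // H ≤ (Q : Subgroup G)} * Nat.card G

theorem T_of_normal [Finite G] {p : ℕ} [Fact p.Prime] {H : Subgroup G} (hH : IsPGroup p H)
    (hn : H.Normal) : T p G H := by
  unfold T
  haveI := hn
  have h1 : Nat.card {g : G // SN p H g} = Nat.card G := by
    apply Nat.card_congr
    exact Equiv.subtypeUnivEquiv (fun g => ⟨H, hH, le_rfl, by
      rw [Subgroup.normalizer_eq_top]; exact Subgroup.mem_top g⟩)
  have h2 : Nat.card {Q : Sylow p G // H ≤ (Q : Subgroup G)} = Nat.card (Sylow p G) := by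
    apply Nat.card_congr
    exact Equiv.subtypeUnivEquiv
      (fun Q => Cfsg.Agent.Lib.Helper16.Basic.normal_isPGroup_le_sylow hn hH Q)
  rw [h1, h2, mul_comm]

theorem T_of_sylow [Finite G] {p : ℕ} [Fact p.Prime] (Q₀ : Sylow p G) :
    T p G (Q₀ : Subgroup G) := by
  unfold T
  have h1 : Nat.card {g : G // SN p (Q₀ : Subgroup G) g} =
      Nat.card (Subgroup.normalizer ((Q₀ : Subgroup G) : Set G)) := by
    apply Nat.card_congr
    apply Equiv.subtypeEquivRight
    intro g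
    constructor
    · rintro ⟨R, hR, hle, hg⟩
      have : R = Q₀ := Cfsg.Agent.Lib.Helper16.Basic.sylow_eq_of_le Q₀ hR hle
      rw [this] at hg; exact hg
    · intro hg; exact ⟨Q₀, Q₀.isPGroup', le_rfl, hg⟩
  have h2 : Nat.card {Q : Sylow p G // (Q₀ : Subgroup G) ≤ (Q : Subgroup G)} = 1 := by
    rw [Nat.card_eq_one_iff_unique]
    refine ⟨⟨?_⟩, ⟨⟨Q₀, le_rfl⟩⟩⟩
    rintro ⟨Q, hQ⟩ ⟨Q', hQ'⟩
    have e1 : (Q : Subgroup G) = Q₀ :=
      Cfsg.Agent.Lib.Helper16.Basic.sylow_eq_of_le Q₀ Q.isPGroup' hQ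
    have e2 : (Q' : Subgroup G) = Q₀ :=
      Cfsg.Agent.Lib.Helper16.Basic.sylow_eq_of_le Q₀ Q'.isPGroup' hQ'
    exact Subtype.ext (Sylow.ext (e1.trans e2.symm))
  rw [h1, h2, one_mul, Sylow.card_eq_index_normalizer Q₀, mul_comm]
  exact Subgroup.index_mul_card _

end sn

section main

variable {G : Type u} [Group G] [Finite G] [Fintype (Subgroup G)] {p : ℕ} [Fact p.Prime]

omit [Fintype (Subgroup G)] in
theorem lt_inf_normalizer {H R N : Subgroup G} (hN : N = Subgroup.normalizer (H : Set G))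
    (hR : IsPGroup p R) (hlt : H < R) : H < R ⊓ N := by
  obtain ⟨x, hxR, hxN, hxH⟩ :=
    Cfsg.Agent.Lib.Helper16.Basic.exists_mem_normalizer_not_mem hR hlt
  refine lt_of_le_of_ne (le_inf hlt.le (hN ▸ Subgroup.le_normalizer)) ?_
  intro heq
  apply hxH
  rw [heq]
  exact ⟨hxR, hN ▸ hxN⟩

theorem sum_mu_lambda [Fintype (Sylow p G)] (H N : Subgroup G)
    (hN : N = Subgroup.normalizer (H : Set G)) (hns : ∀ Q : Sylow p G, H ≠ (Q : Subgroup G)) :
    ∑ K : Subgroup G, (if H ≤ K ∧ K ≤ N ∧ IsPGroup p K then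
      mu H K * (Nat.card {Q : Sylow p G // K ≤ (Q : Subgroup G)} : ℤ) else 0) = 0 := by
  have h1 : ∀ K : Subgroup G, (if H ≤ K ∧ K ≤ N ∧ IsPGroup p K then
      mu H K * (Nat.card {Q : Sylow p G // K ≤ (Q : Subgroup G)} : ℤ) else 0) =
      ∑ Q : Sylow p G, (if H ≤ K ∧ K ≤ N ∧ IsPGroup p K ∧ K ≤ (Q : Subgroup G) then
        mu H K else 0) := by
    intro K
    rw [card_subtype_eq_sum]
    by_cases hK : H ≤ K ∧ K ≤ N ∧ IsPGroup p K
    · rw [if_pos hK, Finset.mul_sum]
      apply Finset.sum_congr rfl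
      intro Q _
      by_cases hQ : K ≤ (Q : Subgroup G)
      · rw [if_pos hQ, if_pos ⟨hK.1, hK.2.1, hK.2.2, hQ⟩, mul_one]
      · rw [if_neg hQ, if_neg (fun h => hQ h.2.2.2), mul_zero]
    · rw [if_neg hK]
      symm
      apply Finset.sum_eq_zero
      intro Q _
      rw [if_neg]
      exact fun h => hK ⟨h.1, h.2.1, h.2.2.1⟩
  rw [Finset.sum_congr rfl (fun K _ => h1 K), Finset.sum_comm]
  apply Finset.sum_eq_zero
  intro Q _
  by_cases hHQ : H ≤ (Q : Subgroup G)
  · have hlt : H < (Q : Subgroup G) ⊓ N :=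
      lt_inf_normalizer hN Q.isPGroup' (lt_of_le_of_ne hHQ (hns Q))
    refine Eq.trans ?_ (sum_mu H _ hlt)
    apply Finset.sum_congr rfl
    intro K _
    apply if_congr _ rfl rfl
    constructor
    · rintro ⟨a, b, c, d⟩; exact ⟨a, le_inf d b⟩
    · rintro ⟨a, b⟩
      exact ⟨a, b.trans inf_le_right, Q.isPGroup'.to_le (b.trans inf_le_left),
        b.trans inf_le_left⟩
  · apply Finset.sum_eq_zero
    intro K _
    rw [if_neg]
    rintro ⟨a, b, c, d⟩
    exact hHQ (a.trans d)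

theorem sum_mu_lambdaN (H N : Subgroup G) (hN : N = Subgroup.normalizer (H : Set G))
    (hH : IsPGroup p H) [Fintype (Sylow p ↥N)] (hns : ∀ Q : Sylow p G, H ≠ (Q : Subgroup G)) :
    ∑ K : Subgroup G, (if H ≤ K ∧ K ≤ N ∧ IsPGroup p K then
      mu H K * (Nat.card {Q : Sylow p ↥N // K.subgroupOf N ≤ (Q : Subgroup ↥N)} : ℤ)
        else 0) = 0 := by
  have hHN : H ≤ N := hN ▸ Subgroup.le_normalizer
  have hHn : (H.subgroupOf N).Normal := by rw [hN]; exact Subgroup.normal_in_normalizer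
  have h1 : ∀ K : Subgroup G, (if H ≤ K ∧ K ≤ N ∧ IsPGroup p K then
      mu H K * (Nat.card {Q : Sylow p ↥N // K.subgroupOf N ≤ (Q : Subgroup ↥N)} : ℤ) else 0) =
      ∑ Q : Sylow p ↥N, (if H ≤ K ∧ K ≤ N ∧ IsPGroup p K ∧
        K.subgroupOf N ≤ (Q : Subgroup ↥N) then mu H K else 0) := by
    intro K
    rw [card_subtype_eq_sum]
    by_cases hK : H ≤ K ∧ K ≤ N ∧ IsPGroup p K
    · rw [if_pos hK, Finset.mul_sum]
      apply Finset.sum_congr rfl
      intro Q _
      by_cases hQ : K.subgroupOf N ≤ (Q : Subgroup ↥N)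
      · rw [if_pos hQ, if_pos ⟨hK.1, hK.2.1, hK.2.2, hQ⟩, mul_one]
      · rw [if_neg hQ, if_neg (fun h => hQ h.2.2.2), mul_zero]
    · rw [if_neg hK]
      symm
      apply Finset.sum_eq_zero
      intro Q _
      rw [if_neg]
      exact fun h => hK ⟨h.1, h.2.1, h.2.2.1⟩
  rw [Finset.sum_congr rfl (fun K _ => h1 K), Finset.sum_comm]
  apply Finset.sum_eq_zero
  intro Q _
  obtain ⟨L, hL⟩ : ∃ L, L = (Q : Subgroup ↥N).map N.subtype := ⟨_, rfl⟩
  have hLN : L ≤ N := by rw [hL]; exact Subgroup.map_subtype_le _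
  have hLp : IsPGroup p L := by rw [hL]; exact Q.isPGroup'.map _
  have hHL : H ≤ L := by
    intro x hx
    have h2 : H.subgroupOf N ≤ (Q : Subgroup ↥N) :=
      Cfsg.Agent.Lib.Helper16.Basic.normal_isPGroup_le_sylow hHn hH.comap_subtype Q
    rw [hL]
    exact ⟨⟨x, hHN hx⟩, h2 (by rw [Subgroup.mem_subgroupOf]; exact hx), rfl⟩
  have hne : H ≠ L := by
    intro heq
    obtain ⟨P', hP'⟩ := hH.exists_le_sylow
    obtain ⟨x, hxP, hxN, hxH⟩ :=
      Cfsg.Agent.Lib.Helper16.Basic.exists_mem_normalizer_not_mem P'.isPGroup'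
        (lt_of_le_of_ne hP' (hns P'))
    obtain ⟨R, hR⟩ : ∃ R, R = H ⊔ Subgroup.zpowers x := ⟨_, rfl⟩
    have hRp : IsPGroup p R := P'.isPGroup'.to_le (by
      rw [hR]; exact sup_le hP' (by rw [Subgroup.zpowers_le]; exact hxP))
    have hQR : (Q : Subgroup ↥N) ≤ R.subgroupOf N := by
      intro y hy
      rw [Subgroup.mem_subgroupOf]
      have h3 : (y : G) ∈ L := by rw [hL]; exact ⟨y, hy, rfl⟩
      rw [← heq] at h3
      rw [hR]; exact Subgroup.mem_sup_left h3
    have hRQ := Cfsg.Agent.Lib.Helper16.Basic.sylow_eq_of_le Q hRp.comap_subtype hQR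
    have hxN' : x ∈ N := by rw [hN]; exact hxN
    have hxQ : (⟨x, hxN'⟩ : ↥N) ∈ (Q : Subgroup ↥N) := by
      rw [← hRQ]
      show (⟨x, hxN'⟩ : ↥N) ∈ R.subgroupOf N
      rw [Subgroup.mem_subgroupOf, hR]
      exact Subgroup.mem_sup_right (Subgroup.mem_zpowers x)
    apply hxH
    rw [heq, hL]
    exact ⟨⟨x, hxN'⟩, hxQ, rfl⟩
  refine Eq.trans ?_ (sum_mu H L (lt_of_le_of_ne hHL hne))
  apply Finset.sum_congr rfl
  intro K _
  apply if_congr _ rfl rfl
  constructor
  · rintro ⟨a, b, c, d⟩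
    refine ⟨a, ?_⟩
    intro x hx
    rw [hL]
    exact ⟨⟨x, b hx⟩, d (by rw [Subgroup.mem_subgroupOf]; exact hx), rfl⟩
  · rintro ⟨a, b⟩
    refine ⟨a, b.trans hLN, hLp.to_le b, ?_⟩
    intro x hx
    rw [Subgroup.mem_subgroupOf] at hx
    have h4 := b hx
    rw [hL] at h4
    obtain ⟨y, hy, hyx⟩ := h4
    have h5 : y = x := Subtype.ext hyx
    rw [← h5]; exact hy

theorem sum_mu_in (H N : Subgroup G) (hN : N = Subgroup.normalizer (H : Set G))
    (hH : IsPGroup p H) (hns : ∀ Q : Sylow p G, H ≠ (Q : Subgroup G))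
    (ihN : ∀ K : Subgroup ↥N, IsPGroup p K → T p ↥N K) :
    ∑ K : Subgroup G, (if H ≤ K ∧ K ≤ N ∧ IsPGroup p K then
      mu H K * (Nat.card {g : ↥N // SN p (K.subgroupOf N) g} : ℤ) else 0) = 0 := by
  haveI : Fintype (Sylow p ↥N) := Fintype.ofFinite _
  have hII := sum_mu_lambdaN H N hN hH hns
  have hnp : (Nat.card (Sylow p ↥N) : ℤ) ≠ 0 := by
    have : 0 < Nat.card (Sylow p ↥N) := Nat.card_pos
    exact_mod_cast this.ne'
  have key : (Nat.card (Sylow p ↥N) : ℤ) * ∑ K : Subgroup G,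
      (if H ≤ K ∧ K ≤ N ∧ IsPGroup p K then
        mu H K * (Nat.card {g : ↥N // SN p (K.subgroupOf N) g} : ℤ) else 0) =
      (Nat.card ↥N : ℤ) * ∑ K : Subgroup G, (if H ≤ K ∧ K ≤ N ∧ IsPGroup p K then
        mu H K * (Nat.card {Q : Sylow p ↥N // K.subgroupOf N ≤ (Q : Subgroup ↥N)} : ℤ)
          else 0) := by
    rw [Finset.mul_sum, Finset.mul_sum]
    apply Finset.sum_congr rfl
    intro K _
    by_cases hK : H ≤ K ∧ K ≤ N ∧ IsPGroup p K
    · rw [if_pos hK, if_pos hK]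
      have h := ihN (K.subgroupOf N) hK.2.2.comap_subtype
      unfold T at h
      have h' : (Nat.card {g : ↥N // SN p (K.subgroupOf N) g} : ℤ) *
          (Nat.card (Sylow p ↥N) : ℤ) =
          (Nat.card {Q : Sylow p ↥N // K.subgroupOf N ≤ (Q : Subgroup ↥N)} : ℤ) *
            (Nat.card ↥N : ℤ) := by exact_mod_cast h
      linear_combination (mu H K) * h'
    · rw [if_neg hK, if_neg hK, mul_zero, mul_zero]
  rw [hII, mul_zero] at key
  exact (mul_eq_zero.1 key).resolve_left hnp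

theorem sum_mu_out (H N : Subgroup G) (hN : N = Subgroup.normalizer (H : Set G))
    (g : G) (hg : g ∉ N) :
    ∑ K : Subgroup G, (if (H ≤ K ∧ K ≤ N ∧ IsPGroup p K) ∧ SN p K g then mu H K else 0) = 0 := by
  have hHN : H ≤ N := hN ▸ Subgroup.le_normalizer
  by_cases hsn : SN p H g
  · obtain ⟨R₀, hR₀, hHR₀, hgR₀⟩ := hsn
    obtain ⟨Y, hY⟩ : ∃ Y, Y = sInf {R : Subgroup G | H ≤ R ∧
        g ∈ Subgroup.normalizer (R : Set G)} := ⟨_, rfl⟩
    have hHY : H ≤ Y := by rw [hY]; exact le_sInf (fun R hR => hR.1)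
    have hYle : ∀ R : Subgroup G, H ≤ R → g ∈ Subgroup.normalizer (R : Set G) → Y ≤ R :=
      fun R h1 h2 => by rw [hY]; exact sInf_le ⟨h1, h2⟩
    have hYp : IsPGroup p Y := hR₀.to_le (hYle R₀ hHR₀ hgR₀)
    have hgY : g ∈ Subgroup.normalizer (Y : Set G) := by
      rw [Subgroup.mem_normalizer_iff]
      intro x
      rw [hY, Subgroup.mem_sInf, Subgroup.mem_sInf]
      constructor
      · intro h R hR; exact (Subgroup.mem_normalizer_iff.1 hR.2 x).1 (h R hR)
      · intro h R hR; exact (Subgroup.mem_normalizer_iff.1 hR.2 x).2 (h R hR)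
    obtain ⟨K₀, hK₀⟩ : ∃ K₀, K₀ = Y ⊓ N := ⟨_, rfl⟩
    have hHK₀ : H < K₀ := by
      refine lt_of_le_of_ne (by rw [hK₀]; exact le_inf hHY hHN) ?_
      intro heq
      by_cases hHYeq : H = Y
      · apply hg; rw [hN, hHYeq]; exact hgY
      · obtain ⟨x, hxY, hxN, hxH⟩ :=
          Cfsg.Agent.Lib.Helper16.Basic.exists_mem_normalizer_not_mem hYp
            (lt_of_le_of_ne hHY hHYeq)
        apply hxH
        rw [heq, hK₀]
        exact ⟨hxY, by rw [hN]; exact hxN⟩
    have hclos : ∀ K : Subgroup G, ((H ≤ K ∧ K ≤ N ∧ IsPGroup p K) ∧ SN p K g) →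
        ((H ≤ K ⊔ K₀ ∧ K ⊔ K₀ ≤ N ∧ IsPGroup p ↥(K ⊔ K₀)) ∧ SN p (K ⊔ K₀) g) := by
      rintro K ⟨⟨h1, h2, h3⟩, R, hR, hKR, hgR⟩
      have hYR : Y ≤ R := hYle R (h1.trans hKR) hgR
      have hle : K ⊔ K₀ ≤ R := sup_le hKR (by rw [hK₀]; exact inf_le_left.trans hYR)
      exact ⟨⟨h1.trans le_sup_left, sup_le h2 (by rw [hK₀]; exact inf_le_right),
        hR.to_le hle⟩, R, hR, hle, hgR⟩
    have h1 : ∀ K : Subgroup G,
        (if (H ≤ K ∧ K ≤ N ∧ IsPGroup p K) ∧ SN p K g then mu H K else 0) =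
        ∑ L : Subgroup G, (if ((H ≤ K ∧ K ≤ N ∧ IsPGroup p K) ∧ SN p K g) ∧ K ⊔ K₀ = L
          then mu H K else 0) := by
      intro K
      by_cases hK : (H ≤ K ∧ K ≤ N ∧ IsPGroup p K) ∧ SN p K g
      · simp [hK]
      · simp [hK]
    rw [Finset.sum_congr rfl (fun K _ => h1 K), Finset.sum_comm]
    apply Finset.sum_eq_zero
    intro L _
    by_cases hL : (H ≤ L ∧ L ≤ N ∧ IsPGroup p L) ∧ SN p L g
    · refine Eq.trans ?_ (weisner H K₀ hHK₀ L)
      apply Finset.sum_congr rfl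
      intro K _
      apply if_congr _ rfl rfl
      constructor
      · rintro ⟨⟨⟨a, b, c⟩, d⟩, e⟩; exact ⟨a, e ▸ le_sup_left, e⟩
      · rintro ⟨a, b, e⟩
        obtain ⟨⟨_, hLN, hLp⟩, hLsn⟩ := hL
        exact ⟨⟨⟨a, b.trans hLN, hLp.to_le b⟩, hLsn.mono b⟩, e⟩
    · apply Finset.sum_eq_zero
      intro K _
      rw [if_neg]
      rintro ⟨hJK, e⟩
      exact hL (e ▸ hclos K hJK)
  · apply Finset.sum_eq_zero
    intro K _
    rw [if_neg]
    rintro ⟨⟨a, _, _⟩, hs⟩
    exact hsn (hs.mono a)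

omit [Finite G] [Fintype (Subgroup G)] [Fact p.Prime] in
theorem card_in [Fintype G] {N K : Subgroup G} (hKN : K ≤ N) :
    (Nat.card {g : ↥N // SN p (K.subgroupOf N) g} : ℤ) =
      ∑ g : G, if g ∈ N ∧ SN p K g then (1 : ℤ) else 0 := by
  have h := card_subtype_eq_sum (fun g : G => g ∈ N ∧ SN p K g)
  have e : Nat.card {g : ↥N // SN p (K.subgroupOf N) g} =
      Nat.card {g : G // g ∈ N ∧ SN p K g} := by
    apply Nat.card_congr
    exact
      { toFun := fun x => ⟨x.1.1, x.1.2, (sn_subgroupOf_iff hKN x.1).1 x.2⟩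
        invFun := fun y => ⟨⟨y.1, y.2.1⟩, (sn_subgroupOf_iff hKN ⟨y.1, y.2.1⟩).2 y.2.2⟩
        left_inv := fun x => rfl
        right_inv := fun y => rfl }
  rw [e, h]
  apply Finset.sum_congr rfl
  intro g _
  by_cases hg : g ∈ N ∧ SN p K g
  · rw [if_pos hg, if_pos hg]
  · rw [if_neg hg, if_neg hg]

theorem T_step (H : Subgroup G) (hH : IsPGroup p H) (N : Subgroup G)
    (hN : N = Subgroup.normalizer (H : Set G))
    (hns : ∀ Q : Sylow p G, H ≠ (Q : Subgroup G))
    (ihN : ∀ K : Subgroup ↥N, IsPGroup p K → T p ↥N K)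
    (ihK : ∀ K : Subgroup G, H < K → IsPGroup p K → T p G K) : T p G H := by
  haveI : Fintype G := Fintype.ofFinite _
  haveI : Fintype (Sylow p G) := Fintype.ofFinite _
  have hHN : H ≤ N := hN ▸ Subgroup.le_normalizer
  have hII := sum_mu_lambda (p := p) H N hN hns
  have hIa := sum_mu_in (p := p) H N hN hH hns ihN
  have hI : ∑ K : Subgroup G, (if H ≤ K ∧ K ≤ N ∧ IsPGroup p K then
      mu H K * (Nat.card {g : G // SN p K g} : ℤ) else 0) = 0 := by
    have h1 : ∀ K : Subgroup G, (if H ≤ K ∧ K ≤ N ∧ IsPGroup p K then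
        mu H K * (Nat.card {g : G // SN p K g} : ℤ) else 0) =
        (if H ≤ K ∧ K ≤ N ∧ IsPGroup p K then
          mu H K * (Nat.card {g : ↥N // SN p (K.subgroupOf N) g} : ℤ) else 0) +
        ∑ g : G, (if (H ≤ K ∧ K ≤ N ∧ IsPGroup p K) ∧ g ∉ N ∧ SN p K g
          then mu H K else 0) := by
      intro K
      by_cases hK : H ≤ K ∧ K ≤ N ∧ IsPGroup p K
      · rw [if_pos hK, if_pos hK, card_in hK.2.1, card_subtype_eq_sum, Finset.mul_sum,
          Finset.mul_sum, ← Finset.sum_add_distrib]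
        apply Finset.sum_congr rfl
        intro g _
        by_cases hg : g ∈ N
        · by_cases hs : SN p K g
          · rw [if_pos hs, if_pos ⟨hg, hs⟩, if_neg (fun h => h.2.1 hg), add_zero]
          · rw [if_neg hs, if_neg (fun h => hs h.2), if_neg (fun h => hs h.2.2), add_zero]
        · by_cases hs : SN p K g
          · rw [if_pos hs, if_neg (fun h => hg h.1), if_pos ⟨hK, hg, hs⟩, mul_one, mul_zero,
              zero_add]
          · rw [if_neg hs, if_neg (fun h => hg h.1), if_neg (fun h => hs h.2.2), add_zero]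
      · rw [if_neg hK, if_neg hK, zero_add]
        symm
        apply Finset.sum_eq_zero
        intro g _
        rw [if_neg]
        exact fun h => hK h.1
    rw [Finset.sum_congr rfl (fun K _ => h1 K), Finset.sum_add_distrib, hIa, zero_add,
      Finset.sum_comm]
    apply Finset.sum_eq_zero
    intro g _
    by_cases hg : g ∈ N
    · apply Finset.sum_eq_zero
      intro K _
      rw [if_neg]
      exact fun h => h.2.1 hg
    · refine Eq.trans ?_ (sum_mu_out (p := p) H N hN g hg)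
      apply Finset.sum_congr rfl
      intro K _
      apply if_congr _ rfl rfl
      constructor
      · rintro ⟨a, _, c⟩; exact ⟨a, c⟩
      · rintro ⟨a, c⟩; exact ⟨a, hg, c⟩
  have key : ∑ K : Subgroup G, (if H ≤ K ∧ K ≤ N ∧ IsPGroup p K then
      mu H K * ((Nat.card {g : G // SN p K g} : ℤ) * (Nat.card (Sylow p G) : ℤ) -
        (Nat.card {Q : Sylow p G // K ≤ (Q : Subgroup G)} : ℤ) * (Nat.card G : ℤ)) else 0) = 0 := by
    have h2 : ∀ K : Subgroup G, (if H ≤ K ∧ K ≤ N ∧ IsPGroup p K then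
        mu H K * ((Nat.card {g : G // SN p K g} : ℤ) * (Nat.card (Sylow p G) : ℤ) -
          (Nat.card {Q : Sylow p G // K ≤ (Q : Subgroup G)} : ℤ) * (Nat.card G : ℤ)) else 0) =
        (Nat.card (Sylow p G) : ℤ) * (if H ≤ K ∧ K ≤ N ∧ IsPGroup p K then
          mu H K * (Nat.card {g : G // SN p K g} : ℤ) else 0) -
        (Nat.card G : ℤ) * (if H ≤ K ∧ K ≤ N ∧ IsPGroup p K then
          mu H K * (Nat.card {Q : Sylow p G // K ≤ (Q : Subgroup G)} : ℤ) else 0) := by
      intro K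
      split_ifs <;> ring
    rw [Finset.sum_congr rfl (fun K _ => h2 K), Finset.sum_sub_distrib, ← Finset.mul_sum,
      ← Finset.mul_sum, hI, hII, mul_zero, mul_zero, sub_zero]
  rw [Finset.sum_eq_single H] at key
  · rw [if_pos ⟨le_rfl, hHN, hH⟩, mu_self, one_mul] at key
    unfold T
    exact_mod_cast sub_eq_zero.1 key
  · intro K _ hKH
    by_cases hK : H ≤ K ∧ K ≤ N ∧ IsPGroup p K
    · rw [if_pos hK]
      have h3 := ihK K (lt_of_le_of_ne hK.1 (Ne.symm hKH)) hK.2.2
      unfold T at h3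
      have h4 : (Nat.card {g : G // SN p K g} : ℤ) * (Nat.card (Sylow p G) : ℤ) =
          (Nat.card {Q : Sylow p G // K ≤ (Q : Subgroup G)} : ℤ) * (Nat.card G : ℤ) := by
        exact_mod_cast h3
      rw [h4, sub_self, mul_zero]
    · rw [if_neg hK]
  · intro h; exact absurd (Finset.mem_univ H) h

end main

/-- Casolo's theorem in normalized form. -/
theorem casolo_aux {p : ℕ} [Fact p.Prime] : ∀ (n : ℕ) (G : Type u) [Group G] [Finite G],
    Nat.card G = n → ∀ H : Subgroup G, IsPGroup p H → T p G H := by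
  intro n
  induction n using Nat.strong_induction_on with
  | _ n ih =>
    intro G _ _ hn H
    refine WellFoundedGT.induction
      (motive := fun H : Subgroup G => IsPGroup p H → T p G H) H ?_
    intro H ihK hH
    by_cases hnorm : H.Normal
    · exact T_of_normal hH hnorm
    by_cases hsyl : ∃ Q : Sylow p G, H = (Q : Subgroup G)
    · obtain ⟨Q, rfl⟩ := hsyl
      exact T_of_sylow Q
    · haveI : Fintype (Subgroup G) := Fintype.ofFinite _
      refine T_step H hH (Subgroup.normalizer (H : Set G)) rfl (fun Q hQ => hsyl ⟨Q, hQ⟩) ?_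
        (fun K hK hKp => ihK K hK hKp)
      intro K hK
      have hne : Subgroup.normalizer (H : Set G) ≠ ⊤ :=
        fun h => hnorm (Subgroup.normalizer_eq_top_iff.1 h)
      have hlt : Nat.card ↥(Subgroup.normalizer (H : Set G)) < n := by
        rw [← hn, ← Subgroup.card_top (G := G)]
        exact Cfsg.Agent.Lib.Helper9.card_lt_of_le_of_ne le_top hne
      exact ih _ hlt _ rfl K hK

theorem casolo {G : Type u} [Group G] [Finite G] {p : ℕ} [Fact p.Prime] (H : Subgroup G)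
    (hH : IsPGroup p H) : T p G H :=
  casolo_aux _ G rfl H hH

section alpha

theorem card_eq_mul_of_fibers {α β : Type*} [Finite α] [Finite β] (f : α → β) (m : ℕ)
    (h : ∀ b, Nat.card {a // f a = b} = m) : Nat.card α = Nat.card β * m := by
  haveI : Fintype β := Fintype.ofFinite _
  rw [← Nat.card_congr (Equiv.sigmaFiberEquiv f), Nat.card_sigma]
  simp [h, Nat.card_eq_fintype_card]

theorem card_fibers_general {X Y : Type*} [Finite X] [Finite Y] (C : X → Prop) (D : Y → Prop)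
    (φ : X → Y) (hCD : ∀ g, C g ↔ D (φ g)) (m : ℕ)
    (h : ∀ y, D y → Nat.card {g : X // φ g = y} = m) :
    Nat.card {g : X // C g} = Nat.card {y : Y // D y} * m := by
  apply card_eq_mul_of_fibers
    (fun z : {g : X // C g} => (⟨φ z.1, (hCD z.1).1 z.2⟩ : {y : Y // D y}))
  rintro ⟨y, hy⟩
  rw [← h y hy]
  apply Nat.card_congr
  exact
    { toFun := fun z => ⟨z.1.1, congrArg Subtype.val z.2⟩
      invFun := fun g => ⟨⟨g.1, (hCD g.1).2 (by rw [g.2]; exact hy)⟩, Subtype.ext g.2⟩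
      left_inv := fun z => rfl
      right_inv := fun g => rfl }

variable {G : Type u} [Group G] [Finite G]

/-- Double counting: `λ_G(H) · |N_G(P)| = α_P(H) · |N_G(H)|`. -/
theorem lambda_alpha {p : ℕ} [Fact p.Prime] (H : Subgroup G) (P : Sylow p G) :
    Nat.card {Q : Sylow p G // H ≤ (Q : Subgroup G)} *
        Nat.card (Subgroup.normalizer ((P : Subgroup G) : Set G)) =
      Nat.card {K : Subgroup G // K ≤ (P : Subgroup G) ∧
        ∃ g : G, K = H.map (MulAut.conj g).toMonoidHom} *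
        Nat.card (Subgroup.normalizer (H : Set G)) := by
  haveI : Finite (Subgroup G) := inferInstance
  have h1 : Nat.card {g : G // H.map (MulAut.conj g).toMonoidHom ≤ (P : Subgroup G)} =
      Nat.card {Q : Sylow p G // H ≤ (Q : Subgroup G)} *
        Nat.card (Subgroup.normalizer ((P : Subgroup G) : Set G)) := by
    apply card_fibers_general (fun g : G => H.map (MulAut.conj g).toMonoidHom ≤ (P : Subgroup G))
      (fun Q : Sylow p G => H ≤ (Q : Subgroup G)) (fun g : G => g⁻¹ • P)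
    · intro g
      rw [Cfsg.Agent.Lib.Helper12.SylowBasic.map_conj_le_iff]
      constructor
      · intro h x hx
        rw [Cfsg.Agent.Lib.Helper12.SylowBasic.mem_smul_sylow_iff]
        simpa using h x hx
      · intro h x hx
        have h2 := h hx
        rw [Cfsg.Agent.Lib.Helper12.SylowBasic.mem_smul_sylow_iff] at h2
        simpa using h2
    · intro Q _
      obtain ⟨g₀, hg₀⟩ := MulAction.exists_smul_eq G P Q
      apply Nat.card_congr
      exact
        { toFun := fun g => ⟨g.1 * g₀, Sylow.smul_eq_iff_mem_normalizer.1 (by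
            rw [mul_smul, hg₀]
            exact (congrArg (fun X : Sylow p G => g.1 • X) g.2.symm).trans
              (smul_inv_smul g.1 P))⟩
          invFun := fun n => ⟨n.1 * g₀⁻¹, by
            have h3 : (n.1)⁻¹ • P = P :=
              Sylow.smul_eq_iff_mem_normalizer.2 (Subgroup.inv_mem _ n.2)
            rw [mul_inv_rev, inv_inv, mul_smul, h3, hg₀]⟩
          left_inv := fun g => Subtype.ext (by simp)
          right_inv := fun n => Subtype.ext (by simp) }
  have h2 : Nat.card {g : G // H.map (MulAut.conj g).toMonoidHom ≤ (P : Subgroup G)} =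
      Nat.card {K : Subgroup G // K ≤ (P : Subgroup G) ∧
        ∃ g : G, K = H.map (MulAut.conj g).toMonoidHom} *
        Nat.card (Subgroup.normalizer (H : Set G)) := by
    apply card_fibers_general (fun g : G => H.map (MulAut.conj g).toMonoidHom ≤ (P : Subgroup G))
      (fun K : Subgroup G => K ≤ (P : Subgroup G) ∧
        ∃ g : G, K = H.map (MulAut.conj g).toMonoidHom)
      (fun g : G => H.map (MulAut.conj g).toMonoidHom)
    · intro g
      exact ⟨fun h => ⟨h, g, rfl⟩, fun h => h.1⟩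
    · rintro K ⟨_, g₀, hg₀⟩
      apply Nat.card_congr
      exact
        { toFun := fun g => ⟨g₀⁻¹ * g.1, by
            rw [← Cfsg.Agent.Lib.Helper16.Basic.conj_eq_self_iff,
              ← Cfsg.Agent.Lib.Helper16.Basic.conj_conj, g.2, hg₀,
              Cfsg.Agent.Lib.Helper16.Basic.conj_inv_conj]⟩
          invFun := fun n => ⟨g₀ * n.1, by
            rw [← Cfsg.Agent.Lib.Helper16.Basic.conj_conj,
              (Cfsg.Agent.Lib.Helper16.Basic.conj_eq_self_iff H n.1).2 n.2, hg₀]⟩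
          left_inv := fun g => Subtype.ext (by simp)
          right_inv := fun n => Subtype.ext (by simp) }
  rw [← h1, h2]

end alpha

end Cfsg.Agent.Lib.Helper17.Casolo
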