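import Mathlib
import Cfsg.Agent.Lib.Helper17.Casolo
import Cfsg.Agent.Lib.Helper19.RelIndex

/-!
# Casolo's count along a `p`-series

For a finite group with a normal series whose factors are `p`-groups or `p'`-groups, and a
`p`-subgroup `H`, the number of `g` with `H` subnormal in `⟨H, g⟩` is `|P|` times the product of
the orders of the centralizers of `H` in the `p'`-factors.
-/

namespace Cfsg.Agent.Lib.Helper17.Casolo2

open Cfsg
open scoped Classical
open Cfsg.Agent.Lib.Helper17.Casolo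
open Cfsg.Agent.Lib.Helper12.SylowBasic

universe u

section quot

variable {G : Type u} [Group G]

theorem mk_eq_one_iff (N : Subgroup G) [N.Normal] (x : G) :
    (QuotientGroup.mk' N) x = 1 ↔ x ∈ N := by
  rw [← MonoidHom.mem_ker, QuotientGroup.ker_mk']

/-- Fibres of the quotient map have `|N|` elements. -/
theorem card_fiber_mk [Finite G] (N : Subgroup G) [N.Normal] (y : G ⧸ N) :
    Nat.card {g : G // (QuotientGroup.mk' N) g = y} = Nat.card N := by
  obtain ⟨g₀, rfl⟩ := QuotientGroup.mk'_surjective N y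
  symm
  apply Nat.card_congr
  exact
    { toFun := fun n => ⟨g₀ * n.1, by
        rw [map_mul, (mk_eq_one_iff N n.1).2 n.2, mul_one]⟩
      invFun := fun g => ⟨g₀⁻¹ * g.1, by
        rw [← mk_eq_one_iff N, map_mul, map_inv, g.2, inv_mul_cancel]⟩
      left_inv := fun n => Subtype.ext (by simp)
      right_inv := fun g => Subtype.ext (by simp) }

theorem mk_mem_map_iff (N : Subgroup G) [N.Normal] {B : Subgroup G} (hNB : N ≤ B) (u : G) :
    (QuotientGroup.mk' N) u ∈ B.map (QuotientGroup.mk' N) ↔ u ∈ B := by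
  rw [← Subgroup.mem_comap, Subgroup.comap_map_eq_self]
  rw [QuotientGroup.ker_mk']; exact hNB

theorem mem_sup_of_mk_mem (N : Subgroup G) [N.Normal] {K : Subgroup G} {q : G}
    (h : (QuotientGroup.mk' N) q ∈ K.map (QuotientGroup.mk' N)) : q ∈ K ⊔ N := by
  obtain ⟨z, hz, hzq⟩ := Subgroup.mem_map.1 h
  have h2 : z⁻¹ * q ∈ N := by
    rw [← mk_eq_one_iff N, map_mul, map_inv, hzq, inv_mul_cancel]
  have : q = z * (z⁻¹ * q) := by group
  rw [this]
  exact Subgroup.mul_mem_sup hz h2

theorem card_map_mk [Finite G] (N : Subgroup G) [N.Normal] {B : Subgroup G} (hNB : N ≤ B) :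
    Nat.card B = Nat.card (B.map (QuotientGroup.mk' N)) * Nat.card N := by
  have := card_fibers_general (fun u : G => u ∈ B)
    (fun y : G ⧸ N => y ∈ B.map (QuotientGroup.mk' N)) (fun u => (QuotientGroup.mk' N) u)
    (fun u => (mk_mem_map_iff N hNB u).symm) (Nat.card N) (fun y _ => card_fiber_mk N y)
  exact this

theorem relIndex_map_mk (N : Subgroup G) [N.Normal] {A : Subgroup G} (hNA : N ≤ A)
    (B : Subgroup G) :
    (A.map (QuotientGroup.mk' N)).relIndex (B.map (QuotientGroup.mk' N)) = A.relIndex B := by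
  rw [← Subgroup.relIndex_comap, Subgroup.comap_map_eq_self]
  rw [QuotientGroup.ker_mk']; exact hNA

theorem card_comm_count [Finite G] (N : Subgroup G) [N.Normal] {A B : Subgroup G} (hNA : N ≤ A)
    (hNB : N ≤ B) (H : Subgroup G) :
    Nat.card {u : G // u ∈ B ∧ ∀ h ∈ H, h * u * h⁻¹ * u⁻¹ ∈ A} =
      Nat.card {y : G ⧸ N // y ∈ B.map (QuotientGroup.mk' N) ∧
        ∀ h ∈ H.map (QuotientGroup.mk' N), h * y * h⁻¹ * y⁻¹ ∈ A.map (QuotientGroup.mk' N)} *
        Nat.card N := by
  apply card_fibers_general (fun u : G => u ∈ B ∧ ∀ h ∈ H, h * u * h⁻¹ * u⁻¹ ∈ A)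
    (fun y : G ⧸ N => y ∈ B.map (QuotientGroup.mk' N) ∧
        ∀ h ∈ H.map (QuotientGroup.mk' N), h * y * h⁻¹ * y⁻¹ ∈ A.map (QuotientGroup.mk' N))
    (fun u => (QuotientGroup.mk' N) u)
  · intro u
    refine and_congr (mk_mem_map_iff N hNB u).symm ?_
    constructor
    · intro hu hb hhb
      obtain ⟨h, hh, rfl⟩ := Subgroup.mem_map.1 hhb
      have := Subgroup.mem_map_of_mem (QuotientGroup.mk' N) (hu h hh)
      simpa only [map_mul, map_inv] using this
    · intro hu h hh
      have := hu _ (Subgroup.mem_map_of_mem (QuotientGroup.mk' N) hh)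
      rw [← map_inv, ← map_inv, ← map_mul, ← map_mul, ← map_mul] at this
      exact (mk_mem_map_iff N hNA _).1 this
  · intro y _; exact card_fiber_mk N y

theorem SN_map {p : ℕ} {N : Subgroup G} [N.Normal] {H : Subgroup G} {g : G} (h : SN p H g) :
    SN p (H.map (QuotientGroup.mk' N)) ((QuotientGroup.mk' N) g) := by
  obtain ⟨R, h1, h2, h3⟩ := h
  refine ⟨R.map (QuotientGroup.mk' N), h1.map _, Subgroup.map_mono h2, ?_⟩
  exact Subgroup.le_normalizer_map _ (Subgroup.mem_map_of_mem _ h3)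

theorem SN_of_map {p : ℕ} [Fact p.Prime] {N : Subgroup G} [N.Normal]
    (hN : IsPGroup p N) {H : Subgroup G} {g : G}
    (h : SN p (H.map (QuotientGroup.mk' N)) ((QuotientGroup.mk' N) g)) : SN p H g := by
  obtain ⟨R, h1, h2, h3⟩ := h
  refine ⟨R.comap (QuotientGroup.mk' N), ?_, Subgroup.map_le_iff_le_comap.1 h2, ?_⟩
  · apply h1.comap_of_ker_isPGroup
    rw [QuotientGroup.ker_mk']; exact hN
  · exact Subgroup.le_normalizer_comap _ (Subgroup.mem_comap.2 h3)

/-- Quotient by a normal `p`-subgroup. -/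
theorem sigma_pquot [Finite G] {p : ℕ} [Fact p.Prime] (N : Subgroup G) [N.Normal]
    (hN : IsPGroup p N) (H : Subgroup G) :
    Nat.card {g : G // SN p H g} =
      Nat.card {y : G ⧸ N // SN p (H.map (QuotientGroup.mk' N)) y} * Nat.card N := by
  apply card_fibers_general (fun g : G => SN p H g)
    (fun y : G ⧸ N => SN p (H.map (QuotientGroup.mk' N)) y) (fun g => (QuotientGroup.mk' N) g)
  · intro g; exact ⟨SN_map, SN_of_map hN⟩
  · intro y _; exact card_fiber_mk N y

end quot

section pprime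

variable {G : Type u} [Group G] [Finite G] {p : ℕ} [Fact p.Prime] (N : Subgroup G) [N.Normal]

/-- The map induced on Sylow subgroups by the quotient map. -/
noncomputable def Phi (Q : Sylow p G) : Sylow p (G ⧸ N) :=
  Q.mapSurjective (QuotientGroup.mk'_surjective N)

theorem coe_Phi (Q : Sylow p G) :
    ((Phi N Q : Sylow p (G ⧸ N)) : Subgroup (G ⧸ N)) =
      (Q : Subgroup G).map (QuotientGroup.mk' N) := rfl

theorem Phi_surjective : Function.Surjective (Phi N : Sylow p G → Sylow p (G ⧸ N)) :=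
  Sylow.mapSurjective_surjective (QuotientGroup.mk'_surjective N) p

theorem Phi_smul (P : Sylow p G) {n : G} (hn : n ∈ N) : Phi N (n • P) = Phi N P := by
  apply Sylow.ext
  rw [coe_Phi, coe_Phi]
  have hq : (QuotientGroup.mk' N) n = 1 := (mk_eq_one_iff N n).2 hn
  ext x
  constructor
  · intro hx
    obtain ⟨y, hy, rfl⟩ := Subgroup.mem_map.1 hx
    have hy' := (mem_smul_sylow_iff P n y).1 hy
    refine Subgroup.mem_map.2 ⟨n⁻¹ * y * n, hy', ?_⟩
    rw [map_mul, map_mul, map_inv, hq]; simp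
  · intro hx
    obtain ⟨y, hy, rfl⟩ := Subgroup.mem_map.1 hx
    refine Subgroup.mem_map.2 ⟨n * y * n⁻¹, ?_, ?_⟩
    · rw [mem_smul_sylow_iff]; simpa [mul_assoc] using hy
    · rw [map_mul, map_mul, map_inv, hq]; simp

theorem exists_smul_eq_of_mem_sup (P : Sylow p G) {c : G} (hc : c ∈ (P : Subgroup G) ⊔ N) :
    ∃ n ∈ N, c • P = n • P := by
  have hB : (P : Subgroup G) ≤ Subgroup.normalizer (N : Set G) := by
    intro z _
    rw [Subgroup.mem_normalizer_iff]
    intro h
    exact ⟨fun hh => (inferInstance : N.Normal).conj_mem h hh z, fun hh => by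
      have := (inferInstance : N.Normal).conj_mem _ hh z⁻¹
      simpa [mul_assoc] using this⟩
  rw [sup_comm] at hc
  obtain ⟨n, hn, z, hz, rfl⟩ :=
    Cfsg.Agent.Lib.Helper19.exists_mul_of_mem_sup N (P : Subgroup G) hB c hc
  refine ⟨n, hn, ?_⟩
  rw [mul_smul]
  congr 1
  exact Sylow.smul_eq_iff_mem_normalizer.2 (Subgroup.le_normalizer hz)

theorem eq_one_of_mem_pgroup_of_mem (hN : (Nat.card N).Coprime p) (R : Subgroup G)
    (hR : IsPGroup p R) : ∀ x, x ∈ R → x ∈ N → x = 1 := by
  intro x hx hxN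
  obtain ⟨k, hk⟩ := hR.exists_card_eq
  have h1 : R ⊓ N = ⊥ := by
    apply disjoint_iff.1
    apply Subgroup.disjoint_of_coprime_natCard
    rw [hk]
    exact Nat.Coprime.pow_left k hN.symm
  have : x ∈ R ⊓ N := ⟨hx, hxN⟩
  rw [h1] at this
  exact Subgroup.mem_bot.1 this

/-- `|C_N(P)|` does not depend on the Sylow subgroup `P`. -/
theorem card_cent_smul (P : Sylow p G) (g : G) :
    Nat.card ↥(N ⊓ Subgroup.centralizer (((g • P : Sylow p G) : Subgroup G) : Set G)) =
      Nat.card ↥(N ⊓ Subgroup.centralizer ((P : Subgroup G) : Set G)) := by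
  have key : ∀ (g : G) (P : Sylow p G) (x : G),
      x ∈ N ⊓ Subgroup.centralizer ((P : Subgroup G) : Set G) →
      g * x * g⁻¹ ∈ N ⊓ Subgroup.centralizer (((g • P : Sylow p G) : Subgroup G) : Set G) := by
    intro g P x hx
    refine Subgroup.mem_inf.2 ⟨(inferInstance : N.Normal).conj_mem _ hx.1 g, ?_⟩
    rw [Subgroup.mem_centralizer_iff]
    intro y hy
    have hy' := (mem_smul_sylow_iff P g y).1 hy
    have h1 := (Subgroup.mem_centralizer_iff.1 hx.2) _ hy'
    calc y * (g * x * g⁻¹) = g * ((g⁻¹ * y * g) * x) * g⁻¹ := by group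
      _ = g * (x * (g⁻¹ * y * g)) * g⁻¹ := by rw [h1]
      _ = g * x * g⁻¹ * y := by group
  apply Nat.card_congr
  exact
    { toFun := fun x => ⟨g⁻¹ * x.1 * g, by
        have := key g⁻¹ (g • P) x.1 x.2
        rwa [inv_smul_smul, inv_inv] at this⟩
      invFun := fun x => ⟨g * x.1 * g⁻¹, key g P x.1 x.2⟩
      left_inv := fun x => Subtype.ext (by simp [mul_assoc])
      right_inv := fun x => Subtype.ext (by simp [mul_assoc]) }

/-- Counting the Sylow subgroups over `H` in one fibre of `Phi`. -/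
theorem card_fiber_sylow (hN : (Nat.card N).Coprime p) (H : Subgroup G) (P : Sylow p G)
    (hHP : H ≤ (P : Subgroup G)) :
    Nat.card ↥(N ⊓ Subgroup.centralizer (H : Set G)) =
      Nat.card {Q : Sylow p G // H ≤ (Q : Subgroup G) ∧ Phi N Q = Phi N P} *
        Nat.card ↥(N ⊓ Subgroup.centralizer ((P : Subgroup G) : Set G)) := by
  have hPN := eq_one_of_mem_pgroup_of_mem N hN
  have hwd : ∀ n : G, n ∈ N ⊓ Subgroup.centralizer (H : Set G) →
      H ≤ ((n • P : Sylow p G) : Subgroup G) ∧ Phi N (n • P) = Phi N P := by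
    intro n hn
    refine ⟨?_, Phi_smul N P hn.1⟩
    intro h hh
    rw [mem_smul_sylow_iff]
    have h1 := (Subgroup.mem_centralizer_iff.1 hn.2) h hh
    have : n⁻¹ * h * n = h := by rw [mul_assoc, h1, ← mul_assoc, inv_mul_cancel, one_mul]
    rw [this]; exact hHP hh
  have hcent : ∀ (m : G), m ∈ N → m • P = P →
      m ∈ Subgroup.centralizer ((P : Subgroup G) : Set G) := by
    intro m hm hmR
    rw [Subgroup.mem_centralizer_iff]
    intro z hz
    have h1 : m * z * m⁻¹ ∈ (P : Subgroup G) := by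
      have hz' : z ∈ (P : Subgroup G) := hz
      have : m * z * m⁻¹ ∈ ((m • P : Sylow p G) : Subgroup G) := by
        rw [mem_smul_sylow_iff]
        have h0 : m⁻¹ * (m * z * m⁻¹) * m = z := by group
        rw [h0]; exact hz'
      rwa [hmR] at this
    have h2 : m * z * m⁻¹ * z⁻¹ ∈ (P : Subgroup G) :=
      (P : Subgroup G).mul_mem h1 ((P : Subgroup G).inv_mem hz)
    have h3 : m * z * m⁻¹ * z⁻¹ ∈ N := by
      have h31 : z * m⁻¹ * z⁻¹ ∈ N := (inferInstance : N.Normal).conj_mem _ (N.inv_mem hm) z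
      have := N.mul_mem hm h31
      simpa [mul_assoc] using this
    have h4 := hPN (P : Subgroup G) P.isPGroup' _ h2 h3
    have h5 : m * z * m⁻¹ = z := mul_inv_eq_one.1 h4
    have h6 : m * z = z * m := mul_inv_eq_iff_eq_mul.1 h5
    exact h6.symm
  apply card_eq_mul_of_fibers
    (fun n : ↥(N ⊓ Subgroup.centralizer (H : Set G)) =>
      (⟨(n : G) • P, hwd n.1 n.2⟩ :
        {Q : Sylow p G // H ≤ (Q : Subgroup G) ∧ Phi N Q = Phi N P}))
  rintro ⟨Q, hQ1, hQ2⟩
  obtain ⟨n₀, hn₀, hn₀Q⟩ : ∃ n₀ ∈ N ⊓ Subgroup.centralizer (H : Set G), n₀ • P = Q := by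
    have hQle : (Q : Subgroup G) ≤ (P : Subgroup G) ⊔ N := by
      intro q hq
      apply mem_sup_of_mk_mem N
      rw [← coe_Phi, ← hQ2, coe_Phi]
      exact Subgroup.mem_map_of_mem _ hq
    obtain ⟨c, hc, hcQ⟩ := exists_mem_smul_eq Q P ((P : Subgroup G) ⊔ N) hQle le_sup_left
    obtain ⟨n, hn, hnc⟩ := exists_smul_eq_of_mem_sup N P hc
    refine ⟨n, Subgroup.mem_inf.2 ⟨hn, ?_⟩, by rw [← hnc, hcQ]⟩
    rw [Subgroup.mem_centralizer_iff]
    intro h hh
    have h1 : n⁻¹ * h * n ∈ (P : Subgroup G) := by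
      have : h ∈ ((n • P : Sylow p G) : Subgroup G) := by rw [← hnc, hcQ]; exact hQ1 hh
      exact (mem_smul_sylow_iff P n h).1 this
    have h2 : h⁻¹ * (n⁻¹ * h * n) ∈ (P : Subgroup G) :=
      (P : Subgroup G).mul_mem ((P : Subgroup G).inv_mem (hHP hh)) h1
    have h3 : h⁻¹ * (n⁻¹ * h * n) ∈ N := by
      have h31 : h⁻¹ * n⁻¹ * h⁻¹⁻¹ ∈ N := (inferInstance : N.Normal).conj_mem _ (N.inv_mem hn) h⁻¹
      have := N.mul_mem h31 hn
      simpa [mul_assoc] using this
    have h4 := hPN (P : Subgroup G) P.isPGroup' _ h2 h3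
    have h5 : n⁻¹ * h * n = h := (inv_mul_eq_one.1 h4).symm
    calc h * n = n * (n⁻¹ * h * n) := by group
      _ = n * h := by rw [h5]
  subst hn₀Q
  have ha : ∀ m : G, m ∈ N ⊓ Subgroup.centralizer ((P : Subgroup G) : Set G) →
      n₀ * m ∈ N ⊓ Subgroup.centralizer (H : Set G) ∧ (n₀ * m) • P = n₀ • P := by
    intro m hm
    refine ⟨Subgroup.mul_mem _ hn₀ ⟨hm.1, Subgroup.centralizer_le hHP hm.2⟩, ?_⟩
    rw [mul_smul]
    congr 1
    exact Sylow.smul_eq_iff_mem_normalizer.2 (Subgroup.centralizer_le_normalizer _ hm.2)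
  have hb : ∀ n : G, n ∈ N ⊓ Subgroup.centralizer (H : Set G) → n • P = n₀ • P →
      n₀⁻¹ * n ∈ N ⊓ Subgroup.centralizer ((P : Subgroup G) : Set G) := by
    intro n hn hnP
    have h1 : n₀⁻¹ * n ∈ N := N.mul_mem (N.inv_mem hn₀.1) hn.1
    refine ⟨h1, hcent _ h1 ?_⟩
    rw [mul_smul, hnP, inv_smul_smul]
  symm
  apply Nat.card_congr
  exact
    { toFun := fun m => ⟨⟨n₀ * m.1, (ha m.1 m.2).1⟩, Subtype.ext (ha m.1 m.2).2⟩
      invFun := fun x => ⟨n₀⁻¹ * x.1.1, hb x.1.1 x.1.2 (congrArg Subtype.val x.2)⟩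
      left_inv := fun m => Subtype.ext (by simp)
      right_inv := fun x => Subtype.ext (Subtype.ext (by simp)) }

theorem exists_sylow_ge (H : Subgroup G) (hH : IsPGroup p H) (Qb : Sylow p (G ⧸ N))
    (hQb : H.map (QuotientGroup.mk' N) ≤ (Qb : Subgroup (G ⧸ N))) :
    ∃ P : Sylow p G, H ≤ (P : Subgroup G) ∧ Phi N P = Qb := by
  obtain ⟨P₀, rfl⟩ := Phi_surjective N Qb
  have hHle : H ≤ (P₀ : Subgroup G) ⊔ N := by
    intro h hh
    apply mem_sup_of_mk_mem N
    rw [← coe_Phi]
    exact hQb (Subgroup.mem_map_of_mem _ hh)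
  obtain ⟨c, hc, hcH⟩ :=
    exists_conj_le_of_le P₀ ((P₀ : Subgroup G) ⊔ N) le_sup_left H hHle hH
  obtain ⟨n, hn, hnc⟩ := exists_smul_eq_of_mem_sup N P₀ (inv_mem hc)
  refine ⟨n • P₀, ?_, Phi_smul N P₀ hn⟩
  intro h hh
  rw [← hnc, mem_smul_sylow_iff]
  simpa using hcH h hh

theorem arith_cancel {σ σ' n n' l l' c cH g g' ν : ℕ} (hT1 : σ * n = l * g)
    (hT2 : σ' * n' = l' * g') (h5a : n * c = n' * ν) (h5b : l * c = l' * cH) (hG : g = g' * ν)
    (hpos : 0 < n * c) : σ = σ' * cH := by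
  apply Nat.eq_of_mul_eq_mul_right hpos
  calc σ * (n * c) = (σ * n) * c := by ring
    _ = (l * g) * c := by rw [hT1]
    _ = (l * c) * g := by ring
    _ = (l' * cH) * (g' * ν) := by rw [h5b, hG]
    _ = (σ' * n') * cH * ν := by rw [hT2]; ring
    _ = σ' * cH * (n' * ν) := by ring
    _ = σ' * cH * (n * c) := by rw [h5a]

/-- Quotient by a normal `p'`-subgroup. -/
theorem sigma_pprime_quot (hN : (Nat.card N).Coprime p) (H : Subgroup G) (hH : IsPGroup p H) :
    Nat.card {g : G // SN p H g} =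
      Nat.card {y : G ⧸ N // SN p (H.map (QuotientGroup.mk' N)) y} *
        Nat.card ↥(N ⊓ Subgroup.centralizer (H : Set G)) := by
  obtain ⟨P₁, hP₁⟩ := hH.exists_le_sylow
  obtain ⟨c, hc⟩ : ∃ c, c = Nat.card ↥(N ⊓ Subgroup.centralizer ((P₁ : Subgroup G) : Set G)) :=
    ⟨_, rfl⟩
  have hcP : ∀ P : Sylow p G,
      Nat.card ↥(N ⊓ Subgroup.centralizer ((P : Subgroup G) : Set G)) = c := by
    intro P
    obtain ⟨g, rfl⟩ := MulAction.exists_smul_eq G P₁ P
    rw [hc]; exact card_cent_smul N P₁ g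
  have hcpos : 0 < c := by rw [hc]; exact Nat.card_pos
  have hT1 : T p G H := casolo H hH
  have hT2 : T p (G ⧸ N) (H.map (QuotientGroup.mk' N)) := casolo _ (hH.map _)
  unfold T at hT1 hT2
  have h5a : Nat.card (Sylow p G) * c = Nat.card (Sylow p (G ⧸ N)) * Nat.card N := by
    have hfib : ∀ Qb : Sylow p (G ⧸ N),
        Nat.card {Q : Sylow p G // Phi N Q = Qb} = Nat.card N / c := by
      intro Qb
      obtain ⟨P, rfl⟩ := Phi_surjective N Qb
      have h1 := card_fiber_sylow N hN ⊥ P bot_le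
      rw [hcP P] at h1
      have h2 : N ⊓ Subgroup.centralizer (((⊥ : Subgroup G)) : Set G) = N := by
        apply inf_eq_left.2
        intro x _
        rw [Subgroup.mem_centralizer_iff]
        intro h hh
        have : h = 1 := Subgroup.mem_bot.1 hh
        rw [this]; simp
      have h3 : Nat.card {Q : Sylow p G // (⊥ : Subgroup G) ≤ (Q : Subgroup G) ∧
          Phi N Q = Phi N P} = Nat.card {Q : Sylow p G // Phi N Q = Phi N P} := by
        apply Nat.card_congr
        exact Equiv.subtypeEquivRight (fun Q => ⟨fun h => h.2, fun h => ⟨bot_le, h⟩⟩)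
      rw [h2, h3] at h1
      rw [h1, Nat.mul_div_cancel _ hcpos]
    have h1 := card_eq_mul_of_fibers (Phi N : Sylow p G → Sylow p (G ⧸ N)) (Nat.card N / c) hfib
    have hdvd : c ∣ Nat.card N := by
      rw [← hcP P₁]; exact Subgroup.card_dvd_of_le inf_le_left
    rw [h1, mul_assoc, Nat.div_mul_cancel hdvd]
  have h5b : Nat.card {Q : Sylow p G // H ≤ (Q : Subgroup G)} * c =
      Nat.card {Q : Sylow p (G ⧸ N) //
        H.map (QuotientGroup.mk' N) ≤ (Q : Subgroup (G ⧸ N))} *
        Nat.card ↥(N ⊓ Subgroup.centralizer (H : Set G)) := by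
    obtain ⟨f, hf⟩ : ∃ f : {Q : Sylow p G // H ≤ (Q : Subgroup G)} →
        {Q : Sylow p (G ⧸ N) // H.map (QuotientGroup.mk' N) ≤ (Q : Subgroup (G ⧸ N))},
        ∀ a, (f a).1 = Phi N a.1 :=
      ⟨fun a => ⟨Phi N a.1, by rw [coe_Phi]; exact Subgroup.map_mono a.2⟩, fun a => rfl⟩
    have hfib : ∀ b, Nat.card {a // f a = b} =
        Nat.card ↥(N ⊓ Subgroup.centralizer (H : Set G)) / c := by
      rintro ⟨Qb, hQb⟩
      obtain ⟨P, hHP, rfl⟩ := exists_sylow_ge N H hH Qb hQb
      have h1 := card_fiber_sylow N hN H P hHP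
      rw [hcP P] at h1
      have h3 : Nat.card {a // f a = ⟨Phi N P, hQb⟩} =
          Nat.card {Q : Sylow p G // H ≤ (Q : Subgroup G) ∧ Phi N Q = Phi N P} := by
        apply Nat.card_congr
        exact
          { toFun := fun a => ⟨a.1.1, a.1.2, by rw [← hf a.1, a.2]⟩
            invFun := fun Q => ⟨⟨Q.1, Q.2.1⟩, Subtype.ext (by rw [hf]; exact Q.2.2)⟩
            left_inv := fun a => rfl
            right_inv := fun Q => rfl }
      rw [h3, h1, Nat.mul_div_cancel _ hcpos]
    have h1 := card_eq_mul_of_fibers f _ hfib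
    have hdvd : c ∣ Nat.card ↥(N ⊓ Subgroup.centralizer (H : Set G)) := by
      have h2 := card_fiber_sylow N hN H P₁ hP₁
      rw [hcP P₁] at h2
      exact Dvd.intro_left _ h2.symm
    rw [h1, mul_assoc, Nat.div_mul_cancel hdvd]
  have hG : Nat.card G = Nat.card (G ⧸ N) * Nat.card N :=
    Subgroup.card_eq_card_quotient_mul_card_subgroup N
  have hpos : 0 < Nat.card (Sylow p G) * c := Nat.mul_pos Nat.card_pos hcpos
  exact arith_cancel hT1 hT2 h5a h5b hG hpos

end pprime

section main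

/-- Casolo's count along a series with `p`- and `p'`-factors. -/
theorem main_aux {p : ℕ} [Fact p.Prime] : ∀ (n : ℕ) (G : Type u) [Group G] [Finite G]
    (H : Subgroup G) (_ : IsPGroup p H) (M : Fin (n + 1) → Subgroup G) (_ : M 0 = ⊥)
    (_ : M (Fin.last n) = ⊤) (_ : Monotone M) (_ : ∀ i, (M i).Normal)
    (_ : ∀ i : Fin n, (∃ m : ℕ, (M i.castSucc).relIndex (M i.succ) = p ^ m) ∨
        ((M i.castSucc).relIndex (M i.succ)).Coprime p),
    Nat.card {g : G // SN p H g} = p ^ (Nat.card G).factorization p *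
        ∏ i : Fin n, (if ((M i.castSucc).relIndex (M i.succ)).Coprime p then
          Nat.card {u : G // u ∈ M i.succ ∧ ∀ h ∈ H, h * u * h⁻¹ * u⁻¹ ∈ M i.castSucc} /
            Nat.card (M i.castSucc) else 1) := by
  intro n
  induction n with
  | zero =>
    intro G _ _ H hH M h0 hn hmono hnormal hfac
    have hbt : (⊥ : Subgroup G) = ⊤ := h0.symm.trans hn
    have hone : ∀ x : G, x = 1 := fun x => Subgroup.mem_bot.1 (hbt ▸ Subgroup.mem_top x)
    haveI : Subsingleton G := ⟨fun a b => by rw [hone a, hone b]⟩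
    have h1 : Nat.card G = 1 := Nat.card_eq_one_iff_unique.2 ⟨inferInstance, ⟨1⟩⟩
    have h2 : Nat.card {g : G // SN p H g} = 1 := by
      rw [Nat.card_eq_one_iff_unique]
      exact ⟨inferInstance, ⟨⟨1, H, hH, le_refl _, Subgroup.one_mem _⟩⟩⟩
    rw [h2, h1]; simp
  | succ n ih =>
    intro G _ _ H hH M h0 hn hmono hnormal hfac
    obtain ⟨N, hNdef⟩ : ∃ N : Subgroup G, N = M (Fin.succ 0) := ⟨_, rfl⟩
    haveI hNn : N.Normal := by rw [hNdef]; exact hnormal _
    have hNle : ∀ i : Fin (n + 1), N ≤ M i.succ := by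
      intro i; rw [hNdef]; exact hmono (Fin.succ_le_succ_iff.2 (Fin.zero_le i))
    have ih' := ih (G ⧸ N) (H.map (QuotientGroup.mk' N)) (hH.map _)
      (fun i : Fin (n + 1) => (M i.succ).map (QuotientGroup.mk' N))
      (by
        show (M (Fin.succ 0)).map (QuotientGroup.mk' N) = ⊥
        rw [← hNdef]; exact QuotientGroup.map_mk'_self N)
      (by
        show (M (Fin.last n).succ).map (QuotientGroup.mk' N) = ⊤
        have hl : (Fin.last n).succ = Fin.last (n + 1) := Fin.succ_last n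
        rw [hl, hn]
        exact Subgroup.map_top_of_surjective _ (QuotientGroup.mk'_surjective N))
      (fun i j hij => Subgroup.map_mono (hmono (Fin.succ_le_succ_iff.2 hij)))
      (fun i => (hnormal i.succ).map _ (QuotientGroup.mk'_surjective N))
      (by
        intro i
        show (∃ m : ℕ, ((M i.castSucc.succ).map (QuotientGroup.mk' N)).relIndex
            ((M i.succ.succ).map (QuotientGroup.mk' N)) = p ^ m) ∨
          (((M i.castSucc.succ).map (QuotientGroup.mk' N)).relIndex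
            ((M i.succ.succ).map (QuotientGroup.mk' N))).Coprime p
        rw [relIndex_map_mk N (hNle _)]
        exact hfac i.succ)
    have hterm : ∀ i : Fin n,
        (if (((M i.succ.castSucc).map (QuotientGroup.mk' N)).relIndex
            ((M i.succ.succ).map (QuotientGroup.mk' N))).Coprime p then
          Nat.card {u : G ⧸ N // u ∈ (M i.succ.succ).map (QuotientGroup.mk' N) ∧
            ∀ h ∈ H.map (QuotientGroup.mk' N),
              h * u * h⁻¹ * u⁻¹ ∈ (M i.succ.castSucc).map (QuotientGroup.mk' N)} /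
            Nat.card ((M i.succ.castSucc).map (QuotientGroup.mk' N)) else 1) =
        (if ((M i.succ.castSucc).relIndex (M i.succ.succ)).Coprime p then
          Nat.card {u : G // u ∈ M i.succ.succ ∧ ∀ h ∈ H, h * u * h⁻¹ * u⁻¹ ∈ M i.succ.castSucc} /
            Nat.card (M i.succ.castSucc) else 1) := by
      intro i
      have hA : N ≤ M i.succ.castSucc := hNle i.castSucc
      rw [relIndex_map_mk N hA]
      by_cases hc : ((M i.succ.castSucc).relIndex (M i.succ.succ)).Coprime p
      · rw [if_pos hc, if_pos hc, card_comm_count N hA (hNle i.succ) H, card_map_mk N hA]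
        exact (Nat.mul_div_mul_right _ _ Nat.card_pos).symm
      · rw [if_neg hc, if_neg hc]
    have hq : Nat.card {y : G ⧸ N // SN p (H.map (QuotientGroup.mk' N)) y} =
        p ^ (Nat.card (G ⧸ N)).factorization p *
        ∏ i : Fin n, (if ((M i.succ.castSucc).relIndex (M i.succ.succ)).Coprime p then
          Nat.card {u : G // u ∈ M i.succ.succ ∧ ∀ h ∈ H, h * u * h⁻¹ * u⁻¹ ∈ M i.succ.castSucc} /
            Nat.card (M i.succ.castSucc) else 1) := by
      rw [ih']
      congr 1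
      exact Finset.prod_congr rfl (fun i _ => hterm i)
    rw [Fin.prod_univ_succ]
    have hcardG : Nat.card G = Nat.card (G ⧸ N) * Nat.card N :=
      Subgroup.card_eq_card_quotient_mul_card_subgroup N
    have hGpos : Nat.card (G ⧸ N) ≠ 0 := Nat.card_pos.ne'
    have hNpos : Nat.card N ≠ 0 := Nat.card_pos.ne'
    have hM0 : M (0 : Fin (n + 1)).castSucc = ⊥ := h0
    by_cases hc : ((M (0 : Fin (n + 1)).castSucc).relIndex (M (0 : Fin (n + 1)).succ)).Coprime p
    · rw [if_pos hc]
      have hNc : (Nat.card N).Coprime p := by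
        rw [hM0, Subgroup.relIndex_bot_left, ← hNdef] at hc
        exact hc
      have hB := sigma_pprime_quot N hNc H hH
      have hfact : (Nat.card G).factorization p = (Nat.card (G ⧸ N)).factorization p := by
        rw [hcardG, Nat.factorization_mul hGpos hNpos, Finsupp.add_apply,
          Nat.factorization_eq_zero_of_not_dvd
            ((Nat.Prime.coprime_iff_not_dvd (Fact.out : p.Prime)).1 hNc.symm), add_zero]
      have hF0 : Nat.card {u : G // u ∈ M (0 : Fin (n + 1)).succ ∧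
          ∀ h ∈ H, h * u * h⁻¹ * u⁻¹ ∈ M (0 : Fin (n + 1)).castSucc} /
            Nat.card (M (0 : Fin (n + 1)).castSucc) =
          Nat.card ↥(N ⊓ Subgroup.centralizer (H : Set G)) := by
        rw [hM0, Subgroup.card_bot, Nat.div_one, ← hNdef]
        apply Nat.card_congr
        apply Equiv.subtypeEquivRight
        intro u
        show (u ∈ N ∧ ∀ h ∈ H, h * u * h⁻¹ * u⁻¹ ∈ (⊥ : Subgroup G)) ↔
          u ∈ N ⊓ Subgroup.centralizer (H : Set G)
        rw [Subgroup.mem_inf, Subgroup.mem_centralizer_iff]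
        refine and_congr Iff.rfl (forall_congr' fun h => forall_congr' fun hh => ?_)
        rw [Subgroup.mem_bot, mul_inv_eq_one, mul_inv_eq_iff_eq_mul]
      rw [hF0, hB, hq, hfact]; ring
    · rw [if_neg hc, one_mul]
      obtain ⟨m, hm⟩ := (hfac 0).resolve_right hc
      have hNcard : Nat.card N = p ^ m := by
        rw [hM0, Subgroup.relIndex_bot_left, ← hNdef] at hm
        exact hm
      have hNp : IsPGroup p N := IsPGroup.of_card hNcard
      have hA := sigma_pquot N hNp H
      have hfact : (Nat.card G).factorization p = (Nat.card (G ⧸ N)).factorization p + m := by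
        rw [hcardG, Nat.factorization_mul hGpos hNpos, hNcard,
          Nat.Prime.factorization_pow (Fact.out : p.Prime), Finsupp.add_apply,
          Finsupp.single_eq_same]
      rw [hA, hq, hfact, pow_add, hNcard]; ring

end main

end Cfsg.Agent.Lib.Helper17.Casolo2
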