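import Mathlib
import Cfsg.Prelude.Def_DStar
import Cfsg.Agent.Lib.Helper17.CL2

set_option autoImplicit false
open scoped commutatorElement

namespace Cfsg.Agent.Lib.Helper17.DStar

open Cfsg.Agent.Lib.Helper17.CL2

/-- In a nilpotent group, if the second centre equals the centre then the group is abelian. -/
theorem center_eq_top_of_second_center {H : Type*} [Group H] [Group.IsNilpotent H]
    (h : ∀ z : H, (∀ y : H, ⁅z, y⁆ ∈ Subgroup.center H) → z ∈ Subgroup.center H) :
    Subgroup.center H = ⊤ := by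
  have key : ∀ n : ℕ, Subgroup.upperCentralSeries H (n + 1) = Subgroup.center H := by
    intro n
    induction n with
    | zero => exact Subgroup.upperCentralSeries_one H
    | succ n ih =>
      ext z
      rw [Subgroup.mem_upperCentralSeries_succ_iff, ih]
      constructor
      · exact h z
      · intro hz y
        have : ⁅z, y⁆ = 1 := by
          rw [commutatorElement_eq_one_iff_commute]
          exact (Subgroup.mem_center_iff.1 hz y).symm
        rw [this]; exact Subgroup.one_mem _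
  obtain ⟨n, hn⟩ := Group.IsNilpotent.nilpotent H
  cases n with
  | zero =>
    rw [Subgroup.upperCentralSeries_zero] at hn
    rw [eq_top_iff, ← hn]
    exact bot_le
  | succ n => rw [← key n, hn]

/-- If `z ∈ D` is central modulo the centre of `D` and `A ≤ D` is abelian, then `⟨A, z⟩` has class
at most two. -/
theorem class_two_of_second_center {S : Type*} [Group S] {D A : Subgroup S} (hAD : A ≤ D)
    (hA : IsMulCommutative ↥A) {z : S} (hz : z ∈ D)
    (hz2 : ∀ y : ↥D, ⁅(⟨z, hz⟩ : ↥D), y⁆ ∈ Subgroup.center ↥D) :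
    ⁅⁅A ⊔ Subgroup.zpowers z, A ⊔ Subgroup.zpowers z⁆, A ⊔ Subgroup.zpowers z⁆ = ⊥ := by
  -- work in D modulo its centre
  have hzc : (QuotientGroup.mk' (Subgroup.center ↥D)) ⟨z, hz⟩ ∈
      Subgroup.center (↥D ⧸ Subgroup.center ↥D) := by
    rw [Subgroup.mem_center_iff]
    intro q
    obtain ⟨y, rfl⟩ := QuotientGroup.mk'_surjective (Subgroup.center ↥D) q
    have h1 : (QuotientGroup.mk' (Subgroup.center ↥D)) ⁅(⟨z, hz⟩ : ↥D), y⁆ = 1 :=
      (QuotientGroup.eq_one_iff _).2 (hz2 y)
    rw [map_commutatorElement, commutatorElement_eq_one_iff_commute] at h1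
    exact h1.eq.symm
  have hA' : IsMulCommutative ↥((A.subgroupOf D).map (QuotientGroup.mk' (Subgroup.center ↥D))) :=
    inferInstance
  have hZ' : IsMulCommutative ↥(Subgroup.zpowers ((QuotientGroup.mk' (Subgroup.center ↥D)) ⟨z, hz⟩)) :=
    inferInstance
  have hcomm : (A.subgroupOf D).map (QuotientGroup.mk' (Subgroup.center ↥D)) ≤
      Subgroup.centralizer
        ((Subgroup.zpowers ((QuotientGroup.mk' (Subgroup.center ↥D)) ⟨z, hz⟩) : Subgroup _) : Set _) := by
    rw [Subgroup.le_centralizer_iff, Subgroup.zpowers_le]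
    exact Subgroup.center_le_centralizer _ hzc
  have hK := isMulComm_sup hA' hZ' hcomm
  have hKbot : ⁅(A.subgroupOf D ⊔ Subgroup.zpowers (⟨z, hz⟩ : ↥D)).map (QuotientGroup.mk' (Subgroup.center ↥D)),
      (A.subgroupOf D ⊔ Subgroup.zpowers (⟨z, hz⟩ : ↥D)).map (QuotientGroup.mk' (Subgroup.center ↥D))⁆ = ⊥ := by
    rw [Subgroup.map_sup, MonoidHom.map_zpowers, Subgroup.commutator_eq_bot_iff_le_centralizer]
    exact (isMulComm_iff _).1 hK
  rw [← Subgroup.map_commutator, Subgroup.map_eq_bot_iff, QuotientGroup.ker_mk'] at hKbot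
  have h3 : ⁅⁅A.subgroupOf D ⊔ Subgroup.zpowers (⟨z, hz⟩ : ↥D),
      A.subgroupOf D ⊔ Subgroup.zpowers (⟨z, hz⟩ : ↥D)⁆,
      A.subgroupOf D ⊔ Subgroup.zpowers (⟨z, hz⟩ : ↥D)⁆ = ⊥ := by
    rw [Subgroup.commutator_eq_bot_iff_le_centralizer]
    exact hKbot.trans (Subgroup.center_le_centralizer _)
  have h4 : (A.subgroupOf D ⊔ Subgroup.zpowers (⟨z, hz⟩ : ↥D)).map D.subtype =
      A ⊔ Subgroup.zpowers z := by
    rw [Subgroup.map_sup, MonoidHom.map_zpowers, Subgroup.map_subgroupOf_eq_of_le hAD]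
    rfl
  rw [← h4, ← Subgroup.map_commutator, ← Subgroup.map_commutator, h3, Subgroup.map_bot]

theorem le_dStar {S : Type*} [Group S] {A : Subgroup S} (hA : A ∈ Cfsg.dStarFamily S) :
    A ≤ Cfsg.dStar S := le_sSup hA

theorem dStar_isMulCommutative {S : Type*} [Group S] [Finite S] {p : ℕ} [Fact p.Prime]
    (hS : IsPGroup p S) : IsMulCommutative ↥(Cfsg.dStar S) := by
  have hnil : Group.IsNilpotent ↥(Cfsg.dStar S) := (hS.to_subgroup (Cfsg.dStar S)).isNilpotent
  have hc := center_eq_top_of_second_center (H := ↥(Cfsg.dStar S)) (by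
    intro z hz2
    have hle : Cfsg.dStar S ≤ Subgroup.centralizer ({(z : S)} : Set S) := by
      apply sSup_le
      intro A hA a ha
      have h1 := class_two_of_second_center (le_dStar hA) hA.1 z.2 hz2
      have h2 := hA.2 (z : S) h1 a ha
      rw [Subgroup.mem_centralizer_iff]
      intro h hh
      rw [Set.mem_singleton_iff] at hh
      rw [hh]; exact h2.symm
    rw [Subgroup.mem_center_iff]
    intro g
    apply Subtype.ext
    have := Subgroup.mem_centralizer_iff.1 (hle g.2) (z : S) rfl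
    exact this.symm)
  rw [isMulComm_iff]
  intro x hx
  rw [Subgroup.mem_centralizer_iff]
  intro y hy
  have hxc : (⟨x, hx⟩ : ↥(Cfsg.dStar S)) ∈ Subgroup.center ↥(Cfsg.dStar S) := by rw [hc]; trivial
  have := Subgroup.mem_center_iff.1 hxc ⟨y, hy⟩
  exact congrArg Subtype.val this

theorem dStar_mem {S : Type*} [Group S] [Finite S] {p : ℕ} [Fact p.Prime] (hS : IsPGroup p S) :
    Cfsg.dStar S ∈ Cfsg.dStarFamily S := by
  refine ⟨dStar_isMulCommutative hS, ?_⟩
  intro x hx
  have hle : Cfsg.dStar S ≤ Subgroup.centralizer ({x} : Set S) := by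
    apply sSup_le
    intro A hA a ha
    have hmono : A ⊔ Subgroup.zpowers x ≤ Cfsg.dStar S ⊔ Subgroup.zpowers x :=
      sup_le_sup_right (le_dStar hA) _
    have h1 : ⁅⁅A ⊔ Subgroup.zpowers x, A ⊔ Subgroup.zpowers x⁆, A ⊔ Subgroup.zpowers x⁆ = ⊥ := by
      rw [eq_bot_iff, ← hx]
      exact Subgroup.commutator_mono (Subgroup.commutator_mono hmono hmono) hmono
    have h2 := hA.2 x h1 a ha
    rw [Subgroup.mem_centralizer_iff]
    intro h hh
    rw [Set.mem_singleton_iff] at hh
    rw [hh]; exact h2.symm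
  intro a ha
  exact (Subgroup.mem_centralizer_iff.1 (hle ha) x rfl).symm

end Cfsg.Agent.Lib.Helper17.DStar
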