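import Mathlib
import Cfsg.Prelude.Def_PLocal
import Cfsg.Agent.Lib.Helper17.CL2
import Cfsg.Agent.Lib.Helper17.Syl

set_option autoImplicit false
open scoped Pointwise commutatorElement

namespace Cfsg.Agent.Lib.Helper17.TRT

open Cfsg.Agent.Lib.Helper17.CD Cfsg.Agent.Lib.Helper17.CL2 Cfsg.Agent.Lib.Helper17.Syl

variable {G : Type*} [Group G]

theorem comm_mul (x a b : G) : ⁅x, a * b⁆ = ⁅x, a⁆ * (a * ⁅x, b⁆ * a⁻¹) := by
  simp only [commutatorElement_def]; group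

/-- Step 1 of Thompson's replacement theorem: an element of `B` outside `N(A)` all of whose
commutators with `A` lie in `N_B(A)`. -/
theorem exists_elt [Finite G] {p : ℕ} [Fact p.Prime] (hG : IsPGroup p G) {A B : Subgroup G}
    (hAB : A ≤ Subgroup.normalizer (B : Set G)) (hBA : ¬ B ≤ Subgroup.normalizer (A : Set G)) :
    ∃ x ∈ B, x ∉ Subgroup.normalizer (A : Set G) ∧
      ∀ a ∈ A, ⁅x, a⁆ ∈ B ⊓ Subgroup.normalizer (A : Set G) := by
  classical
  have hnil : Group.IsNilpotent ↥(B ⊔ A) := (hG.to_subgroup (B ⊔ A)).isNilpotent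
  have hNA : (B ⊓ Subgroup.normalizer (A : Set G)) ⊔ A ≤ Subgroup.normalizer (A : Set G) :=
    sup_le inf_le_right Subgroup.le_normalizer
  have hlt : ((B ⊓ Subgroup.normalizer (A : Set G)) ⊔ A).subgroupOf (B ⊔ A) < ⊤ := by
    rw [lt_top_iff_ne_top, Ne, Subgroup.subgroupOf_eq_top]
    intro h
    exact hBA (le_sup_left.trans (h.trans hNA))
  have hnc := Group.normalizerCondition_of_isNilpotent (G := ↥(B ⊔ A)) _ hlt
  obtain ⟨y, hy, hyL⟩ := SetLike.exists_of_lt hnc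
  have hyset : (y : G) ∈ ((B ⊔ A : Subgroup G) : Set G) := y.2
  rw [Subgroup.coe_mul_of_right_le_normalizer_left B A hAB] at hyset
  obtain ⟨b, hb, a₀, ha₀, hba⟩ := Set.mem_mul.1 hyset
  have hbnot : b ∉ (B ⊓ Subgroup.normalizer (A : Set G)) ⊔ A := by
    intro h
    apply hyL
    rw [Subgroup.mem_subgroupOf, ← hba]
    exact Subgroup.mul_mem _ h (Subgroup.mem_sup_right ha₀)
  refine ⟨b, hb, fun h => hbnot (Subgroup.mem_sup_left ⟨hb, h⟩), ?_⟩
  intro a ha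
  have hcB : ⁅b, a⁆ ∈ B := by
    rw [commutatorElement_def]
    have h1 : a * b⁻¹ * a⁻¹ ∈ B := (Subgroup.mem_normalizer_iff.1 (hAB ha) b⁻¹).1 (B.inv_mem hb)
    have e : b * a * b⁻¹ * a⁻¹ = b * (a * b⁻¹ * a⁻¹) := by group
    rw [e]; exact B.mul_mem hb h1
  refine ⟨hcB, hNA ?_⟩
  -- b a b⁻¹ = y (a₀⁻¹ a a₀) y⁻¹ ∈ N ⊔ A
  have hmem : (⟨a₀⁻¹ * a * a₀, Subgroup.mem_sup_right (A.mul_mem (A.mul_mem (A.inv_mem ha₀) ha) ha₀)⟩ :
      ↥(B ⊔ A)) ∈ ((B ⊓ Subgroup.normalizer (A : Set G)) ⊔ A).subgroupOf (B ⊔ A) := by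
    rw [Subgroup.mem_subgroupOf]
    exact Subgroup.mem_sup_right (A.mul_mem (A.mul_mem (A.inv_mem ha₀) ha) ha₀)
  have h2 := (Subgroup.mem_normalizer_iff.1 hy _).1 hmem
  rw [Subgroup.mem_subgroupOf] at h2
  have e : ((y * (⟨a₀⁻¹ * a * a₀, Subgroup.mem_sup_right (A.mul_mem (A.mul_mem (A.inv_mem ha₀) ha) ha₀)⟩ :
      ↥(B ⊔ A)) * y⁻¹ : ↥(B ⊔ A)) : G) = b * a * b⁻¹ := by
    show (y : G) * (a₀⁻¹ * a * a₀) * (y : G)⁻¹ = b * a * b⁻¹
    rw [← hba]; group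
  rw [e] at h2
  rw [commutatorElement_def]
  exact Subgroup.mul_mem _ h2 (Subgroup.mem_sup_right (A.inv_mem ha))

/-- **Thompson's replacement theorem** for abelian subgroups of largest order. -/
theorem thompson_replacement [Finite G] {p : ℕ} [Fact p.Prime] (hG : IsPGroup p G) {A B : Subgroup G}
    (hA : A ∈ Cfsg.maxAbelianSubgroups G) (hB : IsMulCommutative ↥B)
    (hAB : A ≤ Subgroup.normalizer (B : Set G)) (hBA : ¬ B ≤ Subgroup.normalizer (A : Set G)) :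
    ∃ A' ∈ Cfsg.maxAbelianSubgroups G, A ⊓ B < A' ⊓ B ∧ A' ≤ Subgroup.normalizer (A : Set G) := by
  classical
  obtain ⟨x, hxB, hxN, hx⟩ := exists_elt hG hAB hBA
  have habA : ∀ a ∈ A, ∀ b ∈ A, a * b = b * a := fun a ha b hb =>
    haveI := hA.1
    setLike_mul_comm ha hb
  have habB : ∀ a ∈ B, ∀ b ∈ B, a * b = b * a := fun a ha b hb =>
    haveI := hB
    setLike_mul_comm ha hb
  set M : Subgroup G := Subgroup.closure {m | ∃ a ∈ A, m = ⁅x, a⁆} with hMdef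
  have hgen : ∀ a ∈ A, ⁅x, a⁆ ∈ M := fun a ha => Subgroup.subset_closure ⟨a, ha, rfl⟩
  have hMle : M ≤ B ⊓ Subgroup.normalizer (A : Set G) := by
    rw [hMdef, Subgroup.closure_le]
    rintro _ ⟨a, ha, rfl⟩
    exact hx a ha
  have hMab : IsMulCommutative ↥M := isMulComm_of_le hB (hMle.trans inf_le_left)
  have hF3 : ∀ a ∈ A, ∀ a' ∈ A, ⁅x, a'⁆⁻¹ * (a * ⁅x, a'⁆ * a⁻¹) ∈ A := by
    intro a ha a' ha'
    have hn : ⁅x, a'⁆⁻¹ ∈ Subgroup.normalizer (A : Set G) := Subgroup.inv_mem _ (hx a' ha').2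
    have h1 : ⁅x, a'⁆⁻¹ * a * ⁅x, a'⁆⁻¹⁻¹ ∈ A := (Subgroup.mem_normalizer_iff.1 hn a).1 ha
    have e : ⁅x, a'⁆⁻¹ * (a * ⁅x, a'⁆ * a⁻¹) = (⁅x, a'⁆⁻¹ * a * ⁅x, a'⁆⁻¹⁻¹) * a⁻¹ := by group
    rw [e]; exact A.mul_mem h1 (A.inv_mem ha)
  have hF4 : ∀ a ∈ A, ⁅x, a⁆ ∈ A → a ∈ Subgroup.centralizer (M : Set G) := by
    intro a ha hca
    have hM : M ≤ Subgroup.centralizer ({a} : Set G) := by
      rw [hMdef, Subgroup.closure_le]
      rintro _ ⟨a', ha', rfl⟩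
      rw [SetLike.mem_coe, Subgroup.mem_centralizer_iff]
      intro h hh
      rw [Set.mem_singleton_iff] at hh
      rw [hh]
      have e1 := comm_mul x a a'
      have e2 := comm_mul x a' a
      rw [habA a ha a' ha'] at e1
      have e3 : a' * ⁅x, a⁆ * a'⁻¹ = ⁅x, a⁆ := by rw [habA a' ha' _ hca]; group
      rw [e3] at e2
      have e4 : ⁅x, a⁆ * (a * ⁅x, a'⁆ * a⁻¹) = ⁅x, a⁆ * ⁅x, a'⁆ := by
        rw [← e1, e2]; exact habB _ (hx a' ha').1 _ (hx a ha).1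
      have e5 := mul_left_cancel e4
      calc a * ⁅x, a'⁆ = (a * ⁅x, a'⁆ * a⁻¹) * a := by group
        _ = ⁅x, a'⁆ * a := by rw [e5]
    rw [Subgroup.mem_centralizer_iff]
    intro m hm
    exact (Subgroup.mem_centralizer_iff.1 (hM hm) a rfl).symm
  have hMinst : IsMulCommutative ↥M := hMab
  let θ : ↥A →* ↥M ⧸ (A.subgroupOf M) := MonoidHom.mk'
    (fun a => (QuotientGroup.mk (⟨⁅x, (a : G)⁆, hgen a a.2⟩ : ↥M) : ↥M ⧸ (A.subgroupOf M)))
    (by
      intro a a'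
      rw [← QuotientGroup.mk_mul, QuotientGroup.eq, Subgroup.mem_subgroupOf]
      show ⁅x, (a : G) * (a' : G)⁆⁻¹ * (⁅x, (a : G)⁆ * ⁅x, (a' : G)⁆) ∈ A
      have e : ⁅x, (a : G) * (a' : G)⁆⁻¹ * (⁅x, (a : G)⁆ * ⁅x, (a' : G)⁆) =
          (⁅x, (a' : G)⁆⁻¹ * ((a : G) * ⁅x, (a' : G)⁆ * (a : G)⁻¹))⁻¹ := by
        rw [comm_mul]; group
      rw [e]
      exact A.inv_mem (hF3 a a.2 a' a'.2))
  have hker : ∀ a : ↥A, a ∈ θ.ker → (a : G) ∈ A ⊓ Subgroup.centralizer (M : Set G) := by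
    intro a ha
    rw [MonoidHom.mem_ker] at ha
    have h1 : (QuotientGroup.mk (⟨⁅x, (a : G)⁆, hgen a a.2⟩ : ↥M) : ↥M ⧸ (A.subgroupOf M)) = 1 := ha
    rw [QuotientGroup.eq_one_iff, Subgroup.mem_subgroupOf] at h1
    exact ⟨a.2, hF4 a a.2 h1⟩
  have h1 := Subgroup.card_mul_index θ.ker
  have h2 := Subgroup.index_ker θ
  have h3 : Nat.card ↥θ.range ≤ A.relIndex M := Subgroup.card_le_card_group θ.range
  have h5 : Nat.card ↥θ.ker ≤ Nat.card ↥(A ⊓ Subgroup.centralizer (M : Set G)) := by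
    apply Nat.card_le_card_of_injective (fun a : ↥θ.ker =>
      (⟨((a : ↥A) : G), hker a a.2⟩ : ↥(A ⊓ Subgroup.centralizer (M : Set G))))
    intro a b hab
    apply Subtype.ext
    apply Subtype.ext
    exact congrArg (fun z : ↥(A ⊓ Subgroup.centralizer (M : Set G)) => (z : G)) hab
  have hcardA : Nat.card ↥A ≤ Nat.card ↥(A ⊓ Subgroup.centralizer (M : Set G)) * A.relIndex M := by
    rw [← h1, h2]
    exact Nat.mul_le_mul h5 h3
  have h6 := relIndex_mul_card_inf A M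
  have hMC : M ≤ Subgroup.centralizer ((A ⊓ Subgroup.centralizer (M : Set G) : Subgroup G) : Set G) :=
    Subgroup.le_centralizer_iff.1 inf_le_right
  have h7 := Subgroup.coe_mul_of_left_le_normalizer_right M (A ⊓ Subgroup.centralizer (M : Set G))
    (hMC.trans (Subgroup.centralizer_le_normalizer _))
  have h8 := card_mulSet_mul_card_inf M (A ⊓ Subgroup.centralizer (M : Set G))
  rw [← h7] at h8
  have h9 : M ⊓ (A ⊓ Subgroup.centralizer (M : Set G)) = A ⊓ M :=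
    le_antisymm (le_inf (inf_le_right.trans inf_le_left) inf_le_left)
      (le_inf inf_le_right (le_inf inf_le_left (inf_le_right.trans ((isMulComm_iff M).1 hMab))))
  rw [h9] at h8
  have h8' : Nat.card ↥(M ⊔ (A ⊓ Subgroup.centralizer (M : Set G))) * Nat.card ↥(A ⊓ M) =
      Nat.card ↥M * Nat.card ↥(A ⊓ Subgroup.centralizer (M : Set G)) := h8
  have hcardA' : Nat.card ↥A ≤ Nat.card ↥(M ⊔ (A ⊓ Subgroup.centralizer (M : Set G))) := by
    have hpos : 0 < Nat.card ↥(A ⊓ M) := Nat.card_pos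
    have e : Nat.card ↥(M ⊔ (A ⊓ Subgroup.centralizer (M : Set G))) * Nat.card ↥(A ⊓ M) =
        (Nat.card ↥(A ⊓ Subgroup.centralizer (M : Set G)) * A.relIndex M) * Nat.card ↥(A ⊓ M) := by
      rw [h8', ← h6]; ring
    rw [Nat.eq_of_mul_eq_mul_right hpos e]
    exact hcardA
  have hA'ab : IsMulCommutative ↥(M ⊔ (A ⊓ Subgroup.centralizer (M : Set G))) :=
    isMulComm_sup hMab (isMulComm_of_le hA.1 inf_le_left) hMC
  refine ⟨M ⊔ (A ⊓ Subgroup.centralizer (M : Set G)), maxAb_of_card hA hA'ab hcardA', ?_, ?_⟩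
  · rw [SetLike.lt_iff_le_and_exists]
    refine ⟨?_, ?_⟩
    · refine le_inf (le_trans ?_ le_sup_right) inf_le_right
      refine le_inf inf_le_left (inf_le_right.trans ?_)
      exact ((isMulComm_iff B).1 hB).trans
        (Subgroup.centralizer_le (SetLike.coe_subset_coe.2 (hMle.trans inf_le_left)))
    · -- some commutator ⁅x, a⁆ is not in A
      have hex : ∃ a ∈ A, x * a * x⁻¹ ∉ A := by
        by_contra hcon
        apply hxN
        apply mem_normalizer_of_conj_mem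
        intro r hr
        by_contra h
        exact hcon ⟨r, hr, h⟩
      obtain ⟨a, ha, hxa⟩ := hex
      refine ⟨⁅x, a⁆, ⟨Subgroup.mem_sup_left (hgen a ha), (hx a ha).1⟩, ?_⟩
      intro hmem
      apply hxa
      have e : x * a * x⁻¹ = ⁅x, a⁆ * a := by rw [commutatorElement_def]; group
      rw [e]
      exact A.mul_mem hmem.1 ha
  · exact sup_le (hMle.trans inf_le_right) (inf_le_left.trans Subgroup.le_normalizer)

end Cfsg.Agent.Lib.Helper17.TRT
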