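import Mathlib
import Cfsg.Prelude.Def_DStar
import Cfsg.Prelude.Def_PLocal
import Cfsg.Agent.Lib.Helper17.DStar
import Cfsg.Agent.Lib.Helper17.TRT

set_option autoImplicit false
open scoped commutatorElement

namespace Cfsg.Agent.Lib.Helper17.DStar2

open Cfsg.Agent.Lib.Helper17.CL2 Cfsg.Agent.Lib.Helper17.DStar Cfsg.Agent.Lib.Helper17.Syl
  Cfsg.Agent.Lib.Helper17.TRT

/-- If `D` is abelian and every commutator `⁅d, a⁆` (`d ∈ D`) centralizes `D` and `a`, then `⟨D, a⟩`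
has class at most two. -/
theorem class_two_sup_zpowers {S : Type*} [Group S] {D : Subgroup S} (hD : IsMulCommutative ↥D)
    {a : S} (h1 : ∀ d ∈ D, ⁅d, a⁆ ∈ Subgroup.centralizer (D : Set S))
    (h2 : ∀ d ∈ D, ⁅d, a⁆ * a = a * ⁅d, a⁆) :
    ⁅⁅D ⊔ Subgroup.zpowers a, D ⊔ Subgroup.zpowers a⁆, D ⊔ Subgroup.zpowers a⁆ = ⊥ := by
  have hDK : D ≤ D ⊔ Subgroup.zpowers a := le_sup_left
  have haK : a ∈ D ⊔ Subgroup.zpowers a := Subgroup.mem_sup_right (Subgroup.mem_zpowers a)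
  have hcen : ∀ d ∈ D, D ⊔ Subgroup.zpowers a ≤ Subgroup.centralizer ({⁅d, a⁆} : Set S) := by
    intro d hd
    apply sup_le
    · intro e he
      rw [Subgroup.mem_centralizer_iff]
      intro h hh
      rw [Set.mem_singleton_iff] at hh
      rw [hh]
      exact (Subgroup.mem_centralizer_iff.1 (h1 d hd) e he).symm
    · rw [Subgroup.zpowers_le, Subgroup.mem_centralizer_iff]
      intro h hh
      rw [Set.mem_singleton_iff] at hh
      rw [hh]
      exact h2 d hd
  have hz : ∀ d' : ↥(D ⊔ Subgroup.zpowers a), (d' : S) ∈ D →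
      ⁅d', (⟨a, haK⟩ : ↥(D ⊔ Subgroup.zpowers a))⁆ ∈ Subgroup.center ↥(D ⊔ Subgroup.zpowers a) := by
    intro d' hd'
    rw [Subgroup.mem_center_iff]
    intro g
    apply Subtype.ext
    have := Subgroup.mem_centralizer_iff.1 (hcen _ hd' g.2) ⁅(d' : S), a⁆ rfl
    exact this.symm
  have hπ : (QuotientGroup.mk' (Subgroup.center ↥(D ⊔ Subgroup.zpowers a))) ⟨a, haK⟩ ∈
      Subgroup.centralizer (((D.subgroupOf (D ⊔ Subgroup.zpowers a)).map
        (QuotientGroup.mk' (Subgroup.center ↥(D ⊔ Subgroup.zpowers a))) : Subgroup _) : Set _) := by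
    rw [Subgroup.mem_centralizer_iff]
    rintro _ ⟨d', hd', rfl⟩
    have h3 : (QuotientGroup.mk' (Subgroup.center ↥(D ⊔ Subgroup.zpowers a)))
        ⁅d', (⟨a, haK⟩ : ↥(D ⊔ Subgroup.zpowers a))⁆ = 1 :=
      (QuotientGroup.eq_one_iff _).2 (hz d' (Subgroup.mem_subgroupOf.1 hd'))
    rw [map_commutatorElement, commutatorElement_eq_one_iff_commute] at h3
    exact h3.eq
  have hD' : IsMulCommutative ↥((D.subgroupOf (D ⊔ Subgroup.zpowers a)).map
      (QuotientGroup.mk' (Subgroup.center ↥(D ⊔ Subgroup.zpowers a)))) := inferInstance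
  have hZ' : IsMulCommutative ↥(Subgroup.zpowers
      ((QuotientGroup.mk' (Subgroup.center ↥(D ⊔ Subgroup.zpowers a))) ⟨a, haK⟩)) := inferInstance
  have hK := isMulComm_sup hD' hZ' (Subgroup.le_centralizer_iff.1 ((Subgroup.zpowers_le).2 hπ))
  have hKbot : ⁅(D.subgroupOf (D ⊔ Subgroup.zpowers a) ⊔
        Subgroup.zpowers (⟨a, haK⟩ : ↥(D ⊔ Subgroup.zpowers a))).map
          (QuotientGroup.mk' (Subgroup.center ↥(D ⊔ Subgroup.zpowers a))),
      (D.subgroupOf (D ⊔ Subgroup.zpowers a) ⊔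
        Subgroup.zpowers (⟨a, haK⟩ : ↥(D ⊔ Subgroup.zpowers a))).map
          (QuotientGroup.mk' (Subgroup.center ↥(D ⊔ Subgroup.zpowers a)))⁆ = ⊥ := by
    rw [Subgroup.map_sup, MonoidHom.map_zpowers, Subgroup.commutator_eq_bot_iff_le_centralizer]
    exact (isMulComm_iff _).1 hK
  rw [← Subgroup.map_commutator, Subgroup.map_eq_bot_iff, QuotientGroup.ker_mk'] at hKbot
  have h3 : ⁅⁅D.subgroupOf (D ⊔ Subgroup.zpowers a) ⊔
        Subgroup.zpowers (⟨a, haK⟩ : ↥(D ⊔ Subgroup.zpowers a)),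
      D.subgroupOf (D ⊔ Subgroup.zpowers a) ⊔
        Subgroup.zpowers (⟨a, haK⟩ : ↥(D ⊔ Subgroup.zpowers a))⁆,
      D.subgroupOf (D ⊔ Subgroup.zpowers a) ⊔
        Subgroup.zpowers (⟨a, haK⟩ : ↥(D ⊔ Subgroup.zpowers a))⁆ = ⊥ := by
    rw [Subgroup.commutator_eq_bot_iff_le_centralizer]
    exact hKbot.trans (Subgroup.center_le_centralizer _)
  have h4 : (D.subgroupOf (D ⊔ Subgroup.zpowers a) ⊔
        Subgroup.zpowers (⟨a, haK⟩ : ↥(D ⊔ Subgroup.zpowers a))).map
          (D ⊔ Subgroup.zpowers a).subtype = D ⊔ Subgroup.zpowers a := by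
    rw [Subgroup.map_sup, MonoidHom.map_zpowers, Subgroup.map_subgroupOf_eq_of_le hDK]
    rfl
  have h5 := congrArg (Subgroup.map (D ⊔ Subgroup.zpowers a).subtype) h3
  rw [Subgroup.map_commutator, Subgroup.map_commutator, Subgroup.map_bot, h4] at h5
  exact h5

theorem dStarFamily_map {S : Type*} [Group S] (φ : S ≃* S) {A : Subgroup S}
    (hA : A ∈ Cfsg.dStarFamily S) : A.map φ.toMonoidHom ∈ Cfsg.dStarFamily S := by
  have hab : IsMulCommutative ↥A := hA.1
  refine ⟨inferInstance, ?_⟩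
  intro x hx b hb
  obtain ⟨a, ha, rfl⟩ := Subgroup.mem_map.1 hb
  have e : A.map φ.toMonoidHom ⊔ Subgroup.zpowers x =
      (A ⊔ Subgroup.zpowers (φ.symm x)).map φ.toMonoidHom := by
    rw [Subgroup.map_sup, MonoidHom.map_zpowers]
    congr 2
    exact (φ.apply_symm_apply x).symm
  rw [e, ← Subgroup.map_commutator, ← Subgroup.map_commutator,
    Subgroup.map_eq_bot_iff_of_injective _ φ.injective] at hx
  have h := hA.2 (φ.symm x) hx a ha
  have h' := congrArg φ h
  rw [map_mul, map_mul, φ.apply_symm_apply] at h'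
  exact h'

theorem dStar_normal (S : Type*) [Group S] : (Cfsg.dStar S).Normal := by
  constructor
  intro n hn g
  have hle : (Cfsg.dStar S).map (MulAut.conj g).toMonoidHom ≤ Cfsg.dStar S := by
    rw [Subgroup.map_le_iff_le_comap]
    apply sSup_le
    intro A hA
    rw [← Subgroup.map_le_iff_le_comap]
    exact le_dStar (dStarFamily_map (MulAut.conj g) hA)
  exact hle (Subgroup.mem_map.2 ⟨n, hn, rfl⟩)

/-- `D*(S)` centralizes every abelian subgroup that it normalizes. -/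
theorem dStar_commute_of_le_normalizer {S : Type*} [Group S] [Finite S] {p : ℕ} [Fact p.Prime]
    (hS : IsPGroup p S) {A : Subgroup S} (hA : IsMulCommutative ↥A)
    (hDA : Cfsg.dStar S ≤ Subgroup.normalizer (A : Set S)) :
    ∀ a ∈ A, ∀ d ∈ Cfsg.dStar S, d * a = a * d := by
  have hDab := dStar_isMulCommutative hS
  have hDn := dStar_normal S
  have hfam := dStar_mem hS
  intro a ha
  apply hfam.2 a
  apply class_two_sup_zpowers hDab
  · intro d hd
    apply (isMulComm_iff _).1 hDab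
    rw [commutatorElement_def]
    have h1 : a * d⁻¹ * a⁻¹ ∈ Cfsg.dStar S := hDn.conj_mem d⁻¹ (Subgroup.inv_mem _ hd) a
    have e : d * a * d⁻¹ * a⁻¹ = d * (a * d⁻¹ * a⁻¹) := by group
    rw [e]; exact Subgroup.mul_mem _ hd h1
  · intro d hd
    have h1 : ⁅d, a⁆ ∈ A := by
      rw [commutatorElement_def]
      exact A.mul_mem ((Subgroup.mem_normalizer_iff.1 (hDA hd) a).1 ha) (A.inv_mem ha)
    haveI := hA
    exact setLike_mul_comm h1 ha

theorem dStar_le_of_le_normalizer {S : Type*} [Group S] [Finite S] {p : ℕ} [Fact p.Prime]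
    (hS : IsPGroup p S) {A : Subgroup S} (hA : A ∈ Cfsg.maxAbelianSubgroups S)
    (hDA : Cfsg.dStar S ≤ Subgroup.normalizer (A : Set S)) : Cfsg.dStar S ≤ A := by
  have hDab := dStar_isMulCommutative hS
  have hc := dStar_commute_of_le_normalizer hS hA.1 hDA
  have hDC : Cfsg.dStar S ≤ Subgroup.centralizer (A : Set S) := by
    intro d hd
    rw [Subgroup.mem_centralizer_iff]
    intro a ha
    exact (hc a ha d hd).symm
  have hab := isMulComm_sup hDab hA.1 hDC
  have hcard := hA.2 _ hab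
  have h : A = Cfsg.dStar S ⊔ A := Subgroup.eq_of_le_of_card_ge le_sup_right hcard
  rw [h]; exact le_sup_left

/-- `D*(S)` lies in every abelian subgroup of largest order. -/
theorem dStar_le_maxAb {S : Type*} [Group S] [Finite S] {p : ℕ} [Fact p.Prime]
    (hS : IsPGroup p S) {A : Subgroup S} (hA : A ∈ Cfsg.maxAbelianSubgroups S) :
    Cfsg.dStar S ≤ A := by
  classical
  by_contra hcon
  have hne : Nonempty {A : Subgroup S // A ∈ Cfsg.maxAbelianSubgroups S ∧ ¬ Cfsg.dStar S ≤ A} :=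
    ⟨⟨A, hA, hcon⟩⟩
  obtain ⟨A₀, hmax⟩ := Finite.exists_max
    (fun A : {A : Subgroup S // A ∈ Cfsg.maxAbelianSubgroups S ∧ ¬ Cfsg.dStar S ≤ A} =>
      Nat.card ↥(A.1 ⊓ Cfsg.dStar S))
  have hDab := dStar_isMulCommutative hS
  have hDn := dStar_normal S
  have hnn : ¬ Cfsg.dStar S ≤ Subgroup.normalizer (A₀.1 : Set S) := fun h =>
    A₀.2.2 (dStar_le_of_le_normalizer hS A₀.2.1 h)
  have hAD : A₀.1 ≤ Subgroup.normalizer (Cfsg.dStar S : Set S) := fun a _ =>
    mem_normalizer_of_conj_mem (fun r hr => hDn.conj_mem r hr a)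
  obtain ⟨A', hA', hlt, hA'n⟩ := thompson_replacement hS A₀.2.1 hDab hAD hnn
  by_cases hD : Cfsg.dStar S ≤ A'
  · exact hnn (hD.trans hA'n)
  · have h1 := hmax ⟨A', hA', hD⟩
    have h2 : A₀.1 ⊓ Cfsg.dStar S = A' ⊓ Cfsg.dStar S := Subgroup.eq_of_le_of_card_ge hlt.le h1
    exact hlt.ne h2

end Cfsg.Agent.Lib.Helper17.DStar2
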