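import Mathlib
import Cfsg.Prelude.Def_SubgroupEmbedding
import Cfsg.Agent.Lib.Helper17.Syl

set_option autoImplicit false

namespace Cfsg.Agent.Lib.Helper17.ExtCl

open Cfsg.Agent.Lib.Helper17.Syl

variable {G : Type*} [Group G]

/-- In a finite `p`-group `T`, a subgroup `H ≤ T` with `T ∩ N(H) = H` is all of `T`. -/
theorem eq_of_inf_normalizer_eq [Finite G] {p : ℕ} [Fact p.Prime] {H T : Subgroup G}
    (hT : IsPGroup p ↥T) (hHT : H ≤ T) (h : T ⊓ Subgroup.normalizer (H : Set G) = H) : T = H := by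
  classical
  have hnil : Group.IsNilpotent ↥T := hT.isNilpotent
  have hnc := normalizerCondition_iff_only_full_group_self_normalizing.1
    (Group.normalizerCondition_of_isNilpotent (G := ↥T))
  have h1 : Subgroup.normalizer ((H.subgroupOf T : Subgroup ↥T) : Set ↥T) = H.subgroupOf T := by
    apply le_antisymm _ Subgroup.le_normalizer
    intro t ht
    rw [Subgroup.mem_subgroupOf, ← h]
    refine ⟨t.2, mem_normalizer_of_conj_mem fun r hr => ?_⟩
    have := (Subgroup.mem_normalizer_iff.1 ht ⟨r, hHT hr⟩).1 (Subgroup.mem_subgroupOf.2 hr)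
    rw [Subgroup.mem_subgroupOf] at this
    simpa using this
  have h2 := hnc _ h1
  apply le_antisymm _ hHT
  intro t ht
  have : (⟨t, ht⟩ : ↥T) ∈ H.subgroupOf T := by rw [h2]; trivial
  exact Subgroup.mem_subgroupOf.1 this

theorem normalizer_le_of_extremelyClosed [Finite G] {p : ℕ} [Fact p.Prime] {H : Subgroup G}
    (hcl : Cfsg.IsExtremelyClosed H) {Q : Subgroup G} (hQ : IsPGroup p ↥Q) (hHQ : H ≤ Q) :
    Subgroup.normalizer (Q : Set G) ≤ Subgroup.normalizer (H : Set G) := by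
  intro n hn
  have hconj : H.map (MulAut.conj n).toMonoidHom ≤ Q := by
    rintro _ ⟨h, hh, rfl⟩
    exact (Subgroup.mem_normalizer_iff.1 hn h).1 (hHQ hh)
  have hTQ : H ⊔ H.map (MulAut.conj n).toMonoidHom ≤ Q := sup_le hHQ hconj
  have hT : IsPGroup p ↥(H ⊔ H.map (MulAut.conj n).toMonoidHom) := hQ.to_le hTQ
  have h1 := eq_of_inf_normalizer_eq hT le_sup_left (hcl n)
  apply mem_normalizer_of_conj_mem
  intro r hr
  have : n * r * n⁻¹ ∈ H ⊔ H.map (MulAut.conj n).toMonoidHom :=
    Subgroup.mem_sup_right (Subgroup.mem_map.2 ⟨r, hr, rfl⟩)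
  rw [h1] at this
  exact this

end Cfsg.Agent.Lib.Helper17.ExtCl
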