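import Mathlib
import Cfsg.Agent.S0066

set_option autoImplicit false

namespace Cfsg.Agent.Lib.Helper17.Flavell

open scoped Pointwise
open Cfsg.Agent.S0066 Cfsg.Agent.Lib.Helper10.SZ Cfsg.Agent.Lib.Helper10.Coprime

variable {G : Type*} [Group G]

/-- `A` generates `H` as a normal subgroup of `H` (stated inside the ambient group). -/
def NC (A H : Subgroup G) : Prop :=
  ∀ N : Subgroup G, A ≤ N → N ≤ H → H ≤ Subgroup.normalizer (N : Set G) → N = H

theorem cj_inv_cj (x : G) (S : Subgroup G) : MulAut.conj x⁻¹ • MulAut.conj x • S = S := by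
  rw [← conj_mul_smul, inv_mul_cancel, map_one, one_smul]

theorem cj_cj_inv (x : G) (S : Subgroup G) : MulAut.conj x • MulAut.conj x⁻¹ • S = S := by
  rw [← conj_mul_smul, mul_inv_cancel, map_one, one_smul]

theorem cj_mono {S T : Subgroup G} (h : S ≤ T) (x : G) :
    MulAut.conj x • S ≤ MulAut.conj x • T :=
  Subgroup.pointwise_smul_le_pointwise_smul_iff.mpr h

theorem cj_le_iff {x : G} {S T : Subgroup G} :
    MulAut.conj x • S ≤ T ↔ S ≤ MulAut.conj x⁻¹ • T := by
  constructor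
  · intro h
    have := cj_mono h x⁻¹
    rwa [cj_inv_cj] at this
  · intro h
    have := cj_mono h x
    rwa [cj_cj_inv] at this

theorem cj_top (x : G) : MulAut.conj x • (⊤ : Subgroup G) = ⊤ := by
  have h := (cj_le_iff (x := x⁻¹) (S := (⊤ : Subgroup G)) (T := ⊤)).1 le_top
  rw [inv_inv] at h
  exact top_le_iff.1 h

theorem cj_eq_top_iff {x : G} {S : Subgroup G} : MulAut.conj x • S = ⊤ ↔ S = ⊤ := by
  constructor
  · intro h
    have h1 : MulAut.conj x⁻¹ • MulAut.conj x • S = MulAut.conj x⁻¹ • (⊤ : Subgroup G) := by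
      rw [h]
    rwa [cj_inv_cj, cj_top] at h1
  · rintro rfl
    exact cj_top x

theorem cj_le_normalizer {S K : Subgroup G} (h : K ≤ Subgroup.normalizer (S : Set G)) (x : G) :
    MulAut.conj x • K ≤ Subgroup.normalizer ((MulAut.conj x • S : Subgroup G) : Set G) := by
  intro y hy
  rw [mem_conj_smul_iff] at hy
  have h1 := mem_normalizer_iff_conj_smul.mp (h hy)
  rw [mem_normalizer_iff_conj_smul, ← conj_mul_smul]
  have e : y * x = x * (x⁻¹ * y * x) := by group
  rw [e, conj_mul_smul, h1]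

theorem cj_coatom {M : Subgroup G} (hM : IsCoatom M) (x : G) :
    IsCoatom (MulAut.conj x • M) := by
  refine ⟨?_, ?_⟩
  · intro h
    exact hM.1 (cj_eq_top_iff.1 h)
  · intro b hb
    have h1 : M < MulAut.conj x⁻¹ • b := by
      refine lt_of_le_of_ne (cj_le_iff.1 hb.le) ?_
      intro h
      apply hb.ne
      rw [h, cj_cj_inv]
    exact cj_eq_top_iff.1 (hM.2 _ h1)

theorem cj_eq_of_le [Finite G] {x : G} {S : Subgroup G} (h : MulAut.conj x • S ≤ S) :
    MulAut.conj x • S = S :=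
  Subgroup.eq_of_le_of_card_ge h (card_conj_smul x S).ge

theorem nc_iff {A H : Subgroup G} (hAH : A ≤ H) :
    Subgroup.normalClosure ((A.subgroupOf H : Subgroup H) : Set H) = ⊤ ↔ NC A H := by
  constructor
  · intro h N hAN hNH hHN
    haveI : (N.subgroupOf H).Normal := (Subgroup.normal_subgroupOf_iff_le_normalizer hNH).2 hHN
    have h1 : Subgroup.normalClosure ((A.subgroupOf H : Subgroup H) : Set H) ≤ N.subgroupOf H :=
      Subgroup.normalClosure_le_normal (fun x hx => hAN hx)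
    rw [h] at h1
    exact le_antisymm hNH (Subgroup.subgroupOf_eq_top.1 (top_le_iff.1 h1))
  · intro h
    obtain ⟨N', hN'⟩ : ∃ N' : Subgroup H,
        N' = Subgroup.normalClosure ((A.subgroupOf H : Subgroup H) : Set H) := ⟨_, rfl⟩
    rw [← hN']
    haveI : N'.Normal := by rw [hN']; exact Subgroup.normalClosure_normal
    have h1 : A ≤ N'.map H.subtype := by
      intro a ha
      refine ⟨⟨a, hAH ha⟩, ?_, rfl⟩
      rw [hN']
      exact Subgroup.subset_normalClosure ha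
    have h2 : N'.map H.subtype ≤ H := Subgroup.map_subtype_le N'
    have h3 : H ≤ Subgroup.normalizer ((N'.map H.subtype : Subgroup G) : Set G) := by
      have h4 := Subgroup.le_normalizer_map (H := N') H.subtype
      rw [Subgroup.normalizer_eq_top_iff.2 inferInstance, ← MonoidHom.range_eq_map,
        Subgroup.range_subtype] at h4
      exact h4
    have h5 := h _ h1 h2 h3
    have h6 : N'.map H.subtype = (⊤ : Subgroup H).map H.subtype := by
      rw [h5, ← MonoidHom.range_eq_map, Subgroup.range_subtype]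
    exact Subgroup.map_injective H.subtype_injective h6

theorem nc_self (A : Subgroup G) : NC A A := fun _ h1 h2 _ => le_antisymm h2 h1

theorem nc_top_of_le {A B : Subgroup G} (h : NC A ⊤) (hAB : A ≤ B) : NC B ⊤ :=
  fun N h1 h2 h3 => h N (hAB.trans h1) h2 h3

theorem rsub_not_nc {A H : Subgroup G} (h : RSub A H) (hne : A ≠ H) : ¬ NC A H := by
  intro hnc
  obtain ⟨M, hAM, hMH, hHM, -⟩ := exists_normal h hne
  exact hMH.ne (hnc M hAM hMH.le hHM)

theorem le_normalizer_inf {N B : Subgroup G} (hB : B ≤ Subgroup.normalizer (N : Set G)) :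
    B ≤ Subgroup.normalizer ((N ⊓ B : Subgroup G) : Set G) := by
  intro y hy
  rw [Subgroup.mem_normalizer_iff]
  intro z
  have h1 := Subgroup.mem_normalizer_iff.1 (hB hy) z
  constructor
  · intro hz
    exact Subgroup.mem_inf.2 ⟨h1.1 (Subgroup.mem_inf.1 hz).1,
      B.mul_mem (B.mul_mem hy (Subgroup.mem_inf.1 hz).2) (B.inv_mem hy)⟩
  · intro hz
    refine Subgroup.mem_inf.2 ⟨h1.2 (Subgroup.mem_inf.1 hz).1, ?_⟩
    have e : z = y⁻¹ * (y * z * y⁻¹) * y := by group
    rw [e]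
    exact B.mul_mem (B.mul_mem (B.inv_mem hy) (Subgroup.mem_inf.1 hz).2) hy

theorem nc_trans {A B H : Subgroup G} (hAB : A ≤ B) (h1 : NC A B) (hBH : B ≤ H) (h2 : NC B H) :
    NC A H := by
  intro N hAN hNH hHN
  have h3 : N ⊓ B = B :=
    h1 (N ⊓ B) (le_inf hAN hAB) inf_le_right (le_normalizer_inf (hBH.trans hHN))
  exact h2 N (by rw [← h3]; exact inf_le_left) hNH hHN

theorem nc_sSup {A : Subgroup G} (S : Set (Subgroup G)) (hS : ∀ H ∈ S, A ≤ H ∧ NC A H) :
    NC A (sSup S) := by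
  intro N hAN hNS hSN
  refine le_antisymm hNS (sSup_le ?_)
  intro H hH
  have h3 : N ⊓ H = H := (hS H hH).2 (N ⊓ H) (le_inf hAN (hS H hH).1) inf_le_right
    (le_normalizer_inf ((le_sSup hH).trans hSN))
  rw [← h3]
  exact inf_le_left

theorem nc_conj {A H : Subgroup G} (h : NC A H) (x : G) :
    NC (MulAut.conj x • A) (MulAut.conj x • H) := by
  intro N hAN hNH hHN
  have h1 : A ≤ MulAut.conj x⁻¹ • N := cj_le_iff.1 hAN
  have h2 : MulAut.conj x⁻¹ • N ≤ H := by
    have := cj_mono hNH x⁻¹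
    rwa [cj_inv_cj] at this
  have h3 : H ≤ Subgroup.normalizer ((MulAut.conj x⁻¹ • N : Subgroup G) : Set G) := by
    have := cj_le_normalizer hHN x⁻¹
    rwa [cj_inv_cj] at this
  have h4 := h _ h1 h2 h3
  rw [← h4, cj_cj_inv]

theorem exists_nc_of_not_rsub [Finite G] : ∀ (n : ℕ) (A L : Subgroup G), Nat.card L = n →
    A ≤ L → ¬ RSub A L → ∃ B : Subgroup G, A ≤ B ∧ B ≤ L ∧ NC A B ∧ A ≠ B := by
  intro n
  induction n using Nat.strong_induction_on with
  | _ n ih =>
    intro A L hn hAL hns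
    by_cases hnc : NC A L
    · refine ⟨L, hAL, le_rfl, hnc, ?_⟩
      rintro rfl
      exact hns (RSub.refl _)
    · have hex : ∃ N : Subgroup G, A ≤ N ∧ N ≤ L ∧ L ≤ Subgroup.normalizer (N : Set G) ∧
          N ≠ L := by
        by_contra hcon
        apply hnc
        intro N h1 h2 h3
        by_contra h4
        exact hcon ⟨N, h1, h2, h3, h4⟩
      obtain ⟨N, hAN, hNL, hLN, hne⟩ := hex
      have hlt : N < L := lt_of_le_of_ne hNL hne
      have hns' : ¬ RSub A N :=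
        fun h => hns (h.trans (RSub.step N L L hNL hLN (RSub.refl L)))
      obtain ⟨B, h1, h2, h3, h4⟩ :=
        ih (Nat.card N) (by rw [← hn]; exact card_lt_of_lt hlt) A N rfl hAN hns'
      exact ⟨B, h1, h2.trans hNL, h3, h4⟩

/-- Cliques of special subgroups: any two distinct members generate a subgroup lying in two
distinct maximal subgroups. -/
def IsCl (Sp : Subgroup G → Subgroup G → Prop) (C : Finset (Subgroup G)) : Prop :=
  (∀ B ∈ C, ∃ L, Sp B L) ∧ (∀ B ∈ C, ∀ B' ∈ C, B ≠ B' →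
    ∃ K₁ K₂ : Subgroup G, IsCoatom K₁ ∧ IsCoatom K₂ ∧ K₁ ≠ K₂ ∧ B ⊔ B' ≤ K₁ ∧ B ⊔ B' ≤ K₂)

theorem clique_contra [Finite G] (Sp : Subgroup G → Subgroup G → Prop)
    (sp_conj : ∀ B L, Sp B L → ∀ x : G, Sp (MulAut.conj x • B) (MulAut.conj x • L))
    (sp_le : ∀ B L, Sp B L → B ≤ L)
    (sp_coatom : ∀ B L, Sp B L → IsCoatom L)
    (sp_rsub : ∀ B L, Sp B L → ∀ L', IsCoatom L' → B ≤ L' → L' ≠ L → RSub B L')
    (sp_nrsub : ∀ B L, Sp B L → ¬ RSub B L)
    (sp_nc : ∀ B L, Sp B L → NC B ⊤)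
    (hpair : ∀ B₁ M₁ B₂ M₂, Sp B₁ M₁ → Sp B₂ M₂ → B₁ ≠ B₂ →
      ∀ L₁ L₂ : Subgroup G, IsCoatom L₁ → IsCoatom L₂ → L₁ ≠ L₂ → B₁ ⊔ B₂ ≤ L₁ →
      B₁ ⊔ B₂ ≤ L₂ → M₁ ≠ M₂ ∧ B₁ ≤ M₂ ∧ B₂ ≤ M₁)
    (B₁ B₂ M₁ M₂ : Subgroup G) (h1 : Sp B₁ M₁) (h2 : Sp B₂ M₂) (hne : B₁ ≠ B₂)
    (L₁ L₂ : Subgroup G) (hL₁ : IsCoatom L₁) (hL₂ : IsCoatom L₂) (hL : L₁ ≠ L₂)
    (hJ₁ : B₁ ⊔ B₂ ≤ L₁) (hJ₂ : B₁ ⊔ B₂ ≤ L₂) : False := by
  classical
  haveI : Fintype (Subgroup G) := Fintype.ofFinite _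
  have sp_uniq : ∀ B L L', Sp B L → Sp B L' → L = L' := by
    intro B L L' h h'
    by_contra hne'
    exact sp_nrsub B L h (sp_rsub B L' h' L (sp_coatom B L h) (sp_le B L h) hne')
  have hC0 : IsCl Sp {B₁, B₂} := by
    refine ⟨?_, ?_⟩
    · intro B hB
      rw [Finset.mem_insert, Finset.mem_singleton] at hB
      rcases hB with rfl | rfl
      · exact ⟨M₁, h1⟩
      · exact ⟨M₂, h2⟩
    · intro B hB B' hB' hBB'
      rw [Finset.mem_insert, Finset.mem_singleton] at hB hB'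
      rcases hB with rfl | rfl <;> rcases hB' with rfl | rfl
      · exact absurd rfl hBB'
      · exact ⟨L₁, L₂, hL₁, hL₂, hL, hJ₁, hJ₂⟩
      · exact ⟨L₁, L₂, hL₁, hL₂, hL, by rwa [sup_comm], by rwa [sup_comm]⟩
      · exact absurd rfl hBB'
  obtain ⟨C, hCmem, hCmax⟩ := Finset.exists_max_image (Finset.univ.filter (IsCl Sp)) Finset.card
    ⟨{B₁, B₂}, by simp [hC0]⟩
  have hCcl : IsCl Sp C := (Finset.mem_filter.1 hCmem).2
  have hCmax' : ∀ C', IsCl Sp C' → C'.card ≤ C.card := fun C' h => hCmax C' (by simp [h])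
  have hcard : 2 ≤ C.card := by
    have := hCmax' _ hC0
    rwa [Finset.card_pair hne] at this
  obtain ⟨hCsp, hCpair⟩ := hCcl
  obtain ⟨T, hT⟩ : ∃ T : Subgroup G, T = C.sup id := ⟨_, rfl⟩
  have hleT : ∀ B ∈ C, B ≤ T := by
    intro B hB
    rw [hT]
    exact Finset.le_sup (f := id) hB
  have hT1 : ∀ B ∈ C, ∀ L, Sp B L → T ≤ L := by
    intro B hB L hBL
    rw [hT]
    apply Finset.sup_le
    intro B' hB'
    show B' ≤ L
    by_cases hBB' : B = B'
    · rw [← hBB']
      exact sp_le B L hBL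
    · obtain ⟨L', hL'⟩ := hCsp B' hB'
      obtain ⟨K₁, K₂, hK₁, hK₂, hK, hJK₁, hJK₂⟩ := hCpair B hB B' hB' hBB'
      exact (hpair B L B' L' hBL hL' hBB' K₁ K₂ hK₁ hK₂ hK hJK₁ hJK₂).2.2
  obtain ⟨X₁, hX₁, X₂, hX₂, hX⟩ := Finset.one_lt_card.1 (by omega : 1 < C.card)
  obtain ⟨N₁, hN₁⟩ := hCsp X₁ hX₁
  obtain ⟨N₂, hN₂⟩ := hCsp X₂ hX₂
  have hN : N₁ ≠ N₂ := by
    obtain ⟨K₁, K₂, hK₁, hK₂, hK, hJK₁, hJK₂⟩ := hCpair X₁ hX₁ X₂ hX₂ hX
    exact (hpair X₁ N₁ X₂ N₂ hN₁ hN₂ hX K₁ K₂ hK₁ hK₂ hK hJK₁ hJK₂).1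
  have hTN₁ : T ≤ N₁ := hT1 X₁ hX₁ N₁ hN₁
  have hTN₂ : T ≤ N₂ := hT1 X₂ hX₂ N₂ hN₂
  have hcN₁ := sp_coatom X₁ N₁ hN₁
  have hcN₂ := sp_coatom X₂ N₂ hN₂
  have hins : ∀ B L, Sp B L → (∀ B' ∈ C, B ≠ B' → ∃ K₁ K₂ : Subgroup G, IsCoatom K₁ ∧
      IsCoatom K₂ ∧ K₁ ≠ K₂ ∧ B ⊔ B' ≤ K₁ ∧ B ⊔ B' ≤ K₂) → B ∈ C := by
    intro B L hBL hall
    by_contra hBC
    have hcl : IsCl Sp (insert B C) := by
      refine ⟨?_, ?_⟩
      · intro B' hB'
        rw [Finset.mem_insert] at hB'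
        rcases hB' with rfl | hB'
        · exact ⟨L, hBL⟩
        · exact hCsp B' hB'
      · intro B' hB' B'' hB'' hne'
        rw [Finset.mem_insert] at hB' hB''
        rcases hB' with rfl | hB' <;> rcases hB'' with rfl | hB''
        · exact absurd rfl hne'
        · exact hall B'' hB'' hne'
        · obtain ⟨K₁, K₂, hK₁, hK₂, hK, hJK₁, hJK₂⟩ := hall B' hB' (Ne.symm hne')
          exact ⟨K₁, K₂, hK₁, hK₂, hK, by rwa [sup_comm], by rwa [sup_comm]⟩
        · exact hCpair B' hB' B'' hB'' hne'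
    have := hCmax' _ hcl
    rw [Finset.card_insert_of_notMem hBC] at this
    omega
  have hNT : Subgroup.normalizer (T : Set G) ≠ ⊤ := by
    intro h
    have h3 := sp_nc X₁ N₁ hN₁ T (hleT X₁ hX₁) le_top (by rw [h])
    rw [h3] at hTN₁
    exact hcN₁.1 (top_le_iff.1 hTN₁)
  have hchoose : ∃ Bs Ms K₁ K₂ : Subgroup G, Bs ∈ C ∧ Sp Bs Ms ∧ IsCoatom K₁ ∧ IsCoatom K₂ ∧
      K₁ ≠ K₂ ∧ Subgroup.normalizer (T : Set G) ⊓ Ms ≤ K₁ ∧
      Subgroup.normalizer (T : Set G) ⊓ Ms ≤ K₂ := by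
    by_cases hex : ∃ B ∈ C, ∃ L, Sp B L ∧ ¬ Subgroup.normalizer (T : Set G) ≤ L
    · obtain ⟨B, hB, L, hBL, hnot⟩ := hex
      obtain ⟨K, hK, hNK⟩ := (eq_top_or_exists_le_coatom _).resolve_left hNT
      refine ⟨B, L, L, K, hB, hBL, sp_coatom B L hBL, hK, ?_, inf_le_right,
        inf_le_left.trans hNK⟩
      rintro rfl
      exact hnot hNK
    · have hN₂' : Subgroup.normalizer (T : Set G) ≤ N₂ := by
        by_contra hcon
        exact hex ⟨X₂, hX₂, N₂, hN₂, hcon⟩
      exact ⟨X₁, N₁, N₁, N₂, hX₁, hN₁, hcN₁, hcN₂, hN, inf_le_right, inf_le_left.trans hN₂'⟩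
  obtain ⟨Bs, Ms, K₁, K₂, hBs, hBsMs, hK₁, hK₂, hK, hNK₁, hNK₂⟩ := hchoose
  obtain ⟨E, hE⟩ : ∃ E : Finset (Subgroup G), E = C.erase Bs := ⟨_, rfl⟩
  have hEne : E.Nonempty := by
    rw [hE, ← Finset.card_pos, Finset.card_erase_of_mem hBs]
    omega
  have hEmem : ∀ B, B ∈ E ↔ B ≠ Bs ∧ B ∈ C := by
    intro B
    rw [hE, Finset.mem_erase]
  obtain ⟨C0, hC0def⟩ : ∃ C0 : Subgroup G, C0 = E.sup id := ⟨_, rfl⟩
  have hleC0 : ∀ B ∈ E, B ≤ C0 := by
    intro B hB
    rw [hC0def]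
    exact Finset.le_sup (f := id) hB
  have hC0T : C0 ≤ T := by
    rw [hC0def]
    apply Finset.sup_le
    intro B hB
    exact hleT B ((hEmem B).1 hB).2
  have hTeq : T = Bs ⊔ C0 := by
    apply le_antisymm
    · rw [hT]
      apply Finset.sup_le
      intro B hB
      show B ≤ Bs ⊔ C0
      by_cases hBB : B = Bs
      · rw [hBB]
        exact le_sup_left
      · exact (hleC0 B ((hEmem B).2 ⟨hBB, hB⟩)).trans le_sup_right
    · exact sup_le (hleT Bs hBs) hC0T
  have hTMs : T ≤ Ms := hT1 Bs hBs Ms hBsMs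
  have hcMs := sp_coatom Bs Ms hBsMs
  have hEfacts : ∀ B ∈ E, ∀ L, Sp B L → Ms ≠ L ∧ Bs ≤ L ∧ B ≤ Ms := by
    intro B hB L hBL
    obtain ⟨hBne, hBC⟩ := (hEmem B).1 hB
    exact hpair Bs Ms B L hBsMs hBL (Ne.symm hBne) N₁ N₂ hcN₁ hcN₂ hN
      ((sup_le (hleT Bs hBs) (hleT B hBC)).trans hTN₁)
      ((sup_le (hleT Bs hBs) (hleT B hBC)).trans hTN₂)
  have hRS : RSub C0 Ms := by
    rw [hC0def]
    have hgen : ∀ E' : Finset (Subgroup G), E'.Nonempty → (∀ B ∈ E', B ∈ E) →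
        RSub (E'.sup id) Ms := by
      intro E' hE'
      induction hE' using Finset.Nonempty.cons_induction with
      | singleton a =>
        intro hsub
        rw [Finset.sup_singleton]
        have ha : a ∈ E := hsub a (Finset.mem_singleton_self a)
        obtain ⟨L, hL⟩ := hCsp a ((hEmem a).1 ha).2
        obtain ⟨h1', h2', h3'⟩ := hEfacts a ha L hL
        exact sp_rsub a L hL Ms hcMs h3' h1'
      | cons a s has hs ih =>
        intro hsub
        rw [Finset.sup_cons]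
        have ha : a ∈ E := hsub a (Finset.mem_cons_self a s)
        obtain ⟨L, hL⟩ := hCsp a ((hEmem a).1 ha).2
        obtain ⟨h1', h2', h3'⟩ := hEfacts a ha L hL
        exact RSub.sup (sp_rsub a L hL Ms hcMs h3' h1')
          (ih (fun B hB => hsub B (Finset.mem_cons.2 (Or.inr hB))))
    exact hgen E hEne (fun B hB => hB)
  have hQ5 : ∀ m ∈ Ms, MulAut.conj m • C0 = C0 → MulAut.conj m • Bs = Bs := by
    intro m hm hmC0
    obtain ⟨B'', hB''⟩ := hEne
    obtain ⟨hB''ne, hB''C⟩ := (hEmem B'').1 hB''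
    obtain ⟨L'', hL''⟩ := hCsp B'' hB''C
    obtain ⟨h1', h2', h3'⟩ := hEfacts B'' hB'' L'' hL''
    have hsp : Sp (MulAut.conj m • Bs) Ms := by
      have := sp_conj Bs Ms hBsMs m
      rwa [conj_smul_eq_of_mem hm] at this
    have hne3 : MulAut.conj m • Bs ≠ B'' := by
      intro h
      rw [h] at hsp
      exact h1' (sp_uniq B'' Ms L'' hsp hL'')
    have hB''le : ∀ N : Subgroup G, T ≤ N →
        MulAut.conj m • Bs ⊔ B'' ≤ MulAut.conj m • N := by
      intro N hTN
      refine sup_le (cj_mono ((hleT Bs hBs).trans hTN) m) ?_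
      calc B'' ≤ C0 := hleC0 B'' hB''
        _ = MulAut.conj m • C0 := hmC0.symm
        _ ≤ MulAut.conj m • N := cj_mono (hC0T.trans hTN) m
    have hne4 : MulAut.conj m • N₁ ≠ MulAut.conj m • N₂ := fun h => hN (smul_left_cancel _ h)
    obtain ⟨-, h5, -⟩ := hpair (MulAut.conj m • Bs) Ms B'' L'' hsp hL'' hne3
      (MulAut.conj m • N₁) (MulAut.conj m • N₂) (cj_coatom hcN₁ m) (cj_coatom hcN₂ m) hne4
      (hB''le N₁ hTN₁) (hB''le N₂ hTN₂)
    by_contra hne5
    exact (hpair Bs Ms (MulAut.conj m • Bs) Ms hBsMs hsp (Ne.symm hne5) Ms L'' hcMs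
      (sp_coatom B'' L'' hL'') h1' (sup_le (sp_le Bs Ms hBsMs) (sp_le _ Ms hsp))
      (sup_le h2' h5)).1 rfl
  have hQ6 : ¬ Ms ≤ Subgroup.normalizer (C0 : Set G) := by
    intro h
    apply sp_nrsub Bs Ms hBsMs
    refine RSub.step Bs Ms Ms (sp_le Bs Ms hBsMs) ?_ (RSub.refl Ms)
    intro m hm
    rw [mem_normalizer_iff_conj_smul]
    exact hQ5 m hm (mem_normalizer_iff_conj_smul.1 (h hm))
  obtain ⟨x, hxMs, hxne, hxle⟩ := exists_conj_le_normalizer (Nat.card Ms) C0 Ms rfl hRS hQ6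
  have hQ8 : ∀ B ∈ E, MulAut.conj x • B ∈ E := by
    intro B hB
    obtain ⟨hBne, hBC⟩ := (hEmem B).1 hB
    obtain ⟨L, hBL⟩ := hCsp B hBC
    obtain ⟨h1', h2', h3'⟩ := hEfacts B hB L hBL
    have hsp := sp_conj B L hBL x
    have hle1 : MulAut.conj x • B ≤ Subgroup.normalizer (T : Set G) ⊓ Ms := by
      intro y hy
      have hyMs : y ∈ Ms := by
        have := cj_mono h3' x hy
        rwa [conj_smul_eq_of_mem hxMs] at this
      have hyC0 : MulAut.conj y • C0 = C0 :=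
        mem_normalizer_iff_conj_smul.1 (hxle (cj_mono (hleC0 B hB) x hy))
      refine Subgroup.mem_inf.2 ⟨?_, hyMs⟩
      rw [mem_normalizer_iff_conj_smul, hTeq, Subgroup.smul_sup, hyC0, hQ5 y hyMs hyC0]
    have hle2 : ∀ B' ∈ C, B' ≤ Subgroup.normalizer (T : Set G) ⊓ Ms := by
      intro B' hB'
      exact le_inf ((hleT B' hB').trans Subgroup.le_normalizer) ((hleT B' hB').trans hTMs)
    refine (hEmem _).2 ⟨?_, ?_⟩
    · intro h
      rw [h] at hsp
      have h6 := sp_uniq Bs Ms _ hBsMs hsp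
      apply h1'
      have h7 : MulAut.conj x • Ms = MulAut.conj x • L := by
        rw [conj_smul_eq_of_mem hxMs]
        exact h6
      exact smul_left_cancel _ h7
    · refine hins _ _ hsp ?_
      intro B' hB' _
      exact ⟨K₁, K₂, hK₁, hK₂, hK, (sup_le hle1 (hle2 B' hB')).trans hNK₁,
        (sup_le hle1 (hle2 B' hB')).trans hNK₂⟩
  have hfin : MulAut.conj x • C0 ≤ C0 := by
    rw [cj_le_iff]
    have h8 : E.sup id ≤ MulAut.conj x⁻¹ • C0 := by
      apply Finset.sup_le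
      intro B hB
      exact cj_le_iff.1 (hleC0 _ (hQ8 B hB))
    rwa [← hC0def] at h8
  exact hxne (cj_eq_of_le hfin)

/-- Simultaneous conjugates of the pair `(A, M)`. -/
def SpD (A M B L : Subgroup G) : Prop :=
  ∃ g : G, B = MulAut.conj g • A ∧ L = MulAut.conj g • M

theorem flavell_aux [Finite G] : ∀ (d : ℕ) (A : Subgroup G), Nat.card G - Nat.card A = d →
    NC A ⊤ → A ≠ ⊤ →
    sSup {H : Subgroup G | A ≤ H ∧ H ≠ ⊤ ∧ NC A H} = ⊤ ∨
      ∃! M : Subgroup G, IsCoatom M ∧ A ≤ M := by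
  intro d
  induction d using Nat.strong_induction_on with
  | _ d ih =>
    intro A hd hAnc hAtop
    by_cases hYtop : sSup {H : Subgroup G | A ≤ H ∧ H ≠ ⊤ ∧ NC A H} = ⊤
    · exact Or.inl hYtop
    right
    obtain ⟨Y, hY⟩ : ∃ Y : Subgroup G, Y = sSup {H : Subgroup G | A ≤ H ∧ H ≠ ⊤ ∧ NC A H} :=
      ⟨_, rfl⟩
    rw [← hY] at hYtop
    have hmemY : ∀ H : Subgroup G, A ≤ H → H ≠ ⊤ → NC A H → H ≤ Y := by
      intro H h1 h2 h3
      rw [hY]
      exact le_sSup ⟨h1, h2, h3⟩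
    have hAY : A ≤ Y := hmemY A le_rfl hAtop (nc_self A)
    have hYnc : NC A Y := by
      rw [hY]
      exact nc_sSup _ (fun H hH => ⟨hH.1, hH.2.2⟩)
    have hcardG : ∀ B : Subgroup G, Nat.card B ≤ Nat.card G :=
      fun B => Subgroup.card_le_card_group B
    have IH : ∀ B : Subgroup G, Nat.card A < Nat.card B → NC B ⊤ → B ≠ ⊤ →
        sSup {H : Subgroup G | B ≤ H ∧ H ≠ ⊤ ∧ NC B H} = ⊤ ∨
          ∃! M : Subgroup G, IsCoatom M ∧ B ≤ M := by
      intro B hlt h1 h2
      refine ih (Nat.card G - Nat.card B) ?_ B rfl h1 h2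
      have := hcardG B
      omega
    have IH2 : ∀ B : Subgroup G, A ≤ B → NC A B → A ≠ B → B ≠ ⊤ →
        ∃! M : Subgroup G, IsCoatom M ∧ B ≤ M := by
      intro B hAB hncB hne hBtop
      have hlt : Nat.card A < Nat.card B := card_lt_of_lt (lt_of_le_of_ne hAB hne)
      rcases IH B hlt (nc_top_of_le hAnc hAB) hBtop with h | h
      · exfalso
        apply hYtop
        rw [eq_top_iff, ← h]
        apply sSup_le
        rintro H ⟨h1, h2, h3⟩
        exact hmemY H (hAB.trans h1) h2 (nc_trans hAB hncB h1 h3)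
      · exact h
    by_cases hall : ∀ H : Subgroup G, A ≤ H → H < ⊤ → RSub A H
    · have hns : ¬ RSub A ⊤ := fun h => rsub_not_nc h hAtop hAnc
      obtain ⟨M, hAM, hMtop, hMmax⟩ :=
        zipper ⊤ (Nat.card (⊤ : Subgroup G) - Nat.card A) A le_top rfl hall hns
      have hMco : IsCoatom M := by
        refine ⟨hMtop.ne, ?_⟩
        intro b hb
        by_contra hbtop
        exact absurd (hMmax b (hAM.trans hb.le) (lt_top_iff_ne_top.2 hbtop)) (not_le_of_gt hb)
      refine ⟨M, ⟨hMco, hAM⟩, ?_⟩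
      rintro M' ⟨hM'co, hAM'⟩
      have h1 := hMmax M' hAM' (lt_top_iff_ne_top.2 hM'co.1)
      rcases hM'co.le_iff.1 h1 with h | h
      · exact absurd h hMco.1
      · exact h.symm
    · have hex : ∃ H : Subgroup G, A ≤ H ∧ H < ⊤ ∧ ¬ RSub A H := by
        by_contra hcon
        apply hall
        intro H h1 h2
        by_contra h3
        exact hcon ⟨H, h1, h2, h3⟩
      obtain ⟨H₀, hAH₀, hH₀top, hH₀ns⟩ := hex
      obtain ⟨B₀, hAB₀, hB₀H₀, hB₀nc, hB₀ne⟩ :=
        exists_nc_of_not_rsub (Nat.card H₀) A H₀ rfl hAH₀ hH₀ns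
      have hB₀Y : B₀ ≤ Y :=
        hmemY B₀ hAB₀ (fun h => hH₀top.ne (top_le_iff.1 (by rw [← h]; exact hB₀H₀))) hB₀nc
      have hAYne : A ≠ Y := by
        intro h
        exact hB₀ne (le_antisymm hAB₀ (by rw [h]; exact hB₀Y))
      obtain ⟨M, ⟨hMco, hYM⟩, hMuniq⟩ := IH2 Y hAY hYnc hAYne hYtop
      have hF4 : ∀ L : Subgroup G, IsCoatom L → A ≤ L → L ≠ M → RSub A L := by
        intro L hLco hAL hLM
        by_contra hns
        obtain ⟨B, hAB, hBL, hBnc, hBne⟩ := exists_nc_of_not_rsub (Nat.card L) A L rfl hAL hns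
        have hBtop : B ≠ ⊤ := fun h => hLco.1 (top_le_iff.1 (by rw [← h]; exact hBL))
        have hBY : B ≤ Y := hmemY B hAB hBtop hBnc
        obtain ⟨M', -, hM'uniq⟩ := IH2 B hAB hBnc hBne hBtop
        exact hLM ((hM'uniq L ⟨hLco, hBL⟩).trans (hM'uniq M ⟨hMco, hBY.trans hYM⟩).symm)
      have hMself : Subgroup.normalizer (M : Set G) ≤ M := by
        rcases hMco.le_iff.1 (Subgroup.le_normalizer (H := M)) with h | h
        · exfalso
          have := hAnc M (hAY.trans hYM) le_top (by rw [h])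
          exact hMco.1 this
        · exact h.le
      have hNY : ∀ x ∈ Subgroup.normalizer (A : Set G), MulAut.conj x • Y ≤ Y := by
        intro x hx
        have hxA : MulAut.conj x • A = A := mem_normalizer_iff_conj_smul.1 hx
        rw [cj_le_iff]
        have h8 : sSup {H : Subgroup G | A ≤ H ∧ H ≠ ⊤ ∧ NC A H} ≤ MulAut.conj x⁻¹ • Y := by
          apply sSup_le
          rintro H ⟨h1, h2, h3⟩
          rw [← cj_le_iff]
          refine hmemY _ ?_ ?_ ?_
          · have := cj_mono h1 x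
            rwa [hxA] at this
          · intro h
            exact h2 (cj_eq_top_iff.1 h)
          · have := nc_conj h3 x
            rwa [hxA] at this
        rwa [← hY] at h8
      have hNM : Subgroup.normalizer (A : Set G) ≤ M := by
        intro x hx
        have hxY : MulAut.conj x • Y = Y := cj_eq_of_le (hNY x hx)
        have h1 : IsCoatom (MulAut.conj x • M) := cj_coatom hMco x
        have h2 : Y ≤ MulAut.conj x • M := by
          have := cj_mono hYM x
          rwa [hxY] at this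
        have h3 := hMuniq _ ⟨h1, h2⟩
        exact hMself (mem_normalizer_iff_conj_smul.2 h3)
      have hnsM : ¬ RSub A M := by
        intro h
        exact rsub_not_nc (h.restrict hAY hYM) hAYne hYnc
      refine ⟨M, ⟨hMco, hAY.trans hYM⟩, ?_⟩
      rintro K ⟨hKco, hAK⟩
      by_contra hKM
      have hAKr : RSub A K := hF4 K hKco hAK hKM
      have hKN : ¬ K ≤ Subgroup.normalizer (A : Set G) := by
        intro h
        rcases hKco.le_iff.1 (h.trans hNM) with h' | h'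
        · exact hMco.1 h'
        · exact hKM h'.symm
      obtain ⟨x, hxK, hxne, hxle⟩ := exists_conj_le_normalizer (Nat.card K) A K rfl hAKr hKN
      have sp_conj : ∀ B L, SpD A M B L → ∀ x : G,
          SpD A M (MulAut.conj x • B) (MulAut.conj x • L) := by
        rintro B L ⟨g, rfl, rfl⟩ x
        exact ⟨x * g, by rw [conj_mul_smul], by rw [conj_mul_smul]⟩
      have sp_le : ∀ B L, SpD A M B L → B ≤ L := by
        rintro B L ⟨g, rfl, rfl⟩
        exact cj_mono (hAY.trans hYM) g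
      have sp_coatom : ∀ B L, SpD A M B L → IsCoatom L := by
        rintro B L ⟨g, rfl, rfl⟩
        exact cj_coatom hMco g
      have sp_rsub : ∀ B L, SpD A M B L → ∀ L', IsCoatom L' → B ≤ L' → L' ≠ L → RSub B L' := by
        rintro B L ⟨g, rfl, rfl⟩ L' hL' hBL' hne
        have h1 : RSub A (MulAut.conj g⁻¹ • L') := by
          refine hF4 _ (cj_coatom hL' g⁻¹) (cj_le_iff.1 hBL') ?_
          intro h
          apply hne
          rw [← h, cj_cj_inv]
        have h2 := h1.conj g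
        rwa [cj_cj_inv] at h2
      have sp_nrsub : ∀ B L, SpD A M B L → ¬ RSub B L := by
        rintro B L ⟨g, rfl, rfl⟩ h
        have h2 := h.conj g⁻¹
        rw [cj_inv_cj, cj_inv_cj] at h2
        exact hnsM h2
      have sp_nc : ∀ B L, SpD A M B L → NC B ⊤ := by
        rintro B L ⟨g, rfl, rfl⟩
        have := nc_conj hAnc g
        rwa [cj_top] at this
      have sp_card : ∀ B L, SpD A M B L → Nat.card B = Nat.card A := by
        rintro B L ⟨g, rfl, rfl⟩
        exact card_conj_smul g A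
      have hpair : ∀ B₁ M₁ B₂ M₂, SpD A M B₁ M₁ → SpD A M B₂ M₂ → B₁ ≠ B₂ →
          ∀ L₁ L₂ : Subgroup G, IsCoatom L₁ → IsCoatom L₂ → L₁ ≠ L₂ → B₁ ⊔ B₂ ≤ L₁ →
          B₁ ⊔ B₂ ≤ L₂ → M₁ ≠ M₂ ∧ B₁ ≤ M₂ ∧ B₂ ≤ M₁ := by
        intro B₁ M₁ B₂ M₂ hs₁ hs₂ hB L₁ L₂ hL₁ hL₂ hL hJ₁ hJ₂
        obtain ⟨J, hJ⟩ : ∃ J : Subgroup G, J = B₁ ⊔ B₂ := ⟨_, rfl⟩
        rw [← hJ] at hJ₁ hJ₂
        have hB₁J : B₁ ≤ J := by rw [hJ]; exact le_sup_left
        have hB₂J : B₂ ≤ J := by rw [hJ]; exact le_sup_right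
        have hJtop : J ≠ ⊤ := fun h => hL₁.1 (top_le_iff.1 (by rw [← h]; exact hJ₁))
        have hB₁ne : B₁ ≠ J := by
          intro h
          apply hB
          have h1 : B₂ ≤ B₁ := by rw [h]; exact hB₂J
          exact (Subgroup.eq_of_le_of_card_ge h1
            (by rw [sp_card B₁ M₁ hs₁, sp_card B₂ M₂ hs₂])).symm
        have hlt : Nat.card A < Nat.card J := by
          rw [← sp_card B₁ M₁ hs₁]
          exact card_lt_of_lt (lt_of_le_of_ne hB₁J hB₁ne)
        have hJnc : NC J ⊤ := nc_top_of_le (sp_nc B₁ M₁ hs₁) hB₁J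
        have hsup : sSup {H : Subgroup G | J ≤ H ∧ H ≠ ⊤ ∧ NC J H} = ⊤ := by
          rcases IH J hlt hJnc hJtop with h | ⟨M', -, hM'⟩
          · exact h
          · exact absurd ((hM' L₁ ⟨hL₁, hJ₁⟩).trans (hM' L₂ ⟨hL₂, hJ₂⟩).symm) hL
        have hmem : ∀ H : Subgroup G, J ≤ H → H ≠ ⊤ → NC J H → H = J ∨ H ≤ M₁ ∨ H ≤ M₂ := by
          intro H h1 h2 h3
          by_cases hHJ : H = J
          · exact Or.inl hHJ
          right
          obtain ⟨L, hLco, hHL⟩ := (eq_top_or_exists_le_coatom H).resolve_left h2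
          by_cases hLM₁ : L = M₁
          · left
            rw [← hLM₁]
            exact hHL
          by_cases hLM₂ : L = M₂
          · right
            rw [← hLM₂]
            exact hHL
          exfalso
          have hr₁ : RSub B₁ L :=
            sp_rsub B₁ M₁ hs₁ L hLco ((hB₁J.trans h1).trans hHL) hLM₁
          have hr₂ : RSub B₂ L :=
            sp_rsub B₂ M₂ hs₂ L hLco ((hB₂J.trans h1).trans hHL) hLM₂
          have hr : RSub J L := by
            rw [hJ]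
            exact RSub.sup hr₁ hr₂
          exact rsub_not_nc (hr.restrict h1 hHL) (Ne.symm hHJ) h3
        have hU : ∀ U : Subgroup G, IsCoatom U →
            (∀ H : Subgroup G, J ≤ H → H ≠ ⊤ → NC J H → H ≤ U) → False := by
          intro U hU hall'
          apply hU.1
          rw [eq_top_iff, ← hsup]
          apply sSup_le
          rintro H ⟨h1, h2, h3⟩
          exact hall' H h1 h2 h3
        have hcM₁ := sp_coatom B₁ M₁ hs₁
        have hcM₂ := sp_coatom B₂ M₂ hs₂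
        by_cases hP₁ : J ≤ M₁
        · by_cases hP₂ : J ≤ M₂
          · refine ⟨?_, hB₁J.trans hP₂, hB₂J.trans hP₁⟩
            intro hMM
            apply hU M₁ hcM₁
            intro H h1 h2 h3
            rcases hmem H h1 h2 h3 with h | h | h
            · rw [h]
              exact hP₁
            · exact h
            · rw [hMM]
              exact h
          · exfalso
            apply hU M₁ hcM₁
            intro H h1 h2 h3
            rcases hmem H h1 h2 h3 with h | h | h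
            · rw [h]
              exact hP₁
            · exact h
            · exact absurd (h1.trans h) hP₂
        · by_cases hP₂ : J ≤ M₂
          · exfalso
            apply hU M₂ hcM₂
            intro H h1 h2 h3
            rcases hmem H h1 h2 h3 with h | h | h
            · rw [h]
              exact hP₂
            · exact absurd (h1.trans h) hP₁
            · exact h
          · exfalso
            apply hU L₁ hL₁
            intro H h1 h2 h3
            rcases hmem H h1 h2 h3 with h | h | h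
            · rw [h]
              exact hJ₁
            · exact absurd (h1.trans h) hP₁
            · exact absurd (h1.trans h) hP₂
      have hs₁ : SpD A M A M := ⟨1, by rw [map_one, one_smul], by rw [map_one, one_smul]⟩
      have hs₂ : SpD A M (MulAut.conj x • A) (MulAut.conj x • M) := ⟨x, rfl, rfl⟩
      have hxAK : MulAut.conj x • A ≤ K := by
        have := cj_mono hAK x
        rwa [conj_smul_eq_of_mem hxK] at this
      exact clique_contra (SpD A M) sp_conj sp_le sp_coatom sp_rsub sp_nrsub sp_nc hpair A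
        (MulAut.conj x • A) M (MulAut.conj x • M) hs₁ hs₂ (Ne.symm hxne) K M hKco hMco hKM
        (sup_le hAK hxAK) (sup_le (hAY.trans hYM) (hxle.trans hNM))

end Cfsg.Agent.Lib.Helper17.Flavell
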