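import Mathlib
import Cfsg.Agent.S3947

set_option autoImplicit false

namespace Cfsg.Agent.Lib.Helper17.Flavell2

open scoped Pointwise
open Cfsg.Agent.S0066 Cfsg.Agent.Lib.Helper10.SZ Cfsg.Agent.Lib.Helper10.Coprime
open Cfsg.Agent.Lib.Helper17.Flavell

universe u

/-- The commutator map `g ↦ [g, a] = g a g⁻¹ a⁻¹`. -/
def cm {Γ : Type*} [Group Γ] (a : Γ) (g : Γ) : Γ := g * a * g⁻¹ * a⁻¹

theorem zpowers_subgroupOf {Γ : Type*} [Group Γ] (H : Subgroup Γ) (a : Γ) (ha : a ∈ H) :
    (Subgroup.zpowers a).subgroupOf H = Subgroup.zpowers (⟨a, ha⟩ : H) := by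
  ext ⟨x, hx⟩
  rw [Subgroup.mem_subgroupOf, Subgroup.mem_zpowers_iff, Subgroup.mem_zpowers_iff]
  constructor
  · rintro ⟨n, hn⟩
    exact ⟨n, Subtype.ext (by rw [Subgroup.coe_zpow]; exact hn)⟩
  · rintro ⟨n, hn⟩
    refine ⟨n, ?_⟩
    have := congrArg Subtype.val hn
    rwa [Subgroup.coe_zpow] at this

/-- If the normal closure of `a` is the whole finite group, then `a` together with the
`k`-fold iterated commutators `[g, a, …, a]` generates the group. -/
theorem iter_gen : ∀ (n : ℕ) (Γ : Type u) [Group Γ] [Finite Γ], Nat.card Γ = n → ∀ (a : Γ),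
    Subgroup.normalClosure ((Subgroup.zpowers a : Subgroup Γ) : Set Γ) = ⊤ → ∀ k : ℕ,
    Subgroup.closure (insert a (Set.range ((cm a)^[k]))) = ⊤ := by
  intro n
  induction n using Nat.strong_induction_on with
  | _ n ih =>
    intro Γ _ _ hn a ha k
    obtain ⟨R, hR⟩ : ∃ R : Subgroup Γ,
        R = Subgroup.closure (insert a (Set.range ((cm a)^[k]))) := ⟨_, rfl⟩
    rw [← hR]
    have haR : a ∈ R := by
      rw [hR]
      exact Subgroup.subset_closure (Set.mem_insert _ _)
    have hAR : Subgroup.zpowers a ≤ R := by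
      rw [Subgroup.zpowers_le]
      exact haR
    have hkR : ∀ g : Γ, (cm a)^[k] g ∈ R := by
      intro g
      rw [hR]
      exact Subgroup.subset_closure (Set.mem_insert_of_mem _ (Set.mem_range_self g))
    by_cases hAtop : Subgroup.zpowers a = ⊤
    · rw [hAtop] at hAR
      exact top_le_iff.1 hAR
    rcases Cfsg.Agent.S3947.result (Subgroup.zpowers a) ha hAtop with h | h
    · rw [eq_top_iff, ← h]
      apply sSup_le
      rintro H ⟨h1, h2, h3⟩
      have haH : a ∈ H := h1 (Subgroup.mem_zpowers a)
      have hlt : Nat.card H < n := by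
        rw [← hn, ← Subgroup.card_top (G := Γ)]
        exact card_lt_of_lt (lt_top_iff_ne_top.2 h2)
      have h4 : Subgroup.normalClosure
          ((Subgroup.zpowers (⟨a, haH⟩ : H) : Subgroup H) : Set H) = ⊤ := by
        rw [← zpowers_subgroupOf H a haH]
        exact h3
      have h5 := ih (Nat.card H) hlt H rfl ⟨a, haH⟩ h4 k
      have hiter : ∀ (j : ℕ) (x : H),
          (((cm (⟨a, haH⟩ : H))^[j] x : H) : Γ) = (cm a)^[j] (x : Γ) := by
        intro j
        induction j with
        | zero =>
          intro x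
          rfl
        | succ j ihj =>
          intro x
          rw [Function.iterate_succ_apply', Function.iterate_succ_apply', ← ihj x]
          rfl
      have h7 : Subgroup.closure (insert (⟨a, haH⟩ : H)
          (Set.range ((cm (⟨a, haH⟩ : H))^[k]))) ≤ R.subgroupOf H := by
        rw [Subgroup.closure_le]
        rintro y (rfl | ⟨z, rfl⟩)
        · exact haR
        · show (((cm (⟨a, haH⟩ : H))^[k] z : H) : Γ) ∈ R
          rw [hiter]
          exact hkR _
      intro x hx
      have h6 : (⟨x, hx⟩ : H) ∈ Subgroup.closure (insert (⟨a, haH⟩ : H)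
          (Set.range ((cm (⟨a, haH⟩ : H))^[k]))) := by
        rw [h5]
        exact Subgroup.mem_top _
      exact h7 h6
    · obtain ⟨M, ⟨hMco, hAM⟩, hMuniq⟩ := h
      by_contra hRtop
      obtain ⟨M', hM'co, hRM'⟩ := (eq_top_or_exists_le_coatom R).resolve_left hRtop
      have hM' : M' = M := hMuniq M' ⟨hM'co, hAR.trans hRM'⟩
      rw [hM'] at hRM'
      have haM : a ∈ M := hAM (Subgroup.mem_zpowers a)
      have hMself : Subgroup.normalizer (M : Set Γ) ≤ M := by
        rcases hMco.le_iff.1 (Subgroup.le_normalizer (H := M)) with h | h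
        · exfalso
          haveI : M.Normal := Subgroup.normalizer_eq_top_iff.1 h
          have h1 : Subgroup.normalClosure ((Subgroup.zpowers a : Subgroup Γ) : Set Γ) ≤ M :=
            Subgroup.normalClosure_le_normal hAM
          rw [ha] at h1
          exact hMco.1 (top_le_iff.1 h1)
        · exact h.le
      have hstep : ∀ g : Γ, g ∉ M → cm a g ∉ M := by
        intro g hg hcm
        apply hg
        have h1 : g * a * g⁻¹ ∈ M := by
          have e : g * a * g⁻¹ = cm a g * a := by
            unfold cm
            group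
          rw [e]
          exact M.mul_mem hcm haM
        have h2 : Subgroup.zpowers a ≤ MulAut.conj g⁻¹ • M := by
          rw [Subgroup.zpowers_le, mem_conj_smul_iff, inv_inv]
          exact h1
        have h3 := hMuniq _ ⟨cj_coatom hMco g⁻¹, h2⟩
        have h4 : g⁻¹ ∈ M := hMself (mem_normalizer_iff_conj_smul.2 h3)
        simpa using M.inv_mem h4
      have hiter : ∀ (j : ℕ) (g : Γ), g ∉ M → (cm a)^[j] g ∉ M := by
        intro j
        induction j with
        | zero =>
          intro g hg
          exact hg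
        | succ j ihj =>
          intro g hg
          rw [Function.iterate_succ_apply']
          exact hstep _ (ihj g hg)
      obtain ⟨g, hg⟩ : ∃ g : Γ, g ∉ M := by
        by_contra hcon
        apply hMco.1
        rw [eq_top_iff]
        intro g _
        by_contra hg
        exact hcon ⟨g, hg⟩
      exact hiter k g hg (hRM' (hkR g))

end Cfsg.Agent.Lib.Helper17.Flavell2
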