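import Mathlib
import Cfsg.Prelude.Def_PLocal
import Cfsg.Agent.Lib.Helper17.TRT

set_option autoImplicit false
open scoped Pointwise commutatorElement

namespace Cfsg.Agent.Lib.Helper17.Gillam

open Cfsg.Agent.Lib.Helper17.CD Cfsg.Agent.Lib.Helper17.CL2 Cfsg.Agent.Lib.Helper17.Syl
open Cfsg.Agent.Lib.Helper17.TRT

variable {G : Type*} [Group G]

/-- The core of Thompson's replacement: if the commutators `⁅x, a⁆`, `a ∈ A`, generate an abelian
subgroup `M` normalizing `A` (abelian of largest order), then `M (A ∩ C(M))` is abelian of largest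
order. -/
theorem replacement_core [Finite G] {A : Subgroup G} (hA : A ∈ Cfsg.maxAbelianSubgroups G) (x : G)
    (hab : IsMulCommutative ↥(Subgroup.closure {m | ∃ a ∈ A, m = ⁅x, a⁆}))
    (hN : ∀ a ∈ A, ⁅x, a⁆ ∈ Subgroup.normalizer (A : Set G)) :
    Subgroup.closure {m | ∃ a ∈ A, m = ⁅x, a⁆} ⊔
      (A ⊓ Subgroup.centralizer ((Subgroup.closure {m | ∃ a ∈ A, m = ⁅x, a⁆} : Subgroup G) : Set G))
      ∈ Cfsg.maxAbelianSubgroups G := by
  classical
  have habA : ∀ a ∈ A, ∀ b ∈ A, a * b = b * a := fun a ha b hb =>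
    haveI := hA.1
    setLike_mul_comm ha hb
  set M : Subgroup G := Subgroup.closure {m | ∃ a ∈ A, m = ⁅x, a⁆} with hMdef
  have hgen : ∀ a ∈ A, ⁅x, a⁆ ∈ M := fun a ha => Subgroup.subset_closure ⟨a, ha, rfl⟩
  have hMab : IsMulCommutative ↥M := hab
  have habM : ∀ a ∈ M, ∀ b ∈ M, a * b = b * a := fun a ha b hb =>
    haveI := hMab
    setLike_mul_comm ha hb
  have hF3 : ∀ a ∈ A, ∀ a' ∈ A, ⁅x, a'⁆⁻¹ * (a * ⁅x, a'⁆ * a⁻¹) ∈ A := by
    intro a ha a' ha'
    have hn : ⁅x, a'⁆⁻¹ ∈ Subgroup.normalizer (A : Set G) := Subgroup.inv_mem _ (hN a' ha')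
    have h1 : ⁅x, a'⁆⁻¹ * a * ⁅x, a'⁆⁻¹⁻¹ ∈ A := (Subgroup.mem_normalizer_iff.1 hn a).1 ha
    have e : ⁅x, a'⁆⁻¹ * (a * ⁅x, a'⁆ * a⁻¹) = (⁅x, a'⁆⁻¹ * a * ⁅x, a'⁆⁻¹⁻¹) * a⁻¹ := by group
    rw [e]; exact A.mul_mem h1 (A.inv_mem ha)
  have hF4 : ∀ a ∈ A, ⁅x, a⁆ ∈ A → a ∈ Subgroup.centralizer (M : Set G) := by
    intro a ha hca
    have hM : M ≤ Subgroup.centralizer ({a} : Set G) := by
      rw [hMdef, Subgroup.closure_le]
      rintro _ ⟨a', ha', rfl⟩
      rw [SetLike.mem_coe, Subgroup.mem_centralizer_iff]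
      intro h hh
      rw [Set.mem_singleton_iff] at hh
      rw [hh]
      have e1 := comm_mul x a a'
      have e2 := comm_mul x a' a
      rw [habA a ha a' ha'] at e1
      have e3 : a' * ⁅x, a⁆ * a'⁻¹ = ⁅x, a⁆ := by rw [habA a' ha' _ hca]; group
      rw [e3] at e2
      have e4 : ⁅x, a⁆ * (a * ⁅x, a'⁆ * a⁻¹) = ⁅x, a⁆ * ⁅x, a'⁆ := by
        rw [← e1, e2]; exact habM _ (hgen a' ha') _ (hgen a ha)
      have e5 := mul_left_cancel e4
      calc a * ⁅x, a'⁆ = (a * ⁅x, a'⁆ * a⁻¹) * a := by group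
        _ = ⁅x, a'⁆ * a := by rw [e5]
    rw [Subgroup.mem_centralizer_iff]
    intro m hm
    exact (Subgroup.mem_centralizer_iff.1 (hM hm) a rfl).symm
  have hMinst : IsMulCommutative ↥M := hMab
  let θ : ↥A →* ↥M ⧸ (A.subgroupOf M) := MonoidHom.mk'
    (fun a => (QuotientGroup.mk (⟨⁅x, (a : G)⁆, hgen a a.2⟩ : ↥M) : ↥M ⧸ (A.subgroupOf M)))
    (by
      intro a a'
      rw [← QuotientGroup.mk_mul, QuotientGroup.eq, Subgroup.mem_subgroupOf]
      show ⁅x, (a : G) * (a' : G)⁆⁻¹ * (⁅x, (a : G)⁆ * ⁅x, (a' : G)⁆) ∈ A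
      have e : ⁅x, (a : G) * (a' : G)⁆⁻¹ * (⁅x, (a : G)⁆ * ⁅x, (a' : G)⁆) =
          (⁅x, (a' : G)⁆⁻¹ * ((a : G) * ⁅x, (a' : G)⁆ * (a : G)⁻¹))⁻¹ := by
        rw [comm_mul]; group
      rw [e]
      exact A.inv_mem (hF3 a a.2 a' a'.2))
  have hker : ∀ a : ↥A, a ∈ θ.ker → (a : G) ∈ A ⊓ Subgroup.centralizer (M : Set G) := by
    intro a ha
    rw [MonoidHom.mem_ker] at ha
    have h1 : (QuotientGroup.mk (⟨⁅x, (a : G)⁆, hgen a a.2⟩ : ↥M) : ↥M ⧸ (A.subgroupOf M)) = 1 := ha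
    rw [QuotientGroup.eq_one_iff, Subgroup.mem_subgroupOf] at h1
    exact ⟨a.2, hF4 a a.2 h1⟩
  have h1 := Subgroup.card_mul_index θ.ker
  have h2 := Subgroup.index_ker θ
  have h3 : Nat.card ↥θ.range ≤ A.relIndex M := Subgroup.card_le_card_group θ.range
  have h5 : Nat.card ↥θ.ker ≤ Nat.card ↥(A ⊓ Subgroup.centralizer (M : Set G)) := by
    apply Nat.card_le_card_of_injective (fun a : ↥θ.ker =>
      (⟨((a : ↥A) : G), hker a a.2⟩ : ↥(A ⊓ Subgroup.centralizer (M : Set G))))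
    intro a b hab
    apply Subtype.ext
    apply Subtype.ext
    exact congrArg (fun z : ↥(A ⊓ Subgroup.centralizer (M : Set G)) => (z : G)) hab
  have hcardA : Nat.card ↥A ≤ Nat.card ↥(A ⊓ Subgroup.centralizer (M : Set G)) * A.relIndex M := by
    rw [← h1, h2]
    exact Nat.mul_le_mul h5 h3
  have h6 := relIndex_mul_card_inf A M
  have hMC : M ≤ Subgroup.centralizer ((A ⊓ Subgroup.centralizer (M : Set G) : Subgroup G) : Set G) :=
    Subgroup.le_centralizer_iff.1 inf_le_right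
  have h7 := Subgroup.coe_mul_of_left_le_normalizer_right M (A ⊓ Subgroup.centralizer (M : Set G))
    (hMC.trans (Subgroup.centralizer_le_normalizer _))
  have h8 := card_mulSet_mul_card_inf M (A ⊓ Subgroup.centralizer (M : Set G))
  rw [← h7] at h8
  have h9 : M ⊓ (A ⊓ Subgroup.centralizer (M : Set G)) = A ⊓ M :=
    le_antisymm (le_inf (inf_le_right.trans inf_le_left) inf_le_left)
      (le_inf inf_le_right (le_inf inf_le_left (inf_le_right.trans ((isMulComm_iff M).1 hMab))))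
  rw [h9] at h8
  have h8' : Nat.card ↥(M ⊔ (A ⊓ Subgroup.centralizer (M : Set G))) * Nat.card ↥(A ⊓ M) =
      Nat.card ↥M * Nat.card ↥(A ⊓ Subgroup.centralizer (M : Set G)) := h8
  have hcardA' : Nat.card ↥A ≤ Nat.card ↥(M ⊔ (A ⊓ Subgroup.centralizer (M : Set G))) := by
    have hpos : 0 < Nat.card ↥(A ⊓ M) := Nat.card_pos
    have e : Nat.card ↥(M ⊔ (A ⊓ Subgroup.centralizer (M : Set G))) * Nat.card ↥(A ⊓ M) =
        (Nat.card ↥(A ⊓ Subgroup.centralizer (M : Set G)) * A.relIndex M) * Nat.card ↥(A ⊓ M) := by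
      rw [h8', ← h6]; ring
    rw [Nat.eq_of_mul_eq_mul_right hpos e]
    exact hcardA
  have hA'ab : IsMulCommutative ↥(M ⊔ (A ⊓ Subgroup.centralizer (M : Set G))) :=
    isMulComm_sup hMab (isMulComm_of_le hA.1 inf_le_left) hMC
  exact maxAb_of_card hA hA'ab hcardA'

/-- The extremal argument: with `D` an abelian normal subgroup containing all commutators
`⁅x, a⁆`, an abelian subgroup `A` of largest order that maximizes `|A ∩ D|` within a normal subgroup
`N₀` is normalized by every `x` whose commutators with `A` normalize `A`. -/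
theorem mem_normalizer_of_extremal [Finite G] {A D N₀ : Subgroup G} (hN₀ : N₀.Normal)
    (hA : A ∈ Cfsg.maxAbelianSubgroups G) (hAN : A ≤ N₀) (hD : IsMulCommutative ↥D)
    (hext : ∀ A' ∈ Cfsg.maxAbelianSubgroups G, A' ≤ N₀ →
      Nat.card ↥(A' ⊓ D) ≤ Nat.card ↥(A ⊓ D))
    (x : G) (hxD : ∀ a ∈ A, ⁅x, a⁆ ∈ D)
    (hxN : ∀ a ∈ A, ⁅x, a⁆ ∈ Subgroup.normalizer (A : Set G)) :
    x ∈ Subgroup.normalizer (A : Set G) := by
  classical
  have hMD : Subgroup.closure {m | ∃ a ∈ A, m = ⁅x, a⁆} ≤ D := by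
    rw [Subgroup.closure_le]
    rintro _ ⟨a, ha, rfl⟩
    exact hxD a ha
  have hMN₀ : Subgroup.closure {m | ∃ a ∈ A, m = ⁅x, a⁆} ≤ N₀ := by
    rw [Subgroup.closure_le]
    rintro _ ⟨a, ha, rfl⟩
    rw [SetLike.mem_coe, commutatorElement_def]
    exact mul_mem (hN₀.conj_mem a (hAN ha) x) (inv_mem (hAN ha))
  have hMab : IsMulCommutative ↥(Subgroup.closure {m | ∃ a ∈ A, m = ⁅x, a⁆}) :=
    isMulComm_of_le hD hMD
  have h1 := replacement_core hA x hMab hxN
  have h2 := hext _ h1 (sup_le hMN₀ (inf_le_left.trans hAN))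
  have h3 : Subgroup.closure {m | ∃ a ∈ A, m = ⁅x, a⁆} ⊔ (A ⊓ D) ≤
      (Subgroup.closure {m | ∃ a ∈ A, m = ⁅x, a⁆} ⊔
      (A ⊓ Subgroup.centralizer ((Subgroup.closure {m | ∃ a ∈ A, m = ⁅x, a⁆} : Subgroup G) : Set G)))
      ⊓ D := by
    refine le_inf (sup_le le_sup_left (le_trans ?_ le_sup_right)) (sup_le hMD inf_le_right)
    refine le_inf inf_le_left (inf_le_right.trans ?_)
    exact ((isMulComm_iff D).1 hD).trans (Subgroup.centralizer_le (SetLike.coe_subset_coe.2 hMD))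
  have h4 : Nat.card ↥(Subgroup.closure {m | ∃ a ∈ A, m = ⁅x, a⁆} ⊔ (A ⊓ D)) ≤
      Nat.card ↥(A ⊓ D) := (Subgroup.card_le_of_le h3).trans h2
  have h5 : A ⊓ D = Subgroup.closure {m | ∃ a ∈ A, m = ⁅x, a⁆} ⊔ (A ⊓ D) :=
    Subgroup.eq_of_le_of_card_ge le_sup_right h4
  have h6 : ∀ a ∈ A, ⁅x, a⁆ ∈ A := by
    intro a ha
    have : ⁅x, a⁆ ∈ A ⊓ D := by
      rw [h5]
      exact Subgroup.mem_sup_left (Subgroup.subset_closure ⟨a, ha, rfl⟩)
    exact (Subgroup.mem_inf.1 this).1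
  apply mem_normalizer_of_conj_mem
  intro r hr
  have e : x * r * x⁻¹ = ⁅x, r⁆ * r := by rw [commutatorElement_def]; group
  rw [e]
  exact mul_mem (h6 r hr) hr

/-- **Gillam's theorem**: in a finite metabelian `p`-group, the normal closure of an abelian subgroup
of largest order contains a normal abelian subgroup of the same order. -/
theorem gillam [Finite G] {p : ℕ} [Fact p.Prime] (hG : IsPGroup p G)
    (hmeta : IsMulCommutative ↥(commutator G)) (A₀ : Subgroup G)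
    (hA₀ : A₀ ∈ Cfsg.maxAbelianSubgroups G) :
    ∃ B ∈ Cfsg.maxAbelianSubgroups G, B.Normal ∧ B ≤ Subgroup.normalClosure (A₀ : Set G) := by
  classical
  haveI : Nonempty {A : Subgroup G // A ∈ Cfsg.maxAbelianSubgroups G ∧
      A ≤ Subgroup.normalClosure (A₀ : Set G)} := ⟨⟨A₀, hA₀, Subgroup.le_normalClosure⟩⟩
  obtain ⟨⟨A, hA, hAN⟩, hmax⟩ := Finite.exists_max
    (fun A : {A : Subgroup G // A ∈ Cfsg.maxAbelianSubgroups G ∧
      A ≤ Subgroup.normalClosure (A₀ : Set G)} => Nat.card ↥((A.1) ⊓ commutator G))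
  have hext : ∀ A' ∈ Cfsg.maxAbelianSubgroups G, A' ≤ Subgroup.normalClosure (A₀ : Set G) →
      Nat.card ↥(A' ⊓ commutator G) ≤ Nat.card ↥(A ⊓ commutator G) :=
    fun A' hA' hA'N => hmax ⟨A', hA', hA'N⟩
  have hcomm : ∀ x a : G, ⁅x, a⁆ ∈ commutator G := by
    intro x a
    rw [commutator_def]
    exact Subgroup.commutator_mem_commutator (Subgroup.mem_top x) (Subgroup.mem_top a)
  have hDn : (commutator G).Normal := inferInstance
  have key := mem_normalizer_of_extremal (Subgroup.normalClosure_normal (s := (A₀ : Set G))) hA hAN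
    hmeta hext
  -- Step 1: the derived subgroup normalizes `A`
  have hDA : commutator G ≤ Subgroup.normalizer (A : Set G) := by
    by_contra hcon
    have hAD : A ≤ Subgroup.normalizer ((commutator G : Subgroup G) : Set G) := by
      rw [Subgroup.normalizer_eq_top]; exact le_top
    obtain ⟨x, -, hxN, hx⟩ := exists_elt hG hAD hcon
    exact hxN (key x (fun a ha => (hx a ha).1) (fun a ha => (hx a ha).2))
  -- Step 2: every element normalizes `A`
  refine ⟨A, hA, ?_, hAN⟩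
  have hAtop : Subgroup.normalizer (A : Set G) = ⊤ := by
    rw [eq_top_iff]
    intro g _
    exact key g (fun a _ => hcomm g a) (fun a _ => hDA (hcomm g a))
  exact Subgroup.normalizer_eq_top_iff.1 hAtop

end Cfsg.Agent.Lib.Helper17.Gillam
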