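import Mathlib
import Cfsg.Agent.S3056

/-!
The graph on Sylow `p`-subgroups (adjacent = distinct with nontrivial intersection):
the stabilizer of the connected component of a Sylow subgroup.
-/

set_option autoImplicit false

namespace Cfsg.Agent.Lib.Helper17.SylGraph

open Relation Cfsg.Agent.S3056

variable {G : Type*} [Group G] {p : ℕ}

/-- the set of `g` with `g • P` in the connected component of `P`, as a subgroup. -/
def stabComp (P : Sylow p G) : Subgroup G where
  carrier := {g | ReflTransGen adj P (g • P)}
  mul_mem' := by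
    intro g h hg hh
    show ReflTransGen adj P ((g * h) • P)
    rw [mul_smul]
    exact ReflTransGen.trans hg (rtg_smul g hh)
  one_mem' := by
    show ReflTransGen adj P ((1 : G) • P)
    rw [one_smul]
  inv_mem' := by
    intro g hg
    show ReflTransGen adj P (g⁻¹ • P)
    have h1 : ReflTransGen adj (g⁻¹ • P) (g⁻¹ • g • P) := rtg_smul g⁻¹ hg
    rw [inv_smul_smul] at h1
    exact rtg_symm h1

theorem mem_stabComp {P : Sylow p G} {g : G} :
    g ∈ stabComp P ↔ ReflTransGen adj P (g • P) := Iff.rfl

/-- normalizers of nontrivial subgroups of `P` stabilize the component of `P`. -/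
theorem normalizer_le_stabComp (P : Sylow p G) (Q : Subgroup G) (hQP : Q ≤ (P : Subgroup G))
    (hQ : Q ≠ ⊥) : Subgroup.normalizer (Q : Set G) ≤ stabComp P := by
  intro g hg
  rw [mem_stabComp]
  by_cases h : g • P = P
  · rw [h]
  · apply ReflTransGen.single
    refine ⟨fun h' => h h'.symm, ?_⟩
    intro h0
    apply hQ
    rw [eq_bot_iff, ← h0]
    intro q hq
    refine Subgroup.mem_inf.2 ⟨hQP hq, ?_⟩
    rw [Cfsg.Agent.Lib.Helper12.SylowBasic.mem_smul_sylow_iff]
    have h1 : g⁻¹ * q * g ∈ Q := by
      have := (Subgroup.mem_normalizer_iff.1 (Subgroup.inv_mem _ hg) q).1 hq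
      rwa [inv_inv] at this
    exact hQP h1

theorem connected_of_stabComp_eq_top [Finite G] [Fact p.Prime] (P : Sylow p G)
    (h : stabComp P = ⊤) : Cfsg.IsSylowChainConnected p G := by
  rw [connected_iff]
  have key : ∀ S : Sylow p G, ReflTransGen adj P S := by
    intro S
    obtain ⟨g, rfl⟩ := MulAction.exists_smul_eq G P S
    exact mem_stabComp.1 (h ▸ Subgroup.mem_top g)
  intro S T
  exact ReflTransGen.trans (rtg_symm (key S)) (key T)

theorem stabComp_eq_top_of_connected (P : Sylow p G) (h : Cfsg.IsSylowChainConnected p G) :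
    stabComp P = ⊤ := by
  rw [eq_top_iff]
  intro g _
  exact (connected_iff.1 h) P (g • P)

end Cfsg.Agent.Lib.Helper17.SylGraph
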